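import Cfsg.Agent.H3.Hv1
import Cfsg.Agent.H8.SharpTwo

/-!
The subgroup generated by the derangements of a transitive permutation group.
-/

set_option autoImplicit false

open MulAction Subgroup

namespace CfsgDer

variable {G Ω : Type*} [Group G] [MulAction G Ω]

variable (G Ω) in
abbrev D : Subgroup G := closure {g : G | ∀ ω : Ω, g • ω ≠ ω}

instance : (D G Ω).Normal := ⟨fun x hx g => by
  refine closure_induction (p := fun x _ => g * x * g⁻¹ ∈ D G Ω) (fun x hx => subset_closure fun ω h => ?_)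
    (by simp) (fun a b _ _ h1 h2 => ?_) (fun a _ h => ?_) hx
  · rw [mul_smul, mul_smul, smul_eq_iff_eq_inv_smul] at h
    exact hx _ h
  · simpa [mul_assoc] using mul_mem h1 h2
  · simpa [mul_assoc] using inv_mem h⟩

variable [Finite G] [Finite Ω]

theorem main [IsPretransitive G Ω] : IsPretransitive (D G Ω) Ω ∧
    ∀ g : G, g ∉ D G Ω → Nat.card (fixedBy Ω g) = 1 := by
  classical
  rcases isEmpty_or_nonempty Ω with h | h
  · exact ⟨⟨fun a => h.elim a⟩, fun g hg => (hg (subset_closure fun a => h.elim a)).elim⟩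
  have := Fintype.ofFinite G
  have h1 := CfsgH8.sum_card_fixedBy_of_transitive (G := G) (Ω := Ω)
  have h2 := CfsgH8.sum_card_fixedBy (G := D G Ω) (Ω := Ω)
  rw [← Finset.sum_filter_add_sum_filter_not _ (· ∈ D G Ω),
    Finset.sum_subtype (p := (· ∈ D G Ω)) _ (by simp)] at h1
  have le : ∀ g ∈ Finset.univ.filter (¬ · ∈ D G Ω), 1 ≤ Nat.card (fixedBy Ω g) := fun g hg => by
    have : ¬ ∀ ω : Ω, g • ω ≠ ω := fun e => (Finset.mem_filter.1 hg).2 (subset_closure e)
    push Not at this
    obtain ⟨a, ha⟩ := this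
    haveI : Nonempty (fixedBy Ω g) := ⟨⟨a, ha⟩⟩
    exact Nat.card_pos
  have h3 := Finset.sum_le_sum le
  have h4 := Finset.card_filter_add_card_filter_not (s := Finset.univ) (· ∈ D G Ω)
  rw [← Fintype.card_subtype, Finset.card_univ, ← Nat.card_eq_fintype_card, ← Nat.card_eq_fintype_card,
    Finset.card_eq_sum_ones] at h4
  have h5 : 0 < Nat.card (orbitRel.Quotient (D G Ω) Ω) := by
    haveI : Nonempty (orbitRel.Quotient (D G Ω) Ω) := ⟨Quotient.mk _ h.some⟩
    exact Nat.card_pos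
  have h6 : ∑ g : D G Ω, Nat.card (fixedBy Ω (g : G)) = _ := h2
  have h7 := Nat.card_pos (α := D G Ω)
  have h8 : Nat.card (orbitRel.Quotient (D G Ω) Ω) = 1 := by
    by_contra h9
    have := Nat.mul_le_mul_right (Nat.card (D G Ω)) (show 2 ≤ Nat.card (orbitRel.Quotient (D G Ω) Ω) by omega)
    omega
  rw [h8] at h6
  refine ⟨(pretransitive_iff_subsingleton_quotient _ _).2 (Nat.card_eq_one_iff_unique.1 h8).1, fun g hg =>
    ((Finset.sum_eq_sum_iff_of_le le).1 (by omega) g (by simpa using hg)).symm⟩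

theorem mem_of_two [IsPretransitive G Ω] {g : G} {a b : Ω} (hab : a ≠ b) (h1 : g • a = a) (h2 : g • b = b) :
    g ∈ D G Ω := by
  by_contra h
  exact hab (congrArg Subtype.val ((Nat.card_eq_one_iff_unique.1 ((main (Ω := Ω)).2 g h)).1.elim ⟨a, h1⟩ ⟨b, h2⟩))

theorem index_eq [IsPretransitive G Ω] (a : Ω) : (D G Ω).relIndex (stabilizer G a) = (D G Ω).index := by
  rw [← relIndex_top_right, ← relIndex_sup_right (stabilizer G a)]
  congr 1
  refine eq_top_iff.2 fun g _ => ?_
  obtain ⟨d, hd⟩ := (main (G := G) (Ω := Ω)).1.exists_smul_eq (g • a) a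
  have : (d : G) * g ∈ stabilizer G a := by rw [mem_stabilizer_iff, mul_smul]; exact hd
  simpa using mul_mem (mem_sup_right (inv_mem d.2)) (mem_sup_left this : _ ∈ stabilizer G a ⊔ D G Ω)

theorem index_dvd [IsPretransitive G Ω] (a : Ω) (B : Set Ω) (ha : a ∉ B)
    (hB : ∀ g : G, g • a = a → ∀ b ∈ B, g • b ∈ B) : (D G Ω).index ∣ Nat.card B := by
  classical
  let S : SubMulAction (stabilizer G a) Ω := ⟨B, fun g b hb => hB g g.2 b hb⟩
  have := Fintype.ofFinite (orbitRel.Quotient (stabilizer G a) S)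
  show _ ∣ Nat.card S
  rw [Nat.card_congr (selfEquivSigmaOrbits (stabilizer G a) S), Nat.card_sigma]
  refine Finset.dvd_sum fun ω _ => ?_
  rw [Nat.card_congr (orbitEquivQuotientStabilizer _ _), ← index_eq a]
  refine index_dvd_of_le fun g hg => ?_
  exact mem_of_two (a := a) (b := ω.out) (fun e => ha (e ▸ ω.out.2)) g.2 (congrArg Subtype.val hg)

end CfsgDer
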