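import Cfsg.Agent.H1.Wielandt
import Cfsg.Agent.H1.Basic

/-! Flavell's strengthening of Wielandt's zipper lemma. -/

set_option autoImplicit false

namespace CfsgFlav

open Subgroup Cfsg CfsgH2 CfsgH1
open CfsgH9 (Sn)

variable {G : Type*} [Group G] [Finite G]

/-- contained in at most one maximal subgroup -/
def U (A : Subgroup G) : Prop := ∀ L K, IsCoatom L → IsCoatom K → A ≤ L → A ≤ K → L = K

omit [Finite G] in
theorem coat_cj {L : Subgroup G} (h : IsCoatom L) (g : G) : IsCoatom (L.map (cj g)) :=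
  ((MulAut.conj g).mapSubgroup.isCoatom_iff L).2 h

theorem flavell (n : ℕ) : ∀ A M : Subgroup G, A.index = n → nc ⊤ A = ⊤ → A ≠ ⊤ →
    (∀ L, IsCoatom L → A ≤ L → L ≠ M → Sn A L) → U A := by
  induction n using Nat.strong_induction_on with
  | _ n ih =>
  intro A M hn hA hne h
  by_contra hU
  obtain ⟨M', b1, b2, b3⟩ : ∃ L, IsCoatom L ∧ A ≤ L ∧ ¬ Sn A L := by
    by_contra! hc
    obtain ⟨M0, -, m2, m3⟩ := zipper le_top (fun e => hne (eq_of_sn_of_nc_eq e hA)) fun H h1 h2 => by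
      obtain ⟨L, l1, l2⟩ := exists_coatom_ge h2.ne
      exact (hc L l1 (h1.trans l2)).mono h1 l2
    have : ∀ L, IsCoatom L → A ≤ L → L = M0 := fun L a b => (a.le_iff.1 (m3 L b a.lt_top)).resolve_left m2.ne |>.symm
    exact hU fun L K a b c d => (this L a c).trans (this K b d).symm
  obtain rfl : M' = M := by_contra fun e => b3 (h _ b1 b2 e)
  let P : Subgroup G → Prop := fun B => ∃ g, B = A.map (cj g)
  have PA : P A := ⟨1, by simp⟩
  have Pc : ∀ B g, P B → P (B.map (cj g)) := by rintro _ g ⟨k, rfl⟩; exact ⟨_, map_cj_cj _ _ _⟩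
  have ex : ∀ B, P B → ∃ m, IsCoatom m ∧ B ≤ m ∧ ¬ Sn B m ∧ ∀ L, IsCoatom L → B ≤ L → L ≠ m → Sn B L := by
    rintro _ ⟨g, rfl⟩
    refine ⟨M'.map (cj g), coat_cj b1 g, map_mono b2, fun e => b3 ?_, fun L l1 l2 l3 => ?_⟩
    · simpa only [map_cj_inv_cj] using sn_cj' e g⁻¹
    · simpa only [map_cj_cj_inv] using sn_cj' (h _ (coat_cj l1 g⁻¹) (map_cj_le_iff.1 l2)
        fun e => l3 (by rw [← e, map_cj_cj_inv])) g
  choose! m m1 m2 m3 m4 using ex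
  have mc : ∀ B g, P B → m (B.map (cj g)) = (m B).map (cj g) := fun B g hB => by_contra fun e => m3 B hB (by
    simpa only [map_cj_inv_cj] using sn_cj' (m4 _ (Pc B g hB) _ (coat_cj (m1 B hB) g) (map_mono (m2 B hB)) (Ne.symm e)) g⁻¹)
  have ncB : ∀ B, P B → nc ⊤ B = ⊤ := by rintro _ ⟨g, rfl⟩; rw [nc_cj (mem_top g), hA]
  have nn : ∀ B E, P B → B ≤ E → E ≠ ⊤ → N[E] ≠ ⊤ := fun B E hB b c e =>
    c (top_le_iff.1 (ncB B hB ▸ nc_le b e.ge))
  have nm : ∀ B, P B → N[B] ≤ m B := fun B hB g hg => by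
    have : g ∈ N[m B] := by rw [← map_cj_eq_iff, ← mc B g hB, map_cj_eq hg]
    rwa [((m1 B hB).le_iff.1 le_normalizer).resolve_left (nn B _ hB (m2 B hB) (m1 B hB).1)] at this
  have star : ∀ B C L K, P B → P C → B ≠ C → IsCoatom L → IsCoatom K → L ≠ K → B ≤ L → B ≤ K → C ≤ L → C ≤ K →
      B ≤ m C ∧ m B ≠ m C := by
    intro B C L K hB hC ne l k lk a b c d
    have iB : B.index = n := by obtain ⟨g, rfl⟩ := hB; rw [index_map_cj, hn]
    have cB : Nat.card B = Nat.card C := by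
      obtain ⟨g, rfl⟩ := hB; obtain ⟨g, rfl⟩ := hC; rw [card_map_cj, card_map_cj]
    by_contra hc
    refine lk (ih _ (iB ▸ index_strictAnti (lt_of_le_of_ne le_sup_left fun e => ne
      (eq_of_le_of_card_ge (le_sup_right.trans e.ge) cB.le).symm)) (B ⊔ C) (m B) rfl
      (top_le_iff.1 ((ncB B hB).ge.trans (nc_mono le_rfl le_sup_left))) (fun e => l.1 (top_le_iff.1 (e ▸ sup_le a c)))
      (fun R r1 r2 r3 => sn_sup (m4 B hB R r1 (le_sup_left.trans r2) r3) (m4 C hC R r1 (le_sup_right.trans r2)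
        fun e => hc ⟨e ▸ le_sup_left.trans r2, fun e' => r3 (e.trans e'.symm)⟩)) L K l k (sup_le a c) (sup_le b d))
  have fix : ∀ B C k, P B → P C → B ≤ m C → C ≤ m B → m B ≠ m C → k ∈ m B → C.map (cj k) ≤ m C → k ∈ N[B] := by
    intro B C k hB hC a b c d e
    have e1 := (star B _ _ _ hB (Pc C k hC) (fun x => c (by
      have := mc C k hC
      rw [← x, ← map_cj_of_mem d, map_cj_inj] at this; exact this)) (m1 B hB) (m1 C hC) c (m2 B hB) a
      (map_cj_le_of_mem b d) e).1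
    rw [mc C k hC, le_map_cj_iff] at e1
    by_contra x
    refine (star _ B _ _ (Pc B k⁻¹ hB) hB (fun y => x (inv_mem_iff.1 (map_cj_eq_iff.1 y))) (m1 B hB) (m1 C hC) c
      (map_cj_le_of_mem (m2 B hB) (inv_mem d)) e1 (m2 B hB) a).2 ?_
    rw [mc B _ hB, map_cj_of_mem (inv_mem d)]
  obtain ⟨L0, l1, l2, l3⟩ : ∃ L, IsCoatom L ∧ A ≤ L ∧ L ≠ m A := by
    by_contra! hc
    exact hU fun L K a b c d => (hc L a c).trans (hc K b d).symm
  have mv : ∀ B L, P B → IsCoatom L → B ≤ L → L ≠ m B → ∃ g ∈ L, g ∉ N[B] ∧ B.map (cj g) ≤ m B := by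
    intro B L hB a b c
    obtain ⟨g, g1, g2, g3⟩ := exists_cj_le_norm (m4 B hB L a b c)
      fun e => c ((a.le_iff.1 (e.trans (nm B hB))).resolve_left (m1 B hB).1).symm
    exact ⟨g, g1, g2, g3.trans (nm B hB)⟩
  obtain ⟨x, x1, x2, x3⟩ := mv A L0 PA l1 l2 l3
  obtain ⟨S, PS, SA, AS, ne⟩ : ∃ S, P S ∧ S ≤ m A ∧ A ≤ m S ∧ m A ≠ m S :=
    ⟨_, Pc A x PA, x3, star _ _ _ _ PA (Pc A x PA) (fun e => x2 (map_cj_eq_iff.1 e.symm)) l1 (m1 A PA) l3 l2 (m2 A PA)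
      (map_cj_le_of_mem l2 x1) x3⟩
  clear x1 x2 x3 x l1 l2 l3 L0
  let Δ : Set (Subgroup G) := {C | P C ∧ C ≤ m A ∧ C ≤ m S}
  have dA : A ∈ Δ := ⟨PA, m2 A PA, AS⟩
  have dS : S ∈ Δ := ⟨PS, SA, m2 S PS⟩
  have nAS : A ≠ S := fun e => ne (by rw [e])
  have adj : ∀ C ∈ Δ, ∀ D ∈ Δ, C ≠ D → C ≤ m D ∧ m C ≠ m D := fun C c D d e =>
    star C D _ _ c.1 d.1 e (m1 A PA) (m1 S PS) ne c.2.1 c.2.2 d.2.1 d.2.2
  have le : ∀ C ∈ Δ, ∀ D ∈ Δ, C ≤ m D := fun C c D d => by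
    by_cases e : C = D
    · exact e ▸ m2 C c.1
    · exact (adj C c D d e).1
  have stab : ∀ D ∈ Δ, ∀ C ∈ Δ, D ≠ C → ∀ k ∈ N[D], C.map (cj k) ∈ Δ → ∀ X ∈ Δ, X.map (cj k) ∈ Δ := by
    intro D d C c e k hk ck X hX
    have n1 : D ≠ C.map (cj k) := fun y => e (by rw [← map_cj_eq hk, map_cj_inj] at y; exact y)
    have a : X.map (cj k) ≤ m D := map_cj_le_of_mem (le X hX D d) (nm D d.1 hk)
    have b : X.map (cj k) ≤ m (C.map (cj k)) := by rw [mc C k c.1]; exact map_mono (le X hX C c)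
    have : ∀ Y ∈ Δ, X.map (cj k) ≤ m Y := fun Y y => by
      by_cases z : X.map (cj k) = Y
      · exact z ▸ m2 _ (Pc X k hX.1)
      · exact (star _ _ _ _ (Pc X k hX.1) y.1 z (m1 D d.1) (m1 _ ck.1) (adj D d _ ck n1).2 a b (le Y y D d)
          (le Y y _ ck)).1
    exact ⟨Pc X k hX.1, this A dA, this S dS⟩
  have nrm : ∀ (T : Set (Subgroup G)) k, (∀ X ∈ T, X.map (cj k) ∈ T) → k ∈ N[sSup T] := fun T k hk =>
    mem_norm_of_map_le (map_le_iff_le_comap.2 (sSup_le fun X hX => map_le_iff_le_comap.1 (le_sSup (hk X hX))))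
  have E1 : sSup Δ ≤ m A := sSup_le fun C c => c.2.1
  have E2 : sSup Δ ≤ m S := sSup_le fun C c => c.2.2
  obtain ⟨L, l1, l2⟩ := exists_coatom_ge (nn A _ PA (le_sSup dA) fun e => (m1 A PA).1 (top_le_iff.1 (e ▸ E1)))
  have l3 : L ≠ m A := by
    rintro rfl
    obtain ⟨k, k1, k2, k3⟩ := mv A (m S) PA (m1 S PS) AS ne.symm
    have kA : A.map (cj k) ∈ Δ := ⟨Pc A k PA, k3, map_cj_le_of_mem AS k1⟩
    have := l2 (nrm Δ k (stab S dS A dA nAS.symm k (fix S A k PS PA SA AS ne.symm k1 k3) kA))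
    refine (adj _ kA A dA fun e => k2 (map_cj_eq_iff.1 e)).2 ?_
    rw [mc A k PA, map_cj_of_mem this]
  have SE : S ≤ sSup (Δ \ {A}) := le_sSup ⟨dS, nAS.symm⟩
  have EE : sSup (Δ \ {A}) ≤ sSup Δ := sSup_le_sSup Set.diff_subset
  have q : ∀ k ∈ m A, k ∈ N[sSup (Δ \ {A})] → k ∈ N[A] ∧ k ∈ L := fun k a b => by
    have c := (map_cj_le_of_norm SE b).trans EE
    have := fix A S k PA PS AS SA ne a (c.trans E2)
    exact ⟨this, l2 (nrm Δ k (stab A dA S dS nAS k this ⟨Pc S k PS, c.trans E1, c.trans E2⟩))⟩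
  obtain ⟨k, k1, k2, k3⟩ := exists_cj_le_norm (sn_sSup (T := Δ \ {A}) (L := m A) fun C c =>
    m4 C c.1.1 _ (m1 A PA) c.1.2.1 (adj C c.1 A dA c.2).2.symm)
    fun e => m3 A PA (.of_normal (m2 A PA) fun k hk => (q k hk (e hk)).1)
  have c1 : S.map (cj k) ≤ m A := map_cj_le_of_mem SA k1
  have c2 : S.map (cj k) ≤ m S := by
    by_cases z : S.map (cj k) = S
    · rw [z]; exact m2 S PS
    · exact (star _ _ _ _ (Pc S k PS) PS z l1 (m1 A PA) l3 (fun y hy => (q y (c1 hy) (k3 (map_mono SE hy))).2) c1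
        (((le_sSup dS).trans le_normalizer).trans l2) SA).1
  have kA := fix A S k PA PS AS SA ne k1 c2
  exact k2 (nrm _ k fun X hX => ⟨stab A dA S dS nAS k kA ⟨Pc S k PS, c1, c2⟩ X hX.1,
    fun e => hX.2 (by have : X.map (cj k) = A := e; rw [← map_cj_eq kA, map_cj_inj] at this; exact this)⟩)

theorem exists_nc_eq {A L : Subgroup G} (h : A ≤ L) : ∃ B, A ≤ B ∧ Sn B L ∧ nc B A = B := by
  obtain ⟨B, -, ⟨b1, b2⟩, b3⟩ := exists_minimal_le (fun B => A ≤ B ∧ Sn B L) ⟨h, .refl L⟩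
  exact ⟨B, b1, b2, b3 _ ⟨le_nc, (sn_nc b1).trans b2⟩ (nc_le_self b1)⟩

theorem zip2 {M : Subgroup G} (hM : IsCoatom M) (A : Subgroup G) : nc ⊤ A = ⊤ → A ≠ ⊤ →
    (∀ H, A ≤ H → H ≠ ⊤ → nc H A = H → H ≤ M) → U A := by
  induction A using WellFoundedGT.induction with
  | ind A ih =>
  intro hA hne h
  refine flavell _ A M rfl hA hne fun L l1 l2 l3 => ?_
  obtain ⟨B, b1, b2, b3⟩ := exists_nc_eq l2
  have b4 : B ≠ ⊤ := fun e => l1.1 (top_le_iff.1 (e ▸ b2.le))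
  rcases b1.eq_or_lt with rfl | lt
  · exact b2
  exact absurd (ih B lt (top_le_iff.1 (hA.ge.trans (nc_mono le_rfl b1))) b4 (fun H a b c => h H (b1.trans a) b
    (le_antisymm (nc_le_self (b1.trans a)) (c.ge.trans (nc_le (b3.ge.trans (nc_mono a le_rfl)) le_norm_nc))))
    L M l1 hM b2.le (h B b1 b4 b3)) l3

end CfsgFlav
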