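import Cfsg.Agent.H3.Cnt
import Cfsg.Agent.H3.Hv3
import Cfsg.Agent.H2.Frob

/-! Numbers of conjugacy classes of `π`-elements. -/

set_option autoImplicit false
open Cfsg Subgroup CfsgH2 CfsgL0
open scoped commutatorElement

namespace CfsgKpi

variable {G : Type*} [Group G] [Finite G] {p m : ℕ} {A R P K Q : Subgroup G} {x : G}

/-- The number of classes meeting `X`. -/
noncomputable def kc (X : Set G) : ℕ := (ConjClasses.mk '' X).ncard

/-- The number of classes of `π`-elements. -/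
noncomputable def kp (G : Type*) [Group G] (π : Set ℕ) : ℕ := kc {g : G | PiN π (orderOf g)}

omit [Finite G] in
theorem card_eq_kc (Q : ℕ → Prop) : Nat.card {c : ConjClasses G // ∀ x ∈ c.carrier, Q (orderOf x)} =
    kc {g : G | Q (orderOf g)} := by
  change {C | _}.ncard = (_ : Set _).ncard
  congr 1; ext C
  obtain ⟨y, rfl⟩ := ConjClasses.exists_rep C
  refine ⟨fun h => ⟨y, h y ConjClasses.mem_carrier_mk, rfl⟩, fun ⟨z, hz, e⟩ g hg => ?_⟩
  obtain ⟨n, rfl⟩ := isConj_iff.1 (ConjClasses.mk_eq_mk_iff_isConj.1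
    (e.trans (ConjClasses.mem_carrier_iff_mk_eq.1 hg).symm))
  rwa [orderOf_conj']

theorem card_eq_kp (hp : p.Prime) : Nat.card {c : ConjClasses G // ∀ x ∈ c.carrier, ∃ k, orderOf x = p ^ k} =
    kp G {p} := by
  rw [card_eq_kc fun n => ∃ k, n = p ^ k, kp]
  congr 1; ext g
  exact (piN_singleton hp (orderOf_pos g).ne').symm

omit [Finite G] in
theorem mk_conj (g y : G) : ConjClasses.mk (g * y * g⁻¹) = ConjClasses.mk y :=
  (ConjClasses.mk_eq_mk_iff_isConj.2 (isConj_iff.2 ⟨g, rfl⟩)).symm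

theorem kp_eq [hp : Fact p.Prime] (hP : Syl p P ⊤) : kp G {p} = kc (P : Set G) := by
  unfold kp kc
  congr 1
  refine Set.Subset.antisymm ?_ (Set.image_mono fun g hg =>
    (isPGroup_iff_piN.1 hP.pg).of_dvd (orderOf_dvd_of_mem hg))
  rintro _ ⟨g, hg, rfl⟩
  obtain ⟨y, -, h⟩ := hP.exists_conj_le (Q := zpowers g) (isPGroup_iff_piN.2 (by rwa [Nat.card_zpowers])) le_top
  exact ⟨_, h (conj_mem_map_cj (mem_zpowers g)), mk_conj y g⟩

theorem kc_le (X : Set G) : kc X ≤ X.ncard := Set.ncard_image_le (Set.toFinite X)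

theorem kc_mul_le {X : Set G} (h : ∀ y ∈ X, m ≤ {z ∈ X | ConjClasses.mk z = ConjClasses.mk y}.ncard) :
    kc X * m ≤ X.ncard :=
  mul_le_ncard _ (by rintro _ ⟨y, hy, rfl⟩; exact h y hy) (Set.toFinite _) (Set.toFinite _)

theorem kc_le_add {X Y Z : Set G} (h : ConjClasses.mk '' X ⊆ ConjClasses.mk '' Y ∪ ConjClasses.mk '' Z) :
    kc X ≤ kc Y + kc Z := (Set.ncard_le_ncard h).trans (Set.ncard_union_le _ _)

theorem kc_bound (hA : A ≤ R) (h : ∀ y ∈ R, y ∉ A → ∃ S : Set G, m ≤ S.ncard ∧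
    ∀ z ∈ S, z ∈ R ∧ ∃ g ∈ N[A], g * y * g⁻¹ = z) : kc (R : Set G) * m + o[A] ≤ o[A] * m + o[R] := by
  have h1 : kc (R : Set G) ≤ kc (A : Set G) + kc ((R : Set G) \ A) := kc_le_add (by
    rw [← Set.image_union, Set.union_diff_cancel hA])
  have h2 := kc_mul_le (X := (R : Set G) \ A) (m := m) fun y hy => by
    obtain ⟨S, h3, h4⟩ := h y hy.1 hy.2
    refine h3.trans (Set.ncard_le_ncard fun z hz => ?_)
    obtain ⟨h5, g, hg, rfl⟩ := h4 z hz
    exact ⟨⟨h5, fun e => hy.2 (by simpa [mul_assoc] using conj_mem_of_norm' hg e)⟩, mk_conj g y⟩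
  have h3 := Set.ncard_sdiff_add_ncard_of_subset (show (A : Set G) ⊆ R from hA)
  have h4 := kc_le (A : Set G)
  change _ + o[A] = o[R] at h3
  change _ ≤ o[A] at h4
  nlinarith

omit [Finite G] in
theorem norm_inf_cent (hx : x ∈ N[R]) : x ∈ N[R ⊓ C1[x]] := mem_norm_inf hx (le_normalizer (self_mem_cent1 x))

theorem two_bound (hx : x ∈ N[R]) : kc (R : Set G) * 2 ≤ o[R ⊓ C1[x]] + o[R] := by
  have := kc_bound (m := 2) (inf_le_left : R ⊓ C1[x] ≤ R) fun y hy h => ⟨{y, x * y * x⁻¹}, (Set.ncard_pair fun e =>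
    h ⟨hy, mem_centralizer_singleton_iff.2 (eq_mul_inv_iff_mul_eq.1 e)⟩).ge, by
      rintro _ (rfl | rfl)
      · exact ⟨hy, 1, one_mem _, by simp⟩
      · exact ⟨conj_mem_of_norm hx hy, x, norm_inf_cent hx, rfl⟩⟩
  omega

theorem three_bound (hx : x ∈ N[R]) (ho : Odd (orderOf x)) : kc (R : Set G) * 3 ≤ 2 * o[R ⊓ C1[x]] + o[R] := by
  have := kc_bound (m := 3) (inf_le_left : R ⊓ C1[x] ≤ R) fun y hy h => by
    have h1 : y ≠ x * y * x⁻¹ := fun e => h ⟨hy, mem_centralizer_singleton_iff.2 (eq_mul_inv_iff_mul_eq.1 e)⟩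
    refine ⟨{y, x * y * x⁻¹, x ^ 2 * y * (x ^ 2)⁻¹}, (Set.ncard_eq_three.2 ⟨_, _, _, h1, fun e => h ⟨hy,
      mem_centralizer_singleton_iff.2 (CfsgHv.comm_of_sq ho (eq_mul_inv_iff_mul_eq.1 e).symm).symm⟩,
      fun e => h1 ?_, rfl⟩).ge, ?_⟩
    · rw [pow_two] at e
      calc y = x⁻¹ * (x * y * x⁻¹) * x := by group
        _ = x⁻¹ * (x * x * y * (x * x)⁻¹) * x := by rw [← e]
        _ = _ := by group
    · rintro _ (rfl | rfl | rfl)
      · exact ⟨hy, 1, one_mem _, by simp⟩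
      · exact ⟨conj_mem_of_norm hx hy, x, norm_inf_cent hx, rfl⟩
      · exact ⟨conj_mem_of_norm (pow_mem hx 2) hy, _, pow_mem (norm_inf_cent hx) 2, rfl⟩
  omega

theorem nonab_bound [hp : Fact p.Prime] (hP : PG[p, P]) : kc (P : Set G) * p + o[Z[P]] ≤ o[Z[P]] * p + o[P] := by
  refine kc_bound inf_le_left fun y hy h => ⟨{z | ∃ n ∈ P, n * y * n⁻¹ = z}, ?_, ?_⟩
  · have h1 := ncard_cls_mul P y
    have h2 := Nat.le_of_dvd (card_pos' P) (mul_card_dvd_of_lt hP (lt_of_le_of_ne (inf_le_left : P ⊓ C1[y] ≤ P)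
      fun e => h ⟨hy, le_cent1_iff.1 (e.ge.trans inf_le_right)⟩))
    rw [← h1, mul_comm] at h2
    exact Nat.le_of_mul_le_mul_right h2 (card_pos' _)
  · rintro _ ⟨n, hn, rfl⟩
    exact ⟨conj_mem_of_norm (le_normalizer hn) hy, n, le_norm_center hn, rfl⟩

theorem sq_center_le [hp : Fact p.Prime] (hP : PG[p, P]) (h : ¬ Ab[P]) : o[Z[P]] * p * p ≤ o[P] := by
  obtain ⟨y, hy, h1⟩ : ∃ y ∈ P, y ∉ Z[P] := by
    by_contra e
    push Not at e
    exact h (isMulComm_of_le_cent fun y hy => (e y hy).2)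
  have h2 : P ⊓ C1[y] < P := lt_of_le_of_ne inf_le_left fun e => h1 ⟨hy, le_cent1_iff.1 (e.ge.trans inf_le_right)⟩
  have h3 : Z[P] < P ⊓ C1[y] := lt_of_le_of_ne (inf_le_inf_left _ (cent_le_cent1 hy))
    fun e => h1 (e.ge ⟨hy, self_mem_cent1 y⟩)
  exact Nat.le_of_dvd (card_pos' P) ((mul_dvd_mul_right (mul_card_dvd_of_lt (hP.to_le inf_le_left) h3) p).trans
    (mul_card_dvd_of_lt hP h2))

theorem four_le [hp : Fact p.Prime] (hR : PG[p, R]) (hx : x ∈ N[R]) (ho : Odd (orderOf x))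
    (hc : (orderOf x).Coprime p) (h : x ∉ C[R]) : o[R ⊓ C1[x]] * 4 ≤ o[R] := by
  set C := R ⊓ C1[x]
  have hl : C ≤ R := inf_le_left
  rw [← card_mul_relIndex hl]
  refine Nat.mul_le_mul_left _ (not_lt.1 fun h4 => h ?_)
  have h1 := Nat.le_of_dvd (relIndex_pos C R) (dvd_relIndex_of_not_le hR fun e =>
    h (le_cent1_iff.1 (e.trans inf_le_right)))
  have h2 := hp.out.two_le
  have h3 : (C.relIndex R).Prime := by
    interval_cases C.relIndex R <;> first | omega | norm_num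
  have n := le_norm_of_relIndex_prime hR hl h3
  have xC : x ∈ N[C] := norm_inf_cent hx
  have d := CfsgEp.relIndex_cent_dvd_of_card_prime h3 (card_qt n)
  have h5 : qmk C ⟨x, xC⟩ ∈ C[qt C R] := mem_of_pow_mem_coprime
    (pow_relIndex_mem' (norm_le_norm_cent _) (qmk_mem_norm xC hx)) (Nat.Coprime.coprime_dvd_left (orderOf_qmk_dvd _)
      ((Nat.coprime_two_right.2 ho).coprime_dvd_right (d.trans (by
        interval_cases C.relIndex R <;> first | omega | norm_num))))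
  rw [← zpowers_le, ← qt_zpowers, qt_le_cent_iff (zpowers_le.2 xC) n, commutator_comm] at h5
  refine zpowers_le.1 (coprime_le_cent (zpowers_le.2 hx) ?_ (Or.inr (isSolvable_of_pgroup hR))
    (h5.trans (cent_zpowers x ▸ inf_le_right)))
  rw [Nat.card_zpowers]
  exact (coprime_of_pgroup hR ((Nat.Prime.coprime_iff_not_dvd hp.out).1 hc.symm)).symm

theorem half_bound [hp : Fact p.Prime] (hR : PG[p, R]) (hx : x ∈ N[R]) (ho : Odd (orderOf x))
    (hc : (orderOf x).Coprime p) (h : x ∉ C[R]) : kc (R : Set G) * 2 ≤ o[R] := by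
  have := three_bound hx ho
  have := four_le hR hx ho hc h
  omega

theorem npc_fusion [hp : Fact p.Prime] (hP : Syl p P ⊤) (h : NPC p (⊤ : Subgroup G)) {x g : G} (hx : x ∈ P)
    (hg : g * x * g⁻¹ ∈ P) : ∃ u ∈ P, u * x * u⁻¹ = g * x * g⁻¹ := by
  obtain ⟨k, hk, u, hu, rfl⟩ := (mem_sup_of_norm' (le_top.trans le_norm_piCoreOf)).1 ((h.sup_eq hP).ge (mem_top g))
  refine ⟨u, hu, (mul_inv_eq_one.1 (mem_bot.1 ((inf_eq_bot_of_piN (isPGroup_iff_piN.1 hP.pg) (piN_piCoreOf (M := ⊤))).le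
    (mem_inf.2 ⟨mul_mem hg (inv_mem (conj_mem_of_norm (le_normalizer hu) hx)), ?_⟩)))).symm⟩
  have := mul_mem hk (conj_mem_of_norm (le_norm_piCoreOf (mem_top (u * x * u⁻¹))) (inv_mem hk))
  rwa [show k * (u * x * u⁻¹ * k⁻¹ * (u * x * u⁻¹)⁻¹) = k * u * x * (k * u)⁻¹ * (u * x * u⁻¹)⁻¹ by group] at this

omit [Finite G] in
theorem kc_eq_range (P : Subgroup G) : kc (P : Set G) = (Set.range (ConjClasses.map P.subtype)).ncard := by
  unfold kc
  congr 1; ext c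
  constructor
  · rintro ⟨x, hx, rfl⟩; exact ⟨ConjClasses.mk ⟨x, hx⟩, rfl⟩
  · rintro ⟨c, rfl⟩
    obtain ⟨x, rfl⟩ := ConjClasses.exists_rep c
    exact ⟨x, x.2, rfl⟩

theorem kc_le_card (P : Subgroup G) : kc (P : Set G) ≤ Nat.card (ConjClasses P) := by
  rw [kc_eq_range, ← Set.image_univ, ← Set.ncard_univ]
  exact Set.ncard_image_le (Set.toFinite _)

theorem kc_eq_card [hp : Fact p.Prime] (hP : Syl p P ⊤) (h : NPC p (⊤ : Subgroup G)) :
    kc (P : Set G) = Nat.card (ConjClasses P) := by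
  rw [kc_eq_range, Set.ncard_range_of_injective]
  intro a b e
  obtain ⟨x, rfl⟩ := ConjClasses.exists_rep a
  obtain ⟨y, rfl⟩ := ConjClasses.exists_rep b
  obtain ⟨g, hg⟩ := isConj_iff.1 (ConjClasses.mk_eq_mk_iff_isConj.1 (show ConjClasses.mk (x : G) = .mk (y : G) from e))
  obtain ⟨u, hu, e'⟩ := npc_fusion hP h x.2 (hg ▸ y.2)
  exact ConjClasses.mk_eq_mk_iff_isConj.2 (isConj_iff.2 ⟨⟨u, hu⟩, Subtype.ext (e'.trans hg)⟩)

/-- A group without normal `p`-complement has a centric `p`-subgroup with a `p'`-automorphism. -/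
theorem exists_centric [hp : Fact p.Prime] (hP : Syl p P ⊤) (h : ¬ NPC p (⊤ : Subgroup G)) :
    ∃ R ≤ P, Z[P] ≤ R ∧ ∃ x ∈ N[R], (orderOf x).Coprime p ∧ x ∉ C[R] := by
  by_contra hn
  push Not at hn
  refine h (hP.frobenius_npc fun Q0 hQ0 _ g0 _ hg0 hc0 => ?_)
  obtain ⟨y, -, hQ, hS⟩ := hP.exists_fully_norm hQ0
  suffices y * g0 * y⁻¹ ∈ C[Q0.map (cj y)] by
    rw [centralizer_map_cj, mem_map_cj] at this
    simpa [mul_assoc] using this
  have hg : y * g0 * y⁻¹ ∈ N[Q0.map (cj y)] := normalizer_map_cj y Q0 ▸ conj_mem_map_cj hg0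
  rw [← orderOf_conj' y] at hc0
  generalize y * g0 * y⁻¹ = g at hg hc0
  generalize Q0.map (cj y) = Q at hg hQ hS
  rw [top_inf_eq] at hS
  have lK : Q ⊔ C[Q] ≤ N[Q] := sup_le le_normalizer (cent_le_norm Q)
  have nK : N[Q] ≤ N[Q ⊔ C[Q]] := le_norm_sup le_rfl (norm_le_norm_cent Q)
  have hR := hS.inf_norm lK (inf_le_right.trans nK)
  set R := P ⊓ N[Q] ⊓ (Q ⊔ C[Q])
  have QR : Q ≤ R := le_inf (le_inf hQ le_normalizer) le_sup_left
  obtain ⟨T, hT, QT⟩ := exists_syl_ge (hP.pg.to_le hQ) (le_inf le_normalizer (QR.trans le_normalizer))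
  have e := hR.frattini_sup lK nK
  have l : piRes {p} (N[Q] ⊓ N[R]) ≤ C[Q] := (closure_le _).2 fun x hx => cent_anti QR
    (hn R (inf_le_left.trans inf_le_left) (le_inf (le_inf inf_le_left (inf_le_right.trans
      ((cent_anti hQ).trans (cent_le_norm Q)))) (inf_le_right.trans ((cent_anti hQ).trans le_sup_right))) x hx.1.2
      ((piN_compl_singleton' hp.out).1 hx.2))
  have e2 : T ⊔ C[Q] = N[Q] := le_antisymm (sup_le (hT.le.trans inf_le_left) (cent_le_norm Q)) (by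
    rw [← e, ← hT.piRes_sup]
    exact sup_le (sup_le (QT.trans le_sup_left) le_sup_right) (sup_le (l.trans le_sup_right) le_sup_left))
  refine piRes_le_of (π := {p}) (norm_le_norm_cent Q) ?_ (mem_piRes hg ((piN_compl_singleton' hp.out).2 hc0))
  rw [← e2, relIndex_sup_of_norm ((hT.le.trans inf_le_left).trans (norm_le_norm_cent Q))]
  exact (isPGroup_iff_piN.1 hT.pg).of_dvd (relIndex_dvd_card _ _)

theorem npc_two (hP : Syl 2 P ⊤) (h : o[P] < 2 * kc (P : Set G)) : NPC 2 (⊤ : Subgroup G) := by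
  haveI := Fact.mk Nat.prime_two
  by_contra hn
  obtain ⟨R, h1, h2, x, h3, h4, h5⟩ := exists_centric hP hn
  have a := half_bound (hP.pg.to_le h1) h3 (Nat.coprime_two_right.1 h4) h4 h5
  set S := {y ∈ (P : Set G) | ConjClasses.mk y ∉ ConjClasses.mk '' (R : Set G)}
  have b : kc (P : Set G) ≤ kc (R : Set G) + kc S := kc_le_add (by
    rintro _ ⟨y, hy, rfl⟩
    exact (em _).imp id fun e => ⟨y, ⟨hy, e⟩, rfl⟩)
  have c := kc_mul_le (X := S) (m := 2) fun y hy => by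
    obtain ⟨u, hu, e⟩ : ∃ u ∈ P, y ≠ u * y * u⁻¹ := by
      by_contra e
      push Not at e
      exact hy.2 ⟨y, h2 ⟨hy.1, fun u hu => (eq_mul_inv_iff_mul_eq.1 (e u hu)).symm⟩, rfl⟩
    refine (Set.ncard_pair e).ge.trans (Set.ncard_le_ncard ?_)
    rintro _ (rfl | rfl)
    · exact ⟨hy, rfl⟩
    · exact ⟨⟨conj_mem_of_norm (le_normalizer hu) hy.1, mk_conj u y ▸ hy.2⟩, mk_conj u y⟩
  have d := Set.ncard_le_ncard (show S ⊆ (P : Set G) \ R from fun y hy => ⟨hy.1, fun e => hy.2 ⟨y, e, rfl⟩⟩)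
  have e := Set.ncard_sdiff_add_ncard_of_subset (show (R : Set G) ⊆ P from h1)
  change _ + o[R] = o[P] at e
  omega

theorem npc_ab [hp : Fact p.Prime] (hP : Syl p P ⊤) (h : (p + 1) * o[P] < 2 * p * kc (P : Set G)) :
    NPC p (⊤ : Subgroup G) ∧ Ab[P] := by
  have h2 := hp.out.two_le
  have hA : Ab[P] := by
    by_contra e
    have a := nonab_bound hP.pg
    have b := sq_center_le hP.pg e
    have c : o[Z[P]] * 2 * 2 ≤ o[Z[P]] * p * p := by gcongr
    nlinarith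
  refine ⟨hP.npc_of_norm_le_cent fun g hg => by_contra fun e => ?_, hA⟩
  have a := two_bound hg.2
  have b := Nat.le_of_dvd (card_pos' P) (mul_card_dvd_of_lt hP.pg (lt_of_le_of_ne (inf_le_left : P ⊓ C1[g] ≤ P)
    fun e' => e (le_cent1_iff.1 (e'.ge.trans inf_le_right))))
  nlinarith

theorem kp_le (s : Finset ℕ) (hs : ∀ q ∈ s, q.Prime) (hp : p ∈ s) :
    kp G s ≤ kp G {p} * ∏ q ∈ s.erase p, q ^ (Nat.card G).factorization q := by
  classical
  have hs' : ∀ q ∈ s.erase p, q.Prime := fun q hq => hs q (Finset.mem_of_mem_erase hq)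
  choose T h1 h2 using exists_pi_transversal (G := G) (s.erase p) hs'
  choose ρ hρ using ConjClasses.exists_rep (α := G)
  set W := {a : ConjClasses G × G | a.1 ∈ ConjClasses.mk '' {g : G | PiN {p} (orderOf g)} ∧ a.2 ∈ T C1[ρ a.1]}
  refine (Set.ncard_le_ncard (t := (fun a => ConjClasses.mk (ρ a.1 * a.2)) '' W) ?_).trans
    ((Set.ncard_image_le (Set.toFinite _)).trans ?_)
  · rintro _ ⟨x, hx, rfl⟩
    obtain ⟨a, ha, b, hb, e, o1, o2⟩ := exists_pi_parts {p} x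
    obtain ⟨g, hg⟩ := isConj_iff.1 (ConjClasses.mk_eq_mk_iff_isConj.1 (hρ (.mk a)).symm)
    obtain ⟨w, hw, k2⟩ := h2 C1[ρ (.mk a)] (g * b * g⁻¹) (hg ▸ centralizer_conj g a ▸ conj_mem_map_cj
        (mem_centralizer_singleton_iff.2 (commute_of_mem_zpowers hb ha))) fun q a b => by
      rw [orderOf_conj'] at b
      simpa [show q ≠ p from o2 q a b] using hx q a (b.trans (orderOf_dvd_of_mem_zpowers hb))
    refine ⟨(.mk a, _), ⟨⟨a, o1, rfl⟩, k2⟩, ?_⟩
    have := mem_centralizer_singleton_iff.1 hw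
    rw [← mk_conj (w * g) x]
    refine congrArg ConjClasses.mk ?_
    calc ρ (.mk a) * (w * (g * b * g⁻¹) * w⁻¹) = (ρ (.mk a) * w) * (g * b * g⁻¹) * w⁻¹ := by group
      _ = _ := by rw [← this, ← hg, e]; group
  · refine ncard_le_mul Prod.fst (fun a h => h.1) (fun y _ => le_trans (Set.ncard_le_ncard_of_injOn
      Prod.snd (fun a h => h.2 ▸ h.1.2) (fun a h b h' e => Prod.ext (h.2.trans h'.2.symm) e)
      (Set.toFinite _)) ((h1 _).trans (Finset.prod_le_prod' fun q hq => Nat.pow_le_pow_right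
        (hs' q hq).pos ?_))) (Set.toFinite _) (Set.toFinite _)
    exact (Nat.factorization_le_iff_dvd Nat.card_pos.ne' Nat.card_pos.ne').2 (card_subgroup_dvd_card _) q

/-- The local proportion of classes is at least the global one. -/
theorem ratio (s : Finset ℕ) (hs : ∀ q ∈ s, q.Prime) [Fact p.Prime] (hp : p ∈ s) (hP : Syl p P ⊤) {a b : ℕ}
    (h : a * ∏ q ∈ s, q ^ (Nat.card G).factorization q < b * kp G s) : a * o[P] < b * kc (P : Set G) := by
  classical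
  have h1 := kp_le (G := G) s hs hp
  rw [← Finset.mul_prod_erase s _ hp, ← card_top (G := G), ← hP.card_eq, card_top] at h
  rw [kp_eq hP] at h1
  have := h.trans_le (Nat.mul_le_mul_left b h1)
  rw [← mul_assoc, ← mul_assoc] at this
  exact Nat.lt_of_mul_lt_mul_right this

theorem ab_hall {σ : Set ℕ} (h : ∀ (q : ℕ) [Fact q.Prime], q ∈ σ → NPC q K ∧ ∃ Q, Syl q Q K ∧ Ab[Q]) :
    PiN σᶜ o[piRes σ K] ∧ ∃ H, Hall σ H K ∧ Ab[H] := by
  have h1 : PiN σᶜ o[piRes σ K] := fun q hq hd hσ => by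
    haveI := Fact.mk hq
    refine NPC.iff_piRes.1 (h q hσ).1 (hd.trans (card_dvd_of_le (closure_mono fun g hg => ⟨hg.1, hg.2.mono ?_⟩)))
    simpa using hσ
  obtain ⟨H, h2, h3, h4, h5⟩ := exists_compl piRes_le le_norm_piRes (h1.coprime' piN_relIndex_piRes)
  have h6 : PiN σ o[H] := h5 ▸ piN_relIndex_piRes
  refine ⟨h1, H, Hall.of_compl h2 h6 h1 (Or.inl (h2.trans le_norm_piRes)) ((sup_comm _ _).trans h3),
    comm_self_eq_bot_iff.1 (eq_bot_of_piN (piN_of_le h6 commutator_self_le) fun q hq hd hσ => ?_)⟩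
  haveI := Fact.mk hq
  obtain ⟨a, Q, b, c⟩ := h q hσ
  refine not_dvd_piCoreOf (M := K) (hd.trans (card_dvd_of_le ((commutator_mono h2 h2).trans ?_)))
  rw [← isMulComm_qt_iff le_norm_piCoreOf]
  exact isMulComm_of_le (isMulComm_qt c) ((qt_mono (a.sup_eq b).ge).trans
    (qt_self_sup (b.le.trans le_norm_piCoreOf)).le)

end CfsgKpi
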