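import Cfsg.Agent.H3.Rq
import Cfsg.Agent.H2.Misc

/-! The commutator form of an invariant character and Gallagher's count. -/

set_option autoImplicit false
open Cfsg CfsgH3 CfsgH4 CfsgH1 CfsgRg CfsgRo CfsgCd Function
open CfsgH2 hiding cj cj_apply isPGroup_pCore le_pCore isNilpotent_map card_mul_relIndex
open scoped ComplexConjugate CfsgH2

namespace CfsgMk

variable {Γ : Type*} [Group Γ] [Finite Γ] {K U T M N : Subgroup Γ} {θ : K → ℂ} {η : U → ℂ}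
  {a b c : Γ}

/-- the commutator form -/
noncomputable def W (θ : K → ℂ) (a b : Γ) : ℂ :=
  θ 1 / Nat.card K ^ 2 * ∑ m : K, ∑ n : K,
    extendByZero K θ (n * b * (m * a) * (n * b : Γ)⁻¹ * (m * a : Γ)⁻¹)

theorem W_symm (hθ : IsCharacter K θ) (a b : Γ) : W θ b a = conj (W θ a b) := by
  rw [W, W, Finset.sum_comm, map_mul, map_div₀, map_pow, map_natCast, ← hθ.apply_inv, inv_one,
    map_sum]
  refine congrArg _ (Finset.sum_congr rfl fun m _ => ?_)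
  rw [map_sum]
  refine Finset.sum_congr rfl fun n _ => ?_
  by_cases h : n * b * (m * a) * (n * b : Γ)⁻¹ * (m * a : Γ)⁻¹ ∈ K
  · rw [extendByZero_of_mem _ h, ← hθ.apply_inv, ← extendByZero_coe θ]
    exact congrArg _ (by simp [mul_assoc])
  · rw [extendByZero_of_not_mem _ h, extendByZero_of_not_mem, map_zero]
    exact fun e => h (by simpa [mul_assoc] using inv_mem e)

theorem W_left (θ : K → ℂ) (hc : c ∈ K) : W θ (c * a) b = W θ a b := by
  rw [W, W, ← Equiv.sum_comp (Equiv.mulRight (⟨c, hc⟩ : K)) fun m : K => ∑ n : K,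
    extendByZero K θ (n * b * (m * a) * (n * b : Γ)⁻¹ * (m * a : Γ)⁻¹)]
  simp [mul_assoc]

theorem W_right (θ : K → ℂ) (hc : c ∈ K) : W θ a (c * b) = W θ a b := by
  rw [W, W]
  refine congrArg _ (Finset.sum_congr rfl fun m _ => ?_)
  rw [← Equiv.sum_comp (Equiv.mulRight (⟨c, hc⟩ : K)) fun n : K =>
    extendByZero K θ (n * b * (m * a) * (n * b : Γ)⁻¹ * (m * a : Γ)⁻¹)]
  simp [mul_assoc]

omit [Finite Γ] in
theorem comm_mem_iff (ha : a ∈ N[K]) (hb : b ∈ N[K]) {m n : Γ} (hm : m ∈ K) (hn : n ∈ K) :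
    n * b * (m * a) * (n * b)⁻¹ * (m * a)⁻¹ ∈ K ↔ b * a * b⁻¹ * a⁻¹ ∈ K := by
  have h : ∀ x y : N[K], (x : Γ) * y * (x : Γ)⁻¹ * (y : Γ)⁻¹ ∈ K ↔
      qmk K x * qmk K y * (qmk K x)⁻¹ * (qmk K y)⁻¹ = 1 := fun x y => by
    simp only [← map_inv, ← map_mul, qmk_eq_one]; rfl
  refine (h (⟨n, Subgroup.le_normalizer hn⟩ * ⟨b, hb⟩)
    (⟨m, Subgroup.le_normalizer hm⟩ * ⟨a, ha⟩)).trans (Iff.trans ?_ (h ⟨b, hb⟩ ⟨a, ha⟩).symm)
  rw [map_mul, map_mul, (qmk_eq_one (x := ⟨n, Subgroup.le_normalizer hn⟩)).2 hn,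
    (qmk_eq_one (x := ⟨m, Subgroup.le_normalizer hm⟩)).2 hm, one_mul, one_mul]

theorem W_zero (θ : K → ℂ) (ha : a ∈ N[K]) (hb : b ∈ N[K]) (h : b * a * b⁻¹ * a⁻¹ ∉ K) :
    W θ a b = 0 := by
  rw [W, Finset.sum_eq_zero fun m _ => Finset.sum_eq_zero fun n _ =>
    extendByZero_of_not_mem _ (mt (comm_mem_iff ha hb m.2 n.2).1 h), mul_zero]

theorem W_ev (h : K ≤ U) (hU : U ≤ N[K]) (ha : a ∈ U) (hb : b ∈ N[U]) (hbK : b ∈ N[K])
    (hab : b * a * b⁻¹ * a⁻¹ ∈ K) (hη : IsCharacter U η) (hθ : IsIrrCharacter K θ)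
    (e : resLE h η = θ) {w : ℂ} (hw : ∀ m : K, cA hb η (⟨m, h m.2⟩ * ⟨a, ha⟩) =
      w * η (⟨m, h m.2⟩ * ⟨a, ha⟩)) : W θ a b = w := by
  haveI := (Subgroup.normal_subgroupOf_iff_le_normalizer h).2 hU
  subst e
  have a1 := classInner_coset_self (G := K.subgroupOf U) hη ((isIrr_subOf_iff h).2 hθ) ⟨a, ha⟩
  have a0 := classInner_subOf h (fun m : K => η (⟨m, h m.2⟩ * ⟨a, ha⟩))
    (fun m : K => η (⟨m, h m.2⟩ * ⟨a, ha⟩))
  rw [show subOf U (fun m : K => η (⟨m, h m.2⟩ * ⟨a, ha⟩)) = fun g : K.subgroupOf U =>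
    η (g * ⟨a, ha⟩) from funext fun g => congrArg η (Subtype.ext rfl), a1, eq_comm,
    classInner] at a0
  have a2 : ∀ m : K, ∑ n : K, extendByZero K (resLE h η)
      (n * b * (m * a) * (n * b : Γ)⁻¹ * (m * a : Γ)⁻¹) = Nat.card K * w / η 1 *
        (η (⟨m, h m.2⟩ * ⟨a, ha⟩) * conj (η (⟨m, h m.2⟩ * ⟨a, ha⟩))) := fun m => by
    have b1 : b * (m * a) * b⁻¹ ∈ U := conj_mem_of_norm hb (mul_mem (h m.2) ha)
    have b2 : η ⟨_, b1⟩ = w * η (⟨m, h m.2⟩ * ⟨a, ha⟩) := hw m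
    have := sum_conj_mul_res hη (Subgroup.inclusion h) hθ ⟨_, b1⟩ (⟨m, h m.2⟩ * ⟨a, ha⟩)⁻¹
    rw [b2, hη.apply_inv] at this
    refine Eq.trans (Finset.sum_congr rfl fun n _ => ?_) (this.trans (by ring))
    rw [extendByZero_of_mem _ ((comm_mem_iff (hU ha) hbK m.2 n.2).2 hab)]
    exact congrArg η (Subtype.ext (by simp [mul_assoc]))
  have a3 : (Nat.card K : ℂ) ≠ 0 := Nat.cast_ne_zero.2 Nat.card_pos.ne'
  have a4 : η 1 ≠ 0 := hθ.apply_one_ne_zero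
  rw [W, Finset.sum_congr rfl fun m _ => a2 m, ← Finset.mul_sum,
    (inv_mul_eq_iff_eq_mul₀ a3).1 a0, show resLE h η 1 = η 1 from rfl]
  field_simp

omit [Finite Γ] in
theorem cyc_quot [(K.subgroupOf (K ⊔ Subgroup.zpowers a)).Normal] (ha : a ∈ N[K]) :
    IsCyclic (↥(K ⊔ Subgroup.zpowers a) ⧸ K.subgroupOf (K ⊔ Subgroup.zpowers a)) := by
  refine ⟨⟨((⟨a, Subgroup.mem_sup_right (Subgroup.mem_zpowers a)⟩ : ↥(K ⊔ Subgroup.zpowers a)) :
    _ ⧸ _), fun y => ?_⟩⟩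
  obtain ⟨⟨x, hx⟩, rfl⟩ := QuotientGroup.mk_surjective y
  obtain ⟨_, ⟨i, rfl⟩, k, hk, rfl⟩ := (mem_sup_of_norm (Subgroup.zpowers_le.2 ha)).1
    (sup_comm K _ ▸ hx)
  exact ⟨i, by
    beta_reduce
    rw [← QuotientGroup.mk_zpow, QuotientGroup.eq, Subgroup.mem_subgroupOf]; simpa using hk⟩

theorem exists_eta (hθ : IsIrrCharacter K θ) (ha : a ∈ aI θ) :
    ∃ η : ↥(K ⊔ Subgroup.zpowers a) → ℂ, IsIrrCharacter _ η ∧ resLE le_sup_left η = θ := by
  have h : K ⊔ Subgroup.zpowers a ≤ aI θ :=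
    sup_le (le_aI_self hθ.isClassFunction) (Subgroup.zpowers_le.2 ha)
  haveI := (Subgroup.normal_subgroupOf_iff_le_normalizer le_sup_left).2 (h.trans aI_le)
  obtain ⟨η, a1, a2⟩ := exists_ext_of_cyclic ((isIrr_subOf_iff le_sup_left).2 hθ) (cj_subOf_eq h)
    (cyc_quot ha.1)
  exact ⟨η, a1, funext fun x => a2 ⟨⟨x, Subgroup.mem_sup_left x.2⟩, x.2⟩⟩

theorem norm_U (hb : b ∈ N[K]) (hab : b * a * b⁻¹ * a⁻¹ ∈ K) : b ∈ N[K ⊔ Subgroup.zpowers a] :=
  mem_norm_sup_zpowers hb (by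
    simpa using Subgroup.mul_mem_sup hab (Subgroup.mem_zpowers a))

theorem exists_lin (h : K ≤ U) (hU : U ≤ N[K]) (ha : a ∈ U) (hb : b ∈ N[U]) (hbθ : b ∈ aI θ)
    (hab : b * a * b⁻¹ * a⁻¹ ∈ K) (hη : IsIrrCharacter U η) (hθ : IsIrrCharacter K θ)
    (e : resLE h η = θ) : ∃ l : U →* ℂˣ, (∀ x : U, (x : Γ) ∈ K → l x = 1) ∧
      cA hb η = (fun g => l g * η g) ∧ W θ a b = l ⟨a, ha⟩ := by
  haveI := (Subgroup.normal_subgroupOf_iff_le_normalizer h).2 hU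
  obtain ⟨l, a1, a2⟩ := exists_lin_of_ext ((isIrr_subOf_iff h).2 hθ) hη (irr_cA hη hb)
    (fun n => congrFun e ⟨n, n.2⟩) fun n => by
      have := resLE_cA h hb hbθ.1 η
      rw [e, hbθ.2] at this
      exact congrFun this ⟨n, n.2⟩
  exact ⟨l, a1, a2, W_ev h hU ha hb hbθ.1 hab hη.isCharacter hθ e fun m => by
    rw [a2]; simp only [map_mul, a1 ⟨m, h m.2⟩ m.2, one_mul]⟩

theorem nU (ha : a ∈ N[K]) : K ⊔ Subgroup.zpowers a ≤ N[K] :=
  sup_le Subgroup.le_normalizer (Subgroup.zpowers_le.2 ha)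

theorem W_mul (hθ : IsIrrCharacter K θ) (ha : a ∈ aI θ) (hb : b ∈ aI θ) (hc : c ∈ aI θ)
    (hab : b * a * b⁻¹ * a⁻¹ ∈ K) (hac : c * a * c⁻¹ * a⁻¹ ∈ K) :
    W θ a (b * c) = W θ a b * W θ a c := by
  obtain ⟨η, a1, a2⟩ := exists_eta hθ ha
  have a0 : a ∈ K ⊔ Subgroup.zpowers a := Subgroup.mem_sup_right (Subgroup.mem_zpowers a)
  obtain ⟨l, b1, b2, b3⟩ := exists_lin _ (nU ha.1) a0 (norm_U hb.1 hab) hb hab a1 hθ a2
  obtain ⟨l', c1, c2, c3⟩ := exists_lin _ (nU ha.1) a0 (norm_U hc.1 hac) hc hac a1 hθ a2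
  refine W_ev _ (nU ha.1) a0 (mul_mem (norm_U hb.1 hab) (norm_U hc.1 hac)) (mul_mem hb.1 hc.1)
    (by simpa [mul_assoc] using mul_mem (conj_mem_of_norm hb.1 hac) hab) a1.isCharacter hθ a2
    fun m => ?_
  rw [← cA_cA (norm_U hc.1 hac) (norm_U hb.1 hab), b2, b3, c3]
  have d1 := congrFun c2 (⟨m, Subgroup.mem_sup_left m.2⟩ * ⟨a, a0⟩)
  have d2 := b1 (⟨_, conj_mem_of_norm (norm_U hc.1 hac) (mul_mem (Subgroup.mem_sup_left m.2) a0)⟩ *
    ⟨a, a0⟩⁻¹) (by simpa [mul_assoc] using mul_mem (conj_mem_of_norm hc.1 m.2) hac)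
  rw [map_mul, map_inv, mul_inv_eq_one] at d2
  rw [map_mul, c1 _ m.2, one_mul] at d1
  rw [mul_assoc, ← d1, ← d2]
  rfl

theorem W_self (hθ : IsIrrCharacter K θ) (ha : a ∈ aI θ) : W θ a a = 1 := by
  obtain ⟨η, a1, a2⟩ := exists_eta hθ ha
  have a0 : a ∈ K ⊔ Subgroup.zpowers a := Subgroup.mem_sup_right (Subgroup.mem_zpowers a)
  refine W_ev _ (nU ha.1) a0 (Subgroup.le_normalizer a0) ha.1 (by simp) a1.isCharacter hθ a2
    fun m => ?_
  rw [(le_aI_self a1.isClassFunction a0).2, one_mul]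

theorem W_one (hθ : IsIrrCharacter K θ) (ha : a ∈ aI θ) : W θ a 1 = 1 := by
  obtain ⟨η, a1, a2⟩ := exists_eta hθ ha
  refine W_ev _ (nU ha.1) (Subgroup.mem_sup_right (Subgroup.mem_zpowers a)) (one_mem _) (one_mem _)
    (by simp) a1.isCharacter hθ a2 fun m => by rw [cA_one, one_mul]

theorem W_pow (hθ : IsIrrCharacter K θ) (ha : a ∈ aI θ) (hb : b ∈ aI θ)
    (hab : b * a = a * b) (n : ℕ) : W θ a (b ^ n) = W θ a b ^ n := by
  induction n with
  | zero => rw [pow_zero, pow_zero, W_one hθ ha]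
  | succ n ih => rw [pow_succ, pow_succ, W_mul hθ ha (pow_mem hb n) hb
      (by simp [(Commute.pow_left hab n).eq]) (by simp [hab]), ih]

theorem W_ext (h : K ≤ M) {φ : M → ℂ} (hφ : IsIrrCharacter M φ) (hθ : IsIrrCharacter K θ)
    (e : resLE h φ = θ) (hM : M ≤ N[K]) (ha : a ∈ aI φ) (hb : b ∈ aI φ) (haK : a ∈ N[K])
    (hbK : b ∈ N[K]) (hab : b * a * b⁻¹ * a⁻¹ ∈ K) : W φ a b = W θ a b := by
  obtain ⟨η, a1, a2⟩ := exists_eta hφ ha
  have a0 : a ∈ M ⊔ Subgroup.zpowers a := Subgroup.mem_sup_right (Subgroup.mem_zpowers a)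
  obtain ⟨l, b1, b2, b3⟩ := exists_lin _ (nU ha.1) a0 (norm_U hb.1 (h hab)) hb (h hab) a1 hφ a2
  refine b3.trans (W_ev (h.trans le_sup_left) (sup_le hM (Subgroup.zpowers_le.2 haK)) a0
    (norm_U hb.1 (h hab)) hbK hab a1.isCharacter hθ (by rw [← e, ← a2]; rfl) fun m => ?_).symm
  rw [b2]; simp only [map_mul, b1 ⟨m, Subgroup.mem_sup_left (h m.2)⟩ (h m.2), one_mul]

/-- the number of irreducible characters over `θ` -/
noncomputable def kk (h : K ≤ T) (θ : K → ℂ) : ℕ := Nat.card {χ : IrrCharacter T // Ov h χ.1 θ}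

theorem gallagher (h : K ≤ T) (hθ : IsIrrCharacter K θ) (hT : T ≤ aI θ) :
    ∑ x : T, ∑ y : T, W θ x y = Nat.card T * Nat.card K * kk h θ := by
  classical
  haveI := (Subgroup.normal_subgroupOf_iff_le_normalizer h).2 (hT.trans aI_le)
  have a3 : (Nat.card K : ℂ) ≠ 0 := Nat.cast_ne_zero.2 Nat.card_pos.ne'
  have a4 : (K.relIndex T : ℂ) ≠ 0 := Nat.cast_ne_zero.2 (relIndex_pos _ _).ne'
  have a5 := (isIrr_subOf_iff h).2 hθ
  have a1 : ∑ x : T, ∑ y : T, W θ x y =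
      θ 1 * ∑ x : T, ∑ y : T, extendByZero K θ (y * x * (y : Γ)⁻¹ * (x : Γ)⁻¹) := by
    have b : ∀ F : Γ → ℂ, ∑ x : T, ∑ m : K, F (m * x) = Nat.card K * ∑ x : T, F x := fun F => by
      rw [Finset.sum_comm, Finset.sum_congr rfl fun (m : K) _ => show ∑ x : T, F (m * x) = _ from
        Equiv.sum_comp (Equiv.mulLeft (⟨m, h m.2⟩ : T)) fun x : T => F x, Finset.sum_const,
        Finset.card_univ, nsmul_eq_mul, ← Nat.card_eq_fintype_card]
    simp only [W, ← Finset.mul_sum]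
    rw [Finset.sum_congr rfl fun _ _ => Finset.sum_comm,
      b fun x => ∑ y : T, ∑ n : K, extendByZero K θ (n * y * x * (n * y : Γ)⁻¹ * x⁻¹),
      Finset.sum_congr rfl fun (x : T) _ =>
        b fun y => extendByZero K θ (y * x * y⁻¹ * (x : Γ)⁻¹), ← Finset.mul_sum]
    field_simp
  have a2 : ∀ z : T, extendByZero K θ z = (K.relIndex T : ℂ)⁻¹ * indFun _ (subOf T θ) z :=
    fun z => by
      by_cases hz : (z : Γ) ∈ K
      · rw [extendByZero_of_mem _ hz, show indFun _ (subOf T θ) z = _ from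
          congrFun (restrict_indFun_of_invariant (cj_subOf_eq hT)) ⟨z, hz⟩, Pi.smul_apply,
          smul_eq_mul, ← mul_assoc]
        exact ((congrArg (· * _) (inv_mul_cancel₀ a4)).trans (one_mul _)).symm
      · rw [extendByZero_of_not_mem _ hz, indFun_eq_zero_of_not_mem (H := K.subgroupOf T) _ hz, mul_zero]
  have a6 : ∀ χ : IrrCharacter T, θ 1 * classInner (indFun _ (subOf T θ)) χ.1 =
      if Ov h χ.1 θ then χ.1 1 else 0 := fun χ => by
    rw [classInner_indFun_subOf h θ χ.2.isClassFunction,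
      hθ.isCharacter.classInner_comm (χ.2.isCharacter.resLE h)]
    split_ifs with c
    · rw [Ov, ← classInner_subOf h] at c
      rw [← classInner_subOf h, mul_comm]
      exact (congrFun (clifford_of_invariant χ.2 a5 c (cj_subOf_eq hT)) 1).symm
    · rw [not_not.1 c, mul_zero]
  have a7 : ∀ χ : IrrCharacter T, ∑ x : T, ∑ y : T, χ.1 (y * x * y⁻¹ * x⁻¹) =
      Nat.card T * Nat.card T / χ.1 1 := fun χ => by
    have := χ.2.classInner_self
    rw [classInner, inv_mul_eq_iff_eq_mul₀ (Nat.cast_ne_zero.2 Nat.card_pos.ne'), mul_one] at this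
    simp only [χ.2.sum_conj_mul]
    simp only [χ.2.isCharacter.apply_inv, mul_assoc, ← Finset.sum_div,
      ← Finset.mul_sum, this]
  have a8 : ∀ x y : T, extendByZero K θ (y * x * (y : Γ)⁻¹ * (x : Γ)⁻¹) = ∑ χ : IrrCharacter T,
      (K.relIndex T : ℂ)⁻¹ * classInner (indFun _ (subOf T θ)) χ.1 * χ.1 (y * x * y⁻¹ * x⁻¹) :=
    fun x y => by
      refine (a2 (y * x * y⁻¹ * x⁻¹)).trans ?_
      rw [(isClassFunction_indFun _).apply_eq_sum_irr, Finset.mul_sum]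
      simp only [mul_assoc]
  rw [a1]
  simp only [a8]
  rw [Finset.sum_congr rfl fun _ _ => Finset.sum_comm, Finset.sum_comm, Finset.mul_sum, kk,
    Nat.card_eq_fintype_card (α := {χ : IrrCharacter T // Ov h χ.1 θ}), Fintype.card_subtype, Finset.card_filter,
    Nat.cast_sum, Finset.mul_sum]
  refine Finset.sum_congr rfl fun χ _ => ?_
  simp only [← Finset.mul_sum, a7]
  rw [← mul_assoc, mul_left_comm, a6, ← CfsgH2.card_mul_relIndex h, Nat.cast_mul]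
  have := χ.2.apply_one_ne_zero
  split_ifs
  · field_simp; simp
  · simp

theorem sum_fac {A B : Type*} [Group A] [Group B] [Fintype A] [Fintype B] (f : A →* B)
    (hf : Surjective f) (F : B → ℂ) : ∑ a, F (f a) = Nat.card f.ker * ∑ b, F b := by
  classical
  rw [← Finset.sum_fiberwise (g := f), Finset.mul_sum]
  refine Finset.sum_congr rfl fun y _ => ?_
  rw [Finset.sum_congr rfl fun x hx => by rw [(Finset.mem_filter.1 hx).2], Finset.sum_const,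
    nsmul_eq_mul, MonoidHom.card_fiber_eq_of_mem_range f (hf y) (hf 1), Nat.card_eq_fintype_card,
    Fintype.card_subtype]
  simp only [MonoidHom.mem_ker]

theorem sum_cosets (hT : T ≤ N[M]) (hN : N ≤ T) (e : qt M N = qt M T) (F : Γ → ℂ)
    (hF : ∀ c ∈ M, ∀ x, F (c * x) = F x) :
    Nat.card (M.subgroupOf T) * ∑ x : N, F x = Nat.card (M.subgroupOf N) * ∑ x : T, F x := by
  have a1 : ∀ {U : Subgroup Γ} (h : U ≤ N[M]), ∑ x : U, F x =
      Nat.card (M.subgroupOf U) * ∑ y : qt M U, F (surjInv qmk_surj y.1 :) := fun h => by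
    rw [← ker_pr h, ← sum_fac _ (pr_surj h)]
    refine Finset.sum_congr rfl fun x _ => ?_
    rw [← hF _ (qmk_eq_iff'.1 (surjInv_eq qmk_surj (pr h x).1)) x]
    exact congrArg F (inv_mul_cancel_right _ _)
  rw [a1 hT, a1 (hN.trans hT), e, mul_left_comm]

theorem kk_eq (h : M ≤ T) (hN : N ≤ T) (e : qt M N = qt M T) (hK : K = M ⊓ N) {φ : M → ℂ}
    (hφ : IsIrrCharacter M φ) (hθ : IsIrrCharacter K θ) (h1 : T ≤ aI φ) (h2 : N ≤ aI θ)
    (hW : ∀ x ∈ N, ∀ y ∈ N, W φ x y = W θ x y) (h3 : K ≤ N) : kk h φ = kk h3 θ := by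
  have hT := h1.trans aI_le
  have a1 := gallagher h hφ h1
  have a2 := gallagher h3 hθ h2
  have a3 := sum_cosets hT hN e (fun _ => 1) fun _ _ _ => rfl
  have a4 := sum_cosets hT hN e (fun x => ∑ y : T, W φ x y) fun c hc x =>
    Finset.sum_congr rfl fun _ _ => W_left φ hc
  have a5 := fun x => sum_cosets hT hN e (W φ x) fun c hc y => W_right φ hc
  have a6 : Nat.card (M.subgroupOf N) = Nat.card K := by
    rw [hK, ← Subgroup.inf_subgroupOf_right, CfsgH2.card_subgroupOf inf_le_right]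
  rw [CfsgH2.card_subgroupOf h, a6] at a3 a4 a5
  simp only [Finset.sum_const, Finset.card_univ, nsmul_eq_mul, mul_one,
    ← Nat.card_eq_fintype_card] at a3
  have b1 : (Nat.card K : ℂ) ≠ 0 := Nat.cast_ne_zero.2 Nat.card_pos.ne'
  have b2 : (Nat.card M : ℂ) ≠ 0 := Nat.cast_ne_zero.2 Nat.card_pos.ne'
  have b3 : (Nat.card T : ℂ) ≠ 0 := Nat.cast_ne_zero.2 Nat.card_pos.ne'
  have a8 : (Nat.card K : ℂ) * ∑ x : N, ∑ y : T, W φ x y =
      Nat.card M * ∑ x : N, ∑ y : N, W θ x y := by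
    rw [Finset.mul_sum, Finset.mul_sum]
    exact Finset.sum_congr rfl fun x _ => (a5 x).symm.trans
      (congrArg _ (Finset.sum_congr rfl fun y _ => hW _ x.2 _ y.2))
  rw [a1] at a4
  rw [a2] at a8
  refine Nat.cast_injective (R := ℂ) (mul_left_cancel₀ (mul_ne_zero (mul_ne_zero b1 b1)
    (mul_ne_zero b2 b3)) ?_)
  linear_combination Nat.card M * a8 - Nat.card K * a4 + Nat.card M * Nat.card K * kk h3 θ * a3

end CfsgMk
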