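import Cfsg.Agent.H3.Mk1
import Cfsg.Agent.H9.Gen

/-! The Okuyama–Wajima argument: Glauberman correspondents have the same commutator form. -/

set_option autoImplicit false
open Cfsg CfsgH3 CfsgH4 CfsgH1 CfsgRg CfsgRo CfsgCd Function
open CfsgH2 hiding cj cj_apply isPGroup_pCore le_pCore isNilpotent_map card_mul_relIndex
open scoped ComplexConjugate CfsgH2

namespace CfsgMk

variable {Γ : Type*} [Group Γ] [Finite Γ] {K U T C D S R A : Subgroup Γ} {θ : K → ℂ} {η : U → ℂ}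
  {ξ : C → ℂ} {a b c : Γ} {p : ℕ} [hp : Fact p.Prime]

theorem exists_step (hS : IsPGroup p S) (hD : D < S) (h1 : S ≤ N[D]) (h2 : A ≤ N[D])
    (h3 : A ≤ N[S]) (h4 : ⁅A, A⁆ ≤ C[S]) (h5 : ¬ p ∣ Nat.card A) :
    ∃ (S₁ B : Subgroup Γ) (a : Γ), S₁ ≤ S ∧ ¬ S₁ ≤ D ∧ S ≤ N[S₁] ∧ A ≤ N[S₁] ∧
      S₁ ≤ (S₁ ⊓ C[B]) ⊔ D ∧ B ≤ A ∧ a ∈ A ∧ A ≤ B ⊔ Subgroup.zpowers a := by
  obtain ⟨V, hV, ⟨v0, v1⟩, v2⟩ := exists_minimal_le (fun V => V ≠ ⊥ ∧ qt D A ≤ N[V])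
    (H := qt D S ⊓ C[qt D S]) ⟨center_ne_bot (isPGroup_qt hS) (mt (qt_eq_bot h1).1 hD.not_ge),
      le_norm_inf (qt_le_norm h3) (le_norm_cent (qt_le_norm h3))⟩
  have v3 : qt D S ≤ C[V] := Subgroup.le_centralizer_iff.1 (hV.trans inf_le_right)
  obtain ⟨_, ha', e⟩ := CfsgH9.exists_cyclic_of_irreducible (A := qt D A) (V := V)
    (qt_commutator h2 h2 ▸ (qt_le_cent h4).trans (CfsgH2.cent_anti (hV.trans inf_le_left))) v1
    (Subgroup.commutator_eq_bot_iff_le_centralizer.2 ((hV.trans inf_le_left).trans v3))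
    fun W h6 h7 => (em (W = ⊥)).imp_right fun h8 => v2 W ⟨h8, h7⟩ h6
  obtain ⟨a, ha, rfl⟩ := mem_qt.1 ha'
  have b1 : qc D V ≤ S := qc_le h1 hD.le (hV.trans inf_le_left)
  have b2 : A ⊓ qc D C[V] ≤ N[D] := inf_le_left.trans h2
  have b3 : Subgroup.zpowers (a : Γ) ≤ N[D] := Subgroup.zpowers_le.2 a.2
  refine ⟨qc D V, A ⊓ qc D C[V], a, b1, fun h => v0 (qc_eq_self.1 (le_antisymm h le_qc)),
    le_norm_qc h1 (v3.trans (CfsgH2.cent_le_norm _)), le_norm_qc h2 v1, ?_, inf_le_left, ha, ?_⟩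
  · rw [← qt_le_qt qc_le_norm (inf_le_left.trans qc_le_norm), coprime_qt_cent b2 qc_le_norm le_qc
      (coprime_of_pgroup (hS.to_le hD.le) fun h => h5 (h.trans
        (Subgroup.card_dvd_of_le inf_le_left))).symm
      (.inr (haveI := (hS.to_le hD.le).isNilpotent; inferInstance)), qt_qc]
    exact le_inf le_rfl (Subgroup.le_centralizer_iff.1 ((qt_mono inf_le_right).trans qt_qc.le))
  · rw [← qt_qc (X := C[V]), ← qt_inf le_qc, ← qt_zpowers a.2, ← qt_sup b2 b3,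
      qt_le_qt h2 (sup_le b2 b3)] at e
    have := le_inf e le_rfl
    rw [sup_inf_of_norm (.inl (sup_le b2 b3)) (sup_le inf_le_left (Subgroup.zpowers_le.2 ha))]
      at this
    exact this.trans (sup_le le_rfl (le_sup_of_le_left (le_inf inf_le_right
      (inf_le_left.trans le_qc))))

omit hp in
theorem GR.res {h : D ≤ U} {ζ : D → ℂ} (g : GR p h η ζ) (h1 : K ≤ U) (h2 : C ≤ D) (h3 : C ≤ K) :
    GR p h3 (resLE h1 η) (resLE h2 ζ) := by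
  obtain ⟨ε, Δ, a1, a2, a3⟩ := g
  exact ⟨ε, resLE h2 Δ, a1, a2.comp (Subgroup.inclusion h2), congrArg (resLE h2) a3⟩

omit hp in
theorem GR.lin {h : D ≤ U} {ζ : D → ℂ} (g : GR p h η ζ) (l : U →* ℂˣ) :
    GR p h (fun x => l x * η x) fun x => l.comp (Subgroup.inclusion h) x * ζ x := by
  obtain ⟨ε, Δ, a1, a2, a3⟩ := g
  refine ⟨ε, _, a1, (isIrr_lin_mul isIrr_one (l.comp (Subgroup.inclusion h))).isGen.mul a2,
    funext fun x => ?_⟩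
  have := congrFun a3 x
  simp only [resLE, Pi.add_apply, Pi.smul_apply, smul_eq_mul, Pi.mul_apply] at this ⊢
  rw [this]
  change (l (Subgroup.inclusion h x) : ℂ) * _ = p * (l (Subgroup.inclusion h x) * 1 * _) +
    ε * (l (Subgroup.inclusion h x) * _)
  ring

theorem GR.ov {h : C ≤ K} {ξ' : C → ℂ} (g : GR p h θ ξ) (g' : GR p h θ ξ')
    (hξ : IsIrrCharacter C ξ) (hθ : IsCharacter K θ) : classInner ξ' ξ ≠ 0 := fun e => by
  obtain ⟨m, a1, a2⟩ := g.not_dvd hp.out hθ hξ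
  obtain ⟨n, ε, -, a3⟩ := g'.inner hξ.isGen
  rw [e, mul_zero, add_zero, a1] at a3
  exact a2 (Int.natCast_dvd_natCast.1 ⟨n, by exact_mod_cast a3⟩)

theorem W_cop (hθ : IsIrrCharacter K θ) (ha : a ∈ aI θ) (hb : b ∈ aI θ) (hab : b * a = a * b)
    (hc : (orderOf a).Coprime (orderOf b)) : W θ a b = 1 := by
  have a1 := W_pow hθ ha hb hab (orderOf b)
  have a2 := W_pow hθ hb ha hab.symm (orderOf a)
  rw [pow_orderOf_eq_one, W_one hθ ha] at a1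
  rw [pow_orderOf_eq_one, W_one hθ hb, W_symm hθ.isCharacter, ← map_pow, eq_comm,
    ← map_one conj] at a2
  simpa [hc.gcd_eq_one] using (pow_gcd_eq_one (a := W θ a b)).2
    ⟨(starRingEnd ℂ).injective a2, a1.symm⟩

theorem ow1 (hR : IsPGroup p R) (hK : ¬ p ∣ Nat.card K) (ho : ¬ p ∣ orderOf a) (h1 : a ∈ C[R])
    (hθ : IsIrrCharacter K θ) (h2 : R ≤ aI θ) (ha : a ∈ aI θ) (hb : b ∈ aI θ)
    (hC : C = K ⊓ C[R]) {h : C ≤ K} (hξ : IsIrrCharacter C ξ) (g : GR p h θ ξ) (h3 : a ∈ N[C])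
    (h4 : b ∈ N[C]) (hab : b * a * b⁻¹ * a⁻¹ ∈ C) : W θ a b = W ξ a b := by
  obtain ⟨η, a1, a2⟩ := exists_eta hθ ha
  have a0 : ∀ X : Subgroup Γ, a ∈ X ⊔ Subgroup.zpowers a := fun X =>
    Subgroup.mem_sup_right (Subgroup.mem_zpowers a)
  have a3 : R ≤ aI η := fun r hr => by
    have b1 : r * a = a * r := mem_cent_iff.1 h1 r hr
    have b2 : r * a * r⁻¹ * a⁻¹ ∈ K := by simp [b1]
    obtain ⟨l, b3, b4, b5⟩ := exists_lin _ (nU ha.1) (a0 K) (norm_U (h2 hr).1 b2) (h2 hr) b2 a1 hθ a2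
    rw [W_cop hθ ha (h2 hr) b1 ((coprime_of_pgroup hR ho).coprime_dvd_left
      (orderOf_dvd_of_mem hr)).symm, eq_comm, Units.val_eq_one] at b5
    refine ⟨norm_U (h2 hr).1 b2, b4.trans (funext fun ⟨x, hx⟩ => ?_)⟩
    obtain ⟨k, hk, _, ⟨i, rfl⟩, rfl⟩ := (mem_sup_of_norm' (Subgroup.zpowers_le.2 ha.1)).1 hx
    rw [show l ⟨_, hx⟩ = l (⟨k, Subgroup.mem_sup_left hk⟩ * ⟨a, a0 K⟩ ^ i) from rfl, map_mul,
      b3 _ hk, map_zpow, b5]
    simp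
  have a4 : C ⊔ Subgroup.zpowers a ≤ K ⊔ Subgroup.zpowers a := sup_le_sup_right h _
  obtain ⟨ζ, a5, a6⟩ := (gc_cast (gc_pgroup hp.out hR (a3.trans aI_le) (coprime_of_pgroup hR
    fun e => ((Nat.Prime.dvd_mul hp.out).1 (e.trans (card_sup_dvd (.inr
      (Subgroup.zpowers_le.2 ha.1))))).elim hK (by rwa [Nat.card_zpowers])).symm) a4 (by
      rw [sup_inf_of_norm' (.inr (Subgroup.zpowers_le.2 ha.1)) (Subgroup.zpowers_le.2 h1),
        hC])).ex η a1 a3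
  have a7 : resLE le_sup_left ζ = ξ := by
    have b1 := GR.res a6 le_sup_left le_sup_left h
    rw [a2] at b1
    have b2 : C ⊔ Subgroup.zpowers a ≤ aI ξ := sup_le (le_aI_self hξ.isClassFunction)
      (g.le_aI hp.out hθ.isCharacter hξ (Subgroup.zpowers_le.2 h3) (Subgroup.zpowers_le.2 ha))
    haveI := (Subgroup.normal_subgroupOf_iff_le_normalizer le_sup_left).2 (b2.trans aI_le)
    exact funext fun x => ext_of_cyclic ((isIrr_subOf_iff le_sup_left).2 hξ) (cj_subOf_eq b2)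
      (cyc_quot h3) a5 ((CfsgRq.ov_iff le_sup_left).2 (GR.ov g b1 hξ hθ.isCharacter))
      ⟨⟨x, Subgroup.mem_sup_left x.2⟩, x.2⟩
  obtain ⟨l, b1, b2, b3⟩ := exists_lin _ (nU ha.1) (a0 K) (norm_U hb.1 (h hab)) hb (h hab) a1 hθ a2
  have b4 := a6.cA (norm_U hb.1 (h hab)) (norm_U h4 hab)
  rw [b2] at b4
  have b5 := (GR.lin a6 l).unique hp.out b4 (isIrr_lin_mul a1 l).isCharacter (isIrr_lin_mul a5 _)
    (irr_cA a5 _)
  refine b3.trans (W_ev le_sup_left (nU h3) (a0 C) (norm_U h4 hab) h4 hab a5.isCharacter hξ a7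
    fun m => ?_).symm
  rw [b5]
  change (l (⟨m, Subgroup.mem_sup_left (h m.2)⟩ * ⟨a, a0 K⟩) : ℂ) * _ = _
  rw [map_mul, b1 _ (h m.2), one_mul]

omit hp in
theorem mem_C (hc : (Nat.card K).Coprime (Nat.card S)) (h : S ≤ N[K]) (h1 : c ∈ K)
    (h2 : c ∈ N[S]) : c ∈ C[S] := mem_cent_iff.2 fun s hs => by
  have : s * c * s⁻¹ * c⁻¹ ∈ K ⊓ S := ⟨K.mul_mem (conj_mem_of_norm (h hs) h1) (K.inv_mem h1), by
    simpa [mul_assoc] using S.mul_mem hs (conj_mem_of_norm h2 (S.inv_mem hs))⟩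
  rw [inf_eq_bot_of_coprime' hc, Subgroup.mem_bot, mul_inv_eq_one, mul_inv_eq_iff_eq_mul] at this
  exact this

omit hp in
theorem W_gen {B : Subgroup Γ} (hθ : IsIrrCharacter K θ) (hξ : IsIrrCharacter C ξ) (h : C ≤ K)
    (h1 : A ≤ aI θ) (h2 : A ≤ aI ξ) (h3 : ∀ a ∈ A, ∀ b ∈ A, b * a * b⁻¹ * a⁻¹ ∈ C) (h4 : B ≤ A)
    (hc : c ∈ A) (h5 : A ≤ B ⊔ Subgroup.zpowers c) (h6 : ∀ a ∈ B, ∀ b ∈ A, W θ a b = W ξ a b) :
    ∀ a ∈ A, ∀ b ∈ A, W θ a b = W ξ a b := by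
  have a1 : ∀ a ∈ A, W θ a c = W ξ a c → ∀ b ∈ A, W θ a b = W ξ a b := fun a ha e b hb => by
    let X : Submonoid Γ :=
      { carrier := {b | b ∈ A ∧ W θ a b = W ξ a b}
        mul_mem' := fun ⟨c1, c2⟩ ⟨c3, c4⟩ => ⟨mul_mem c1 c3, by
          rw [W_mul hθ (h1 ha) (h1 c1) (h1 c3) (h (h3 _ ha _ c1)) (h (h3 _ ha _ c3)),
            W_mul hξ (h2 ha) (h2 c1) (h2 c3) (h3 _ ha _ c1) (h3 _ ha _ c3), c2, c4]⟩
        one_mem' := ⟨one_mem _, by rw [W_one hθ (h1 ha), W_one hξ (h2 ha)]⟩ }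
    have hX : ∀ {x}, x ∈ X → x⁻¹ ∈ X := fun {x} hx => by
      have := X.pow_mem hx (orderOf x - 1)
      rwa [eq_inv_of_mul_eq_one_left (show x ^ (orderOf x - 1) * x = 1 by
        rw [← pow_succ, Nat.sub_add_cancel (orderOf_pos x), pow_orderOf_eq_one])] at this
    let Y : Subgroup Γ := { X with inv_mem' := hX }
    exact ((h5.trans (sup_le (b := Subgroup.zpowers c) (c := Y) (fun x hx => ⟨h4 hx, by
      rw [W_symm hθ.isCharacter, W_symm hξ.isCharacter, h6 x hx a ha]⟩)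
      (Subgroup.zpowers_le.2 ⟨hc, e⟩))) hb).2
  have a2 := a1 c hc (by rw [W_self hθ (h1 hc), W_self hξ (h2 hc)])
  exact fun a ha => a1 a ha (by rw [W_symm hθ.isCharacter, W_symm hξ.isCharacter, a2 a ha])

theorem ow (hS : IsPGroup p S) (hA : ¬ p ∣ Nat.card A) (h1 : A ≤ N[S]) (hξ : IsIrrCharacter C ξ)
    (n : ℕ) : ∀ (K : Subgroup Γ) (θ : K → ℂ) (h : C ≤ K), Nat.card K = n → ¬ p ∣ Nat.card K →
      C = K ⊓ C[S] → IsIrrCharacter K θ → S ≤ aI θ → A ≤ aI θ → GR p h θ ξ →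
      (∀ a ∈ A, ∀ b ∈ A, b * a * b⁻¹ * a⁻¹ ∈ C) → ∀ a ∈ A, ∀ b ∈ A, W θ a b = W ξ a b := by
  induction n using Nat.strong_induction_on with | _ n ih => ?_
  intro K θ h hn hK hC hθ h2 h3 g h4
  by_cases e : S ≤ C[K]
  · obtain rfl : C = K := hC.trans (inf_eq_left.2 (Subgroup.le_centralizer_iff.1 e))
    rw [GR.refl.unique hp.out g hθ.isCharacter hθ hξ]
    exact fun _ _ _ _ => rfl
  have b1 : S ≤ N[K] := h2.trans aI_le
  have b2 : A ≤ N[K] := h3.trans aI_le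
  obtain ⟨S₁, B, c, c1, c2, c3, c4, c5, c6, c7, c8⟩ := exists_step (D := S ⊓ C[K]) hS
    (inf_lt_left.2 e) (le_norm_inf Subgroup.le_normalizer (le_norm_cent b1))
    (le_norm_inf h1 (le_norm_cent b2)) h1 (Subgroup.commutator_le.2 fun x hx y hy =>
      (hC.le (h4 y hy x hx)).2) hA
  have c9 : K ⊓ C[S₁] = K ⊓ C[S₁ ⊓ C[B]] :=
    inf_cent_eq inf_le_left (c5.trans (sup_le_sup_left inf_le_right _))
  have d0 : ∀ {X : Subgroup Γ}, X ≤ S → ∀ {Y : Subgroup Γ}, Y ≤ K →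
      (Nat.card Y).Coprime (Nat.card X) := fun hX _ hY => (coprime_of_pgroup (hS.to_le hX)
        fun e => hK (e.trans (Subgroup.card_dvd_of_le hY))).symm
  obtain ⟨θ₁, d1, d2⟩ := (gc_pgroup hp.out (hS.to_le c1) (c1.trans b1) (d0 c1 le_rfl)).ex θ hθ
    (c1.trans h2)
  have d3 := d2.le_aI hp.out hθ.isCharacter d1 (le_norm_inf_cent b1 c3) h2
  have d4 := d2.le_aI hp.out hθ.isCharacter d1 (le_norm_inf_cent b2 c4) h3
  have d5 : C = K ⊓ C[S₁] ⊓ C[S] := by rw [inf_assoc, inf_eq_right.2 (CfsgH2.cent_anti c1), hC]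
  have d6 : C ≤ K ⊓ C[S₁] := d5.le.trans inf_le_left
  obtain ⟨ξ', d7, d8⟩ := (gc_cast (gc_pgroup hp.out hS (d3.trans aI_le) (d0 le_rfl inf_le_left))
    d6 d5).ex θ₁ d1 d3
  obtain rfl := g.unique hp.out (d2.trans d8) hθ.isCharacter hξ d7
  have d9 := ih _ (hn ▸ CfsgH2.card_lt_of_lt (inf_cent_lt fun e => c2 (le_inf c1 e))) _ θ₁ d6 rfl
    (fun e => hK (e.trans (Subgroup.card_dvd_of_le inf_le_left))) d5 d1 d3 d4 d8 h4
  intro a ha b hb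
  refine Eq.trans ?_ (d9 a ha b hb)
  exact W_gen hθ d1 inf_le_left h3 d4 (fun a ha b hb => d6 (h4 a ha b hb)) c6 c7 c8
    (fun a ha b hb => ow1 (hS.to_le (inf_le_left.trans c1)) hK
      (fun e => hA (e.trans (orderOf_dvd_of_mem (c6 ha))))
      (Subgroup.le_centralizer_iff.1 inf_le_right ha) hθ ((inf_le_left.trans c1).trans h2)
      (h3 (c6 ha)) (h3 hb) c9 d1 d2 (d4 (c6 ha)).1 (d4 hb).1 (d6 (h4 a (c6 ha) b hb))) a ha b hb

end CfsgMk
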