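import Cfsg.Agent.H3.Mk2
import Cfsg.Agent.H2.BG0

/-! Counting characters of `p'`-degree over a given character. -/

set_option autoImplicit false
open Cfsg CfsgH3 CfsgH4 CfsgH1 CfsgRg CfsgRo CfsgCd Function
open CfsgH2 hiding cj cj_apply isPGroup_pCore le_pCore isNilpotent_map card_mul_relIndex
open scoped ComplexConjugate CfsgH2

namespace CfsgMk

theorem card_eq_of_fib {X Y O : Type*} [Finite X] [Finite Y] (r : X → O → Prop) (s : Y → O → Prop)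
    (E : O → O → Prop) (h1 : ∀ x, ∃ o, r x o) (h2 : ∀ y, ∃ o, s y o)
    (h3 : ∀ x o, r x o → ∀ o', r x o' ↔ E o o') (h4 : ∀ y o, s y o → ∀ o', s y o' ↔ E o o')
    (h5 : ∀ o, Nat.card {x // r x o} = Nat.card {y // s y o}) : Nat.card X = Nat.card Y := by
  have a1 : ∀ {Z : Type _} (t : Z → O → Prop), (∀ x o, t x o → ∀ o', t x o' ↔ E o o') →
      ∀ o, E o o → ∀ x, t x = E o ↔ t x o := fun t h o e x =>
    ⟨fun c => c ▸ e, fun c => funext fun o' => propext (h x o c o')⟩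
  have a2 : ∀ {Z : Type _} (t : Z → O → Prop), (∀ x o, t x o → ∀ o', t x o' ↔ E o o') →
      ∀ o, E o o → ∀ x, t x = E o ↔ t x o := fun t h o e x =>
    ⟨fun c => c ▸ e, fun c => funext fun o' => propext (h x o c o')⟩
  refine Nat.card_congr ((Equiv.sigmaFiberEquiv r).symm.trans ((Equiv.sigmaCongrRight fun A =>
    Classical.choice (Finite.card_eq.1 ?_)).trans (Equiv.sigmaFiberEquiv s)))
  by_cases h : ∃ o, E o o ∧ A = E o
  · obtain ⟨o, e, rfl⟩ := h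
    rw [Nat.card_congr (Equiv.subtypeEquivRight (a1 r h3 o e)), h5,
      Nat.card_congr (Equiv.subtypeEquivRight (a2 s h4 o e))]
  · haveI : IsEmpty {x // r x = A} := ⟨fun ⟨x, e⟩ => let ⟨o, c⟩ := h1 x
      h ⟨o, (h3 x o c o).1 c, e ▸ funext fun o' => propext (h3 x o c o')⟩⟩
    haveI : IsEmpty {x // s x = A} := ⟨fun ⟨x, e⟩ => let ⟨o, c⟩ := h2 x
      h ⟨o, (h4 x o c o).1 c, e ▸ funext fun o' => propext (h4 x o c o')⟩⟩
    rw [Nat.card_of_isEmpty, Nat.card_of_isEmpty]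

theorem one_cop {A : Type*} [Monoid A] {a : A} {m n : ℕ} (h : m.Coprime n) (h1 : a ^ m = 1)
    (h2 : a ^ n = 1) : a = 1 := by
  have := (pow_gcd_eq_one (a := a)).2 ⟨h1, h2⟩
  rwa [h.gcd_eq_one, pow_one] at this

variable {Γ : Type*} [Group Γ] [Finite Γ] {G K L T C S M N : Subgroup Γ} {θ : K → ℂ}
  {ν ν' : L → ℂ} {χ : T → ℂ} {φ φ' : M → ℂ} {ψ ψ' : N → ℂ} {p : ℕ}

/-- characters of `p'`-degree over `ν` -/
abbrev Ip (p : ℕ) (h : L ≤ T) (ν : L → ℂ) :=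
  {χ : IrrCharacter T // ¬ p ∣ charDegree χ.1 ∧ Ov h χ.1 ν}

theorem deg_dvd (h : K ≤ T) (hn : T ≤ N[K]) (hθ : IsIrrCharacter K θ) (hχ : IsIrrCharacter T χ)
    (a : Ov h χ θ) : (T ⊓ aI θ).relIndex T * charDegree θ ∣ charDegree χ ∧
      charDegree χ ∣ K.relIndex T * charDegree θ := by
  haveI := (Subgroup.normal_subgroupOf_iff_le_normalizer h).2 hn
  have := deg_dvd_of_over ((isIrr_subOf_iff h).2 hθ) hχ ((CfsgRq.ov_iff h).2 a)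
  rwa [CfsgRq.inertia_eq h hn] at this

theorem cnt_fib (h1 : L ≤ K) (h2 : K ≤ T) (hθ : IsIrrCharacter K θ) (hν : IsIrrCharacter L ν)
    (a : Ov h1 θ ν) : Nat.card {x : Ip p (h1.trans h2) ν // Ov h2 x.1.1 θ} =
      Nat.card (Ip p h2 θ) :=
  Nat.card_congr (Equiv.subtypeSubtypeEquivSubtypeInter _ (fun χ : IrrCharacter T => Ov h2 χ.1 θ)
    |>.trans (Equiv.subtypeEquivRight fun χ => ⟨fun c => ⟨c.1.1, c.2⟩, fun c =>
      ⟨⟨c.1, over_trans h1 h2 χ.2.isCharacter hθ hν.isCharacter c.2 a⟩, c.2⟩⟩))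

variable [hp : Fact p.Prime]

theorem cnt_kk (h : K ≤ T) (hn : T ≤ N[K]) (hθ : IsIrrCharacter K θ) (h1 : ¬ p ∣ K.relIndex T)
    (h2 : ¬ p ∣ charDegree θ) : Nat.card (Ip p h θ) = kk h θ :=
  Nat.card_congr (Equiv.subtypeEquivRight fun χ => ⟨fun c => c.2, fun c => ⟨fun e =>
    (hp.out.dvd_mul.1 (e.trans (deg_dvd h hn hθ χ.2 c).2)).elim h1 h2, c⟩⟩)

theorem cnt_clif (h1 : L ≤ T) (h2 : T ≤ G) (hn : G ≤ N[L]) (hν : IsIrrCharacter L ν)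
    (hT : T = G ⊓ aI ν) (h : ¬ p ∣ T.relIndex G) :
    Nat.card (Ip p (h1.trans h2) ν) = Nat.card (Ip p h1 ν) := by
  refine card_eq_of_rel (fun χ ψ => Ov h2 χ.1.1 ψ.1.1) (fun χ => ?_) (fun ψ => ?_)
    (fun χ χ' ψ a b => Subtype.ext (Subtype.ext (clif_up h1 h2 hn hν hT ψ.1.2 ψ.2.2 χ'.1.2 b χ.1.2 a)))
    fun χ ψ ψ' a b => Subtype.ext (Subtype.ext
      (clif_down h1 h2 hn hν hT ψ.1.2 ψ.2.2 χ.1.2 a ψ'.1.2 ψ'.2.2 b))
  · obtain ⟨ψ, a1, a2, a3⟩ := exists_mid h1 h2 χ.1.2.isClassFunction χ.2.2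
    exact ⟨⟨⟨ψ, a1⟩, fun e => χ.2.1 (deg_clif h1 h2 hn hν hT a1 a3 χ.1.2 a2 ▸ e.mul_left _), a3⟩, a2⟩
  · obtain ⟨χ, a1, a2⟩ := exists_irr_over' h2 ψ.1.2
    exact ⟨⟨⟨χ, a1⟩, fun e => (hp.out.dvd_mul.1
      (deg_clif h1 h2 hn hν hT ψ.1.2 ψ.2.2 a1 a2 ▸ e)).elim h ψ.2.1,
      over_trans h1 h2 a1.isCharacter ψ.1.2 hν.isCharacter a2 ψ.2.2⟩, a2⟩

omit hp

theorem ov_uniq (h : L ≤ T) (hc : T ≤ C[L]) (hχ : IsIrrCharacter T χ) (hν : IsIrrCharacter L ν)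
    (hν' : IsIrrCharacter L ν') (a : Ov h χ ν) (b : Ov h χ ν') : ν' = ν := by
  obtain ⟨k, hk, e⟩ := exists_cA_eq h (hc.trans (CfsgH2.cent_le_norm _)) hχ hν hν' a b
  rw [e, cA_of_cent (hc hk)]

theorem ov_scal (h : L ≤ T) (hc : T ≤ aI ν) (hχ : IsIrrCharacter T χ) (hν : IsIrrCharacter L ν)
    (a : Ov h χ ν) : ∃ e : ℕ, ∀ z : L, χ ⟨z, h z.2⟩ = e * ν z := by
  haveI := (Subgroup.normal_subgroupOf_iff_le_normalizer h).2 (hc.trans aI_le)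
  obtain ⟨e, -, a1⟩ := exists_mult_dvd_of_inv ((isIrr_subOf_iff h).2 hν) (cj_subOf_eq hc) hχ
    ((CfsgRq.ov_iff h).2 a)
  exact ⟨e, fun z => a1 ⟨⟨z, h z.2⟩, z.2⟩⟩

theorem ov_self (h : L ≤ T) (a : IsIrrCharacter L (resLE h χ)) : Ov h χ (resLE h χ) := by
  rw [Ov, a.classInner_self]; exact one_ne_zero

theorem dt_ov (h : L ≤ T) (hc : T ≤ C[L]) (hχ : IsIrrCharacter T χ) (l : L →* ℂˣ)
    (a : Ov h χ fun x => l x) (z : L) : dt χ ⟨z, h z.2⟩ = l z ^ charDegree χ := by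
  obtain ⟨e, a1⟩ := ov_scal h (hc.trans cent_le_aI) hχ (isIrr_of_unitsHom l) a
  have a2 : χ 1 = e := (a1 1).trans (by simp)
  refine Units.val_injective ((dt_of_scalar hχ.isCharacter (coe_charDegree hχ.isCharacter).symm
    (norm_eq_one_of_lin (isIrr_of_unitsHom l).isCharacter (by simp) z) ?_).trans (by simp))
  rw [a1, a2, mul_comm]

/-- a `p`-group acting on a `p'`-group -/
structure Fr (p : ℕ) (K S M : Subgroup Γ) : Prop where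
  pg : IsPGroup p S
  nd : ¬ p ∣ Nat.card K
  nm : S ≤ N[K]
  eq : M = K ⊔ S

namespace Fr
variable (f : Fr p K S M)
include f
omit [Finite Γ] in
theorem KM : K ≤ M := f.eq ▸ le_sup_left
omit [Finite Γ] in
theorem SM : S ≤ M := f.eq ▸ le_sup_right
omit [Finite Γ] in
theorem MN : M ≤ N[K] := f.eq ▸ sup_le Subgroup.le_normalizer f.nm
omit [Finite Γ] in
theorem nor : (K.subgroupOf M).Normal := (Subgroup.normal_subgroupOf_iff_le_normalizer f.KM).2 f.MN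
theorem idx : (K.subgroupOf M).index ∣ Nat.card S := f.eq ▸ index_subgroupOf_sup_dvd f.nm
include hp
theorem cop : (Nat.card K).Coprime (Nat.card S) := (coprime_of_pgroup f.pg f.nd).symm
theorem cop' {d : ℕ} (h : ¬ p ∣ d) : (K.subgroupOf M).index.Coprime d :=
  (coprime_of_pgroup f.pg h).coprime_dvd_left f.idx
theorem syl : Syl p S M := f.eq ▸ sup_comm K S ▸ (Syl.self f.pg).sup_coprime (.inl f.nm) f.nd

theorem res (hφ : IsIrrCharacter M φ) (h : ¬ p ∣ charDegree φ) :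
    IsIrrCharacter K (resLE f.KM φ) :=
  haveI := f.nor
  (isIrr_subOf_iff f.KM).1 (restrict_irr_of_coprime hφ (coe_charDegree hφ.isCharacter).symm
    (f.cop' h))

omit hp in
theorem deg (h : IsIrrCharacter K (resLE f.KM φ)) : ¬ p ∣ charDegree φ :=
  fun e => f.nd (e.trans (charDegree_dvd h))

theorem lift (l : S →* ℂˣ) : ∃ μ : M →* ℂˣ, (∀ x : M, (x : Γ) ∈ K → μ x = 1) ∧
    ∀ s : S, μ ⟨s, f.SM s.2⟩ = l s := by
  obtain ⟨μ, a⟩ := exists_lin_lift ((pr f.MN).comp (Subgroup.inclusion f.SM)) (fun y => by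
    obtain ⟨⟨x, hx⟩, rfl⟩ := pr_surj f.MN y
    obtain ⟨k, hk, s, hs, rfl⟩ := (mem_sup_of_norm' f.nm).1 (f.eq ▸ hx)
    refine ⟨⟨s, hs⟩, Eq.symm ?_⟩
    rw [show (⟨k * s, hx⟩ : M) = ⟨k, f.KM hk⟩ * ⟨s, f.SM hs⟩ from rfl, map_mul,
      show pr f.MN ⟨k, f.KM hk⟩ = 1 from (ker_pr f.MN).ge hk, one_mul]
    rfl) l fun s hs => by
      have : (s : Γ) ∈ K ⊓ S := ⟨(ker_pr f.MN).le hs, s.2⟩
      rw [inf_eq_bot_of_coprime' f.cop, Subgroup.mem_bot, OneMemClass.coe_eq_one] at this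
      rw [this, map_one]
  exact ⟨μ.comp (pr f.MN), fun x hx => by
    rw [MonoidHom.comp_apply, show pr f.MN x = 1 from (ker_pr f.MN).ge hx, map_one], a⟩

theorem root {d : ℕ} (h : ¬ p ∣ d) (l : S →* ℂˣ) : ∃ μ : S →* ℂˣ, ∀ s, μ s ^ d = l s := by
  obtain ⟨e, a⟩ := exists_pow_eq_self_of_coprime (x := l)
    ((coprime_of_pgroup f.pg h).coprime_dvd_left (orderOf_lin_dvd_card l)).symm
  exact ⟨l ^ e, fun s => by
    rw [← MonoidHom.pow_apply, ← pow_mul, mul_comm, pow_mul, a]⟩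

theorem ex (hθ : IsIrrCharacter K θ) (h : S ≤ aI θ) {d : ℕ} (hd : ¬ p ∣ d) (l : S →* ℂˣ) :
    ∃ φ, IsIrrCharacter M φ ∧ resLE f.KM φ = θ ∧ ∀ s : S, dt φ ⟨s, f.SM s.2⟩ ^ d = l s := by
  haveI := f.nor
  have a0 := (isIrr_subOf_iff f.KM).2 hθ
  obtain ⟨χ, a1, a2, a3⟩ := exists_ext_of_coprime a0 (cj_subOf_eq (f.eq.le.trans
    (sup_le (le_aI_self hθ.isClassFunction) h))) (f.cop' (CfsgH2.card_subgroupOf f.KM ▸ f.nd))
  obtain ⟨l', a4⟩ := f.root hd l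
  obtain ⟨μ, a5, a6⟩ := f.lift l'
  obtain ⟨φ, b1, b2, b3⟩ := exists_ext_det_eq a0 (coe_charDegree a0.isCharacter).symm
    (f.cop' fun e => f.nd (e.trans (charDegree_dvd hθ))) a1 a2 (dt χ * μ) fun n => by
      rw [MonoidHom.mul_apply, a5 _ n.2, mul_one]
      exact dt_of_eq a1.isCharacter (K.subgroupOf M).subtype a2 n
  refine ⟨φ, b1, funext fun x => b2 ⟨⟨x, f.KM x.2⟩, x.2⟩, fun s => ?_⟩
  have b4 : dt χ ⟨s, f.SM s.2⟩ = 1 := by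
    have c1 : dt χ ⟨s, f.SM s.2⟩ ^ Nat.card K = 1 := orderOf_lin_dvd.1 (by
      rw [← detOrder_eq, a3, ← CfsgH2.card_subgroupOf f.KM]; exact detOrder_dvd _) _
    have c2 : dt χ ⟨s, f.SM s.2⟩ ^ Nat.card S = 1 :=
      orderOf_lin_dvd.1 (orderOf_lin_dvd_card ((dt χ).comp (Subgroup.inclusion f.SM))) s
    exact one_cop f.cop c1 c2
  rw [b3, MonoidHom.mul_apply, b4, one_mul, a6, a4]

theorem lin_eq {d : ℕ} (hd : ¬ p ∣ d) {l l' : S →* ℂˣ} {s : S} (h : l s ^ d = l' s ^ d) :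
    l s = l' s := by
  have c1 : (l s / l' s) ^ d = 1 := by rw [div_pow, h, div_self']
  have c2 : (l s / l' s) ^ Nat.card S = 1 := orderOf_lin_dvd.1 (orderOf_lin_dvd_card (l / l')) s
  exact div_eq_one.1 (one_cop (coprime_of_pgroup f.pg hd) c2 c1)

theorem uniq (hφ : IsIrrCharacter M φ) (hφ' : IsIrrCharacter M φ')
    (h : IsIrrCharacter K (resLE f.KM φ)) (e : resLE f.KM φ' = resLE f.KM φ) {d : ℕ} (hd : ¬ p ∣ d)
    (h1 : ∀ s : S, dt φ ⟨s, f.SM s.2⟩ ^ d = dt φ' ⟨s, f.SM s.2⟩ ^ d) : φ = φ' := by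
  haveI := f.nor
  refine ext_unique_of_det ((isIrr_subOf_iff f.KM).2 h) (coe_charDegree hφ.isCharacter).symm
    (f.cop' (f.deg h)) hφ hφ' (fun _ => rfl) (fun n => congrFun e ⟨n, n.2⟩)
    (MonoidHom.ext fun ⟨x, hx⟩ => ?_)
  obtain ⟨k, hk, s, hs, rfl⟩ := (mem_sup_of_norm' f.nm).1 (f.eq ▸ hx)
  rw [show (⟨k * s, hx⟩ : M) = ⟨k, f.KM hk⟩ * ⟨s, f.SM hs⟩ from rfl, map_mul, map_mul]
  congr 1
  · exact (dt_of_eq hφ.isCharacter (Subgroup.inclusion f.KM) (fun _ => rfl) ⟨k, hk⟩).trans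
      (dt_of_eq hφ'.isCharacter (Subgroup.inclusion f.KM) (congrFun e) ⟨k, hk⟩).symm
  · exact f.lin_eq hd (l := (dt φ).comp (Subgroup.inclusion f.SM))
      (l' := (dt φ').comp (Subgroup.inclusion f.SM)) (h1 ⟨s, hs⟩)

theorem mem_K {x : Γ} (hx : x ∈ M) (h : ¬ p ∣ orderOf x) : x ∈ K :=
  mem_of_pow_mem_coprime (pow_relIndex_mem' f.MN hx) (f.cop' h).symm

theorem lin_triv (hL : L ≤ M) (hc : L ≤ C[S]) (l : L →* ℂˣ) (h1 : ∀ z : L, (z : Γ) ∈ K → l z = 1)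
    (h2 : ∀ z : L, (z : Γ) ∈ S → l z = 1) (z : L) : l z = 1 := by
  have c1 := h1 (z ^ K.relIndex M) (pow_relIndex_mem' f.MN (hL z.2))
  obtain ⟨k, hk⟩ := IsPGroup.iff_card.1 f.pg
  have c0 : (z : Γ) ^ Nat.card K ∈ L := pow_mem z.2 _
  have c2 := h2 (z ^ Nat.card K) (f.syl.le_of_norm' (isPGroup_zpowers (k := k) (by
    rw [← pow_mul, ← hk]
    exact orderOf_dvd_iff_pow_eq_one.1 ((orderOf_dvd_of_mem (hL z.2)).trans
      (f.eq ▸ card_sup_dvd (.inr f.nm))))) (Subgroup.zpowers_le.2 (hL c0))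
    (Subgroup.zpowers_le.2 (CfsgH2.cent_le_norm _ (hc c0))) (Subgroup.mem_zpowers _))
  rw [map_pow] at c1 c2
  exact one_cop (f.cop' f.nd) c1 c2

end Fr

end CfsgMk
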