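import Cfsg.Agent.H3.Mk3

/-! The relative McKay count when `SK` is normal and `L` is central. -/

set_option autoImplicit false
open Cfsg CfsgH3 CfsgH4 CfsgH1 CfsgRg CfsgRo CfsgCd Function
open CfsgH2 hiding cj cj_apply isPGroup_pCore le_pCore isNilpotent_map card_mul_relIndex
open scoped ComplexConjugate CfsgH2

namespace CfsgMk

variable {Γ : Type*} [Group Γ] [Finite Γ] {G K L T C S M D N : Subgroup Γ} {θ : K → ℂ}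
  {ν : L → ℂ} {φ φ' : M → ℂ} {ψ ψ' : D → ℂ} {p : ℕ}

/-- the correspondence between `p'`-degree characters of `KS` and of `C_K(S)S` -/
structure Rho (f : Fr p K S M) (g : Fr p C S D) (h : C ≤ K) (φ : M → ℂ) (ψ : D → ℂ) : Prop where
  i1 : IsIrrCharacter M φ
  i2 : IsIrrCharacter D ψ
  r1 : IsIrrCharacter K (resLE f.KM φ)
  r2 : IsIrrCharacter C (resLE g.KM ψ)
  gr : GR p h (resLE f.KM φ) (resLE g.KM ψ)
  dt : ∀ s : S, dt φ ⟨s, f.SM s.2⟩ ^ charDegree ψ = dt ψ ⟨s, g.SM s.2⟩ ^ charDegree φ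

theorem dt_cA (hφ : IsCharacter M φ) {n : Γ} (h : n ∈ N[M]) (x : M) :
    dt (cA h φ) x = dt φ ⟨n * x * n⁻¹, conj_mem_of_norm h x.2⟩ :=
  DFunLike.congr_fun (dt_comp hφ (M.normalizerMonoidHom ⟨n, h⟩).toMonoidHom) x

omit [Finite Γ] in
theorem deg_cA {n : Γ} (h : n ∈ N[M]) : charDegree (cA h φ) = charDegree φ := by
  simp only [charDegree, cA, map_one]

omit [Finite Γ] in
theorem comm_closure {a b : Γ} (ha : a ∈ N[K]) (hb : b ∈ N[K]) (h : b * a * b⁻¹ * a⁻¹ ∈ K) :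
    ∀ x ∈ Subgroup.closure {a, b}, ∀ y ∈ Subgroup.closure {a, b}, y * x * y⁻¹ * x⁻¹ ∈ K := by
  let F : Γ → Subgroup Γ := fun x =>
    { carrier := {y | y ∈ N[K] ∧ y * x * y⁻¹ * x⁻¹ ∈ K}
      mul_mem' := fun ⟨c1, c2⟩ ⟨c3, c4⟩ => ⟨mul_mem c1 c3, by
        simpa [mul_assoc] using mul_mem (conj_mem_of_norm c1 c4) c2⟩
      one_mem' := ⟨one_mem _, by simp⟩
      inv_mem' := fun ⟨c1, c2⟩ => ⟨inv_mem c1, by
        simpa [mul_assoc] using conj_mem_of_norm' c1 (inv_mem c2)⟩ }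
  have a0 : ∀ {x y : Γ}, y * x * y⁻¹ * x⁻¹ ∈ K → x * y * x⁻¹ * y⁻¹ ∈ K := fun c => by
    simpa [mul_assoc] using inv_mem c
  have a1 : ∀ x, a ∈ F x → b ∈ F x → Subgroup.closure {a, b} ≤ F x := fun x c1 c2 =>
    (Subgroup.closure_le _).2 (Set.pair_subset c1 c2)
  exact fun x hx y hy => (a1 x ⟨ha, a0 (a1 a ⟨ha, by simp⟩ ⟨hb, h⟩ hx).2⟩
    ⟨hb, a0 (a1 b ⟨ha, a0 h⟩ ⟨hb, by simp⟩ hx).2⟩ hy).2

variable [hp : Fact p.Prime] {f : Fr p K S M} {g : Fr p C S D} {h : C ≤ K}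

theorem Fr.gc (f : Fr p K S M) (h : C ≤ K) (hC : C = K ⊓ C[S]) : GC p S h :=
  gc_cast (gc_pgroup hp.out f.pg f.nm f.cop) h hC

omit hp [Finite Γ] in
theorem Fr.inv (f : Fr p K S M) (hφ : IsIrrCharacter M φ) : S ≤ aI (resLE f.KM φ) :=
  f.SM.trans (le_aI_of_ext f.KM f.MN hφ.isClassFunction)

namespace Rho

theorem ex (hC : C = K ⊓ C[S]) (hφ : IsIrrCharacter M φ) (hd : ¬ p ∣ charDegree φ) :
    ∃ ψ, Rho f g h φ ψ := by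
  obtain ⟨ξ, a1, a2⟩ := (f.gc h hC).ex _ (f.res hφ hd) (f.inv hφ)
  obtain ⟨ψ, b1, rfl, b3⟩ := g.ex a1 ((Subgroup.le_centralizer_iff.1
    (hC.le.trans inf_le_right)).trans cent_le_aI) hd
    (((CfsgH4.dt φ).comp (Subgroup.inclusion f.SM)) ^ charDegree ξ)
  exact ⟨ψ, hφ, b1, f.res hφ hd, a1, a2, fun s => (b3 s).symm⟩

theorem ex' (hC : C = K ⊓ C[S]) (hψ : IsIrrCharacter D ψ) (hd : ¬ p ∣ charDegree ψ) :
    ∃ φ, Rho f g h φ ψ := by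
  obtain ⟨θ, a1, a2, a3⟩ := (f.gc h hC).surj _ (g.res hψ hd)
  obtain ⟨φ, b1, rfl, b3⟩ := f.ex a1 a2 hd
    (((CfsgH4.dt ψ).comp (Subgroup.inclusion g.SM)) ^ charDegree θ)
  exact ⟨φ, b1, hψ, a1, g.res hψ hd, a3, b3⟩

theorem uniq (a : Rho f g h φ ψ) (b : Rho f g h φ ψ') : ψ = ψ' := by
  have e := a.gr.unique hp.out b.gr a.r1.isCharacter a.r2 b.r2
  refine g.uniq a.i2 b.i2 a.r2 e (f.deg a.r1) fun s => ?_
  rw [← a.dt, ← b.dt, show charDegree ψ' = charDegree ψ from (congrArg charDegree e :)]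

theorem inj (hC : C = K ⊓ C[S]) (a : Rho f g h φ ψ) (b : Rho f g h φ' ψ) : φ = φ' := by
  have e := (f.gc h hC).inj b.r1 a.r1 a.r2 (f.inv b.i1) (f.inv a.i1) b.gr a.gr
  refine f.uniq a.i1 b.i1 a.r1 e (g.deg a.r2) fun s => ?_
  rw [a.dt, b.dt, show charDegree φ' = charDegree φ from (congrArg charDegree e :)]

omit hp in
theorem cA (a : Rho f g h φ ψ) {n : Γ} (h1 : n ∈ N[K]) (h2 : n ∈ N[C]) (h3 : n ∈ N[S])
    (h4 : n ∈ N[M]) (h5 : n ∈ N[D]) : Rho f g h (cA h4 φ) (cA h5 ψ) :=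
  ⟨irr_cA a.i1 _, irr_cA a.i2 _, irr_cA a.r1 h1, irr_cA a.r2 h2, a.gr.cA h1 h2, fun s => by
    rw [dt_cA a.i1.isCharacter, dt_cA a.i2.isCharacter, deg_cA, deg_cA]
    exact a.dt ⟨_, conj_mem_of_norm h3 s.2⟩⟩

theorem ov (hC : C = K ⊓ C[S]) (a : Rho f g h φ ψ) (h1 : L ≤ D) (h2 : L ≤ M) (h3 : D ≤ M)
    (hc : M ≤ C[L]) (hν : IsIrrCharacter L ν) : Ov h2 φ ν ↔ Ov h1 ψ ν := by
  have a0 : ∀ {ν : L → ℂ}, IsIrrCharacter L ν → ∃ l : L →* ℂˣ, ν = fun g => (l g : ℂ) :=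
    fun c => c.isCharacter.exists_monoidHom (c.apply_one_of_comm fun x y =>
      Subtype.ext (mem_cent_iff.1 (hc (h2 y.2)) x x.2))
  obtain ⟨ν₁, a1, a2⟩ := exists_irr_under' h2 a.i1
  obtain ⟨ν₂, a3, a4⟩ := exists_irr_under' h1 a.i2
  obtain ⟨l, rfl⟩ := a0 a1
  obtain ⟨m, rfl⟩ := a0 a3
  have a5 : L ≤ C[S] := Subgroup.le_centralizer_iff.1 (f.SM.trans hc)
  have a6 : ∀ l : L →* ℂˣ, IsIrrCharacter (L ⊓ C :) (resLE inf_le_left fun x => (l x : ℂ)) :=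
    fun l => isIrr_of_unitsHom (l.comp (Subgroup.inclusion inf_le_left))
  have a7 := ov_uniq (inf_le_left.trans h2) (hc.trans (CfsgH2.cent_anti inf_le_left)) a.i1 (a6 l)
    (a6 m) (over_trans _ h2 a.i1.isCharacter a1 (a6 l).isCharacter a2 (ov_self _ (a6 l)))
    (over_trans inf_le_right h a.r1.isCharacter a.r2 (a6 m).isCharacter (by
      obtain ⟨k, c1, c2⟩ := a.gr.not_dvd hp.out a.r1.isCharacter a.r2
      rw [c1]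
      exact Nat.cast_ne_zero.2 fun e => c2 (e ▸ dvd_zero p))
      (over_trans _ h1 a.i2.isCharacter a3 (a6 m).isCharacter a4 (ov_self _ (a6 m))))
  obtain rfl : l = m := MonoidHom.ext fun z => div_eq_one.1 (f.lin_triv h2 a5 (l / m)
    (fun z hz => div_eq_one.2 (Units.val_injective
      (congrFun a7 ⟨z, z.2, hC.ge ⟨hz, a5 z.2⟩⟩).symm)) (fun z hz => by
      have c1 := a.dt ⟨z, hz⟩
      rw [dt_ov h2 hc a.i1 l a2 z, dt_ov h1 (h3.trans hc) a.i2 m a4 z, ← pow_mul, ← pow_mul,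
        mul_comm (charDegree ψ)] at c1
      refine one_cop (coprime_of_pgroup f.pg fun e => (hp.out.dvd_mul.1 e).elim (f.deg a.r1)
        (g.deg a.r2)) ?_ (by rw [MonoidHom.div_apply, div_pow, c1, div_self'])
      rw [← map_pow, show z ^ Nat.card S = 1 from Subtype.ext
        (orderOf_dvd_iff_pow_eq_one.1 (orderOf_dvd_of_mem hz)), map_one]) z)
  exact ⟨fun c => ov_uniq h2 hc a.i1 a1 hν a2 c ▸ a4,
    fun c => ov_uniq h1 (h3.trans hc) a.i2 a1 hν a4 c ▸ a2⟩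

theorem w (hC : C = K ⊓ C[S]) (a : Rho f g h φ ψ) (h3 : D ≤ M) (s : Syl p S N) (h4 : N ≤ N[S])
    (h5 : N ≤ N[K]) (h6 : N ≤ aI φ) (h7 : N ≤ aI ψ) : ∀ x ∈ N, ∀ y ∈ N, W φ x y = W ψ x y := by
  obtain ⟨A, a1, a2, -, a3⟩ := exists_compl s.le h4 s.coprime
  have a4 : ¬ p ∣ Nat.card A := a3 ▸ s.nd
  have a5 : N ≤ N[C] := hC ▸ le_norm_inf_cent h5 h4
  intro x' hx' y' hy'
  obtain ⟨u, hu, x, hx, rfl⟩ := (mem_sup_of_norm' (a1.trans h4)).1 (a2.ge hx')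
  obtain ⟨v, hv, y, hy, rfl⟩ := (mem_sup_of_norm' (a1.trans h4)).1 (a2.ge hy')
  rw [W_left _ (f.SM hu), W_right _ (f.SM hv), W_left _ (g.SM hu), W_right _ (g.SM hv)]
  by_cases e : y * x * y⁻¹ * x⁻¹ ∈ M
  swap
  · rw [W_zero _ (h6 (a1 hx)).1 (h6 (a1 hy)).1 e,
      W_zero _ (h7 (a1 hx)).1 (h7 (a1 hy)).1 fun c => e (h3 c)]
  have b0 : y * x * y⁻¹ * x⁻¹ ∈ A := mul_mem (mul_mem (mul_mem hy hx) (inv_mem hy)) (inv_mem hx)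
  have b1 := f.mem_K e fun c => a4 (c.trans (orderOf_dvd_of_mem b0))
  have b2 : y * x * y⁻¹ * x⁻¹ ∈ C := hC.ge ⟨b1, mem_C f.cop f.nm b1 (h4 (a1 b0))⟩
  have b3 : Subgroup.closure {x, y} ≤ A := (Subgroup.closure_le _).2 (Set.pair_subset hx hy)
  rw [W_ext f.KM a.i1 a.r1 rfl f.MN (h6 (a1 hx)) (h6 (a1 hy)) (h5 (a1 hx)) (h5 (a1 hy)) b1,
    W_ext g.KM a.i2 a.r2 rfl g.MN (h7 (a1 hx)) (h7 (a1 hy)) (a5 (a1 hx)) (a5 (a1 hy)) b2]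
  exact ow f.pg (fun c => a4 (c.trans (Subgroup.card_dvd_of_le b3))) ((b3.trans a1).trans h4) a.r2
    _ K _ h rfl f.nd hC a.r1 (f.inv a.i1) (fun t ht => ⟨h5 (a1 (b3 ht)), by
      rw [← resLE_cA f.KM (h6 (a1 (b3 ht))).1, (h6 (a1 (b3 ht))).2]⟩) a.gr
    (comm_closure (a5 (a1 hx)) (a5 (a1 hy)) b2) x (Subgroup.subset_closure (by simp)) y
    (Subgroup.subset_closure (by simp))

end Rho

theorem core (s : Syl p S G) (hK : ¬ p ∣ Nat.card K) (h1 : K ≤ G) (h2 : G ≤ N[K])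
    (h3 : G ≤ N[K ⊔ S]) (hL : L ≤ K ⊔ S) (hc : G ≤ C[L]) (hν : IsIrrCharacter L ν)
    (hN : N = G ⊓ N[S]) (h4 : L ≤ G) (h5 : L ≤ N) :
    Nat.card (Ip p h4 ν) = Nat.card (Ip p h5 ν) := by
  have f : Fr p K S (K ⊔ S) := ⟨s.pg, hK, s.le.trans h2, rfl⟩
  generalize K ⊔ S = M at f h3 hL
  obtain ⟨C, hC⟩ : ∃ C, C = K ⊓ C[S] := ⟨_, rfl⟩
  have h : C ≤ K := hC.le.trans inf_le_left
  have g : Fr p C S (C ⊔ S) := ⟨s.pg, fun e => hK (e.trans (Subgroup.card_dvd_of_le h)),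
    hC ▸ le_norm_inf_cent f.nm Subgroup.le_normalizer, rfl⟩
  generalize C ⊔ S = D at g
  have n1 : N ≤ G := hN.le.trans inf_le_left
  have n2 : N ≤ N[S] := hN.le.trans inf_le_right
  have n3 : N ≤ N[C] := hC ▸ le_norm_inf_cent (n1.trans h2) n2
  have n4 : N ≤ N[D] := g.eq ▸ le_norm_sup n3 n2
  have n5 : S ≤ N := hN ▸ le_inf s.le Subgroup.le_normalizer
  have m1 : M ≤ G := f.eq ▸ sup_le h1 s.le
  have m2 : D = M ⊓ N := by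
    rw [f.eq, sup_inf_of_norm' (.inr f.nm) n5, g.eq]
    exact congrArg (· ⊔ S) (hC.trans (le_antisymm (le_inf inf_le_left (hN ▸ inf_le_inf h1
      (CfsgH2.cent_le_norm _))) fun x hx => ⟨hx.1, mem_C f.cop f.nm hx.1 (n2 hx.2)⟩))
  have m3 : D ≤ M := m2.le.trans inf_le_left
  have m4 : D ≤ N := m2.le.trans inf_le_right
  have m5 : L ≤ D := m2 ▸ le_inf hL h5
  have fr : ∀ k ∈ G, ∃ m ∈ M, ∃ n ∈ N, k = m * n := fun k hk => by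
    obtain ⟨m, hm, n, hn, rfl⟩ := f.syl.frattini (h3 hk)
    exact ⟨m, hm, n, hN.ge ⟨(G.mul_mem_cancel_left (m1 hm)).1 hk, hn⟩, rfl⟩
  have ca : ∀ {φ ψ}, Rho f g h φ ψ → ∀ n (hn : n ∈ N),
      Rho f g h (cA (h3 (n1 hn)) φ) (cA (n4 hn) ψ) :=
    fun a n hn => a.cA (h2 (n1 hn)) (n3 hn) (n2 hn) _ _
  refine card_eq_of_fib (O := {o : (M → ℂ) × (D → ℂ) // Rho f g h o.1 o.2 ∧ Ov hL o.1 ν})
    (fun χ o => Ov m1 χ.1.1 o.1.1) (fun χ o => Ov m4 χ.1.1 o.1.2)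
    (fun o o' => ∃ n, ∃ hn : n ∈ N, o'.1.1 = cA (h3 (n1 hn)) o.1.1) (fun χ => ?_) (fun χ => ?_)
    (fun χ o a o' => ⟨fun b => ?_, ?_⟩) (fun χ o a o' => ⟨fun b => ?_, ?_⟩) ?_
  · obtain ⟨φ, a1, a2, a3⟩ := exists_mid hL m1 χ.1.2.isClassFunction χ.2.2
    obtain ⟨ψ, a4⟩ := Rho.ex (f := f) (g := g) (h := h) hC a1 fun e =>
      χ.2.1 ((e.mul_left _).trans (deg_dvd m1 h3 a1 χ.1.2 a2).1)
    exact ⟨⟨(φ, ψ), a4, a3⟩, a2⟩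
  · obtain ⟨ψ, a1, a2, a3⟩ := exists_mid m5 m4 χ.1.2.isClassFunction χ.2.2
    obtain ⟨φ, a4⟩ := Rho.ex' (f := f) (g := g) (h := h) hC a1 fun e =>
      χ.2.1 ((e.mul_left _).trans (deg_dvd m4 n4 a1 χ.1.2 a2).1)
    exact ⟨⟨(φ, ψ), a4, (a4.ov hC m5 hL m3 (m1.trans hc) hν).2 a3⟩, a2⟩
  · obtain ⟨k, hk, e⟩ := exists_cA_eq m1 h3 χ.1.2 o.2.1.i1 o'.2.1.i1 a b
    obtain ⟨m, hm, n, hn, rfl⟩ := fr k hk
    refine ⟨n, hn, e.trans ?_⟩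
    rw [← cA_cA (h3 (n1 hn)) (h3 (m1 hm)), (le_aI_self o.2.1.i1.isClassFunction hm).2]
  · rintro ⟨n, hn, e⟩
    rwa [e, Ov, classInner_resLE_cA m1 (le_aI_self χ.1.2.isClassFunction (n1 hn))]
  · obtain ⟨n, hn, e⟩ := exists_cA_eq m4 n4 χ.1.2 o.2.1.i2 o'.2.1.i2 a b
    exact ⟨n, hn, o'.2.1.inj hC (e ▸ ca o.2.1 n hn)⟩
  · rintro ⟨n, hn, e⟩
    rwa [o'.2.1.uniq (e ▸ ca o.2.1 n hn), Ov,
      classInner_resLE_cA m4 (le_aI_self χ.1.2.isClassFunction hn)]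
  rintro ⟨⟨φ, ψ⟩, a, b⟩
  have t1 : M ≤ G ⊓ aI φ := St.QT m1 a.i1
  have t2 : D ≤ N ⊓ aI ψ := St.QT m4 a.i2
  have t3 : N ⊓ aI ψ ≤ G ⊓ aI φ := fun n hn => ⟨n1 hn.1, _, (a.inj hC (hn.2.2 ▸ ca a n hn.1)).symm⟩
  have s1 := s.mono (f.SM.trans t1) inf_le_left
  have s2 := s.mono (g.SM.trans t2) (inf_le_left.trans n1)
  refine (cnt_fib hL m1 a.i1 hν b).trans (Eq.trans ?_
    (cnt_fib m5 m4 a.i2 hν ((a.ov hC m5 hL m3 (m1.trans hc) hν).1 b)).symm)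
  rw [cnt_clif t1 inf_le_left h3 a.i1 rfl (s.not_dvd_of_le (f.SM.trans t1)),
    cnt_clif t2 inf_le_left n4 a.i2 rfl ((s.mono n5 n1).not_dvd_of_le (g.SM.trans t2)),
    cnt_kk t1 (inf_le_left.trans h3) a.i1 (s1.not_dvd_of_le f.SM) (f.deg a.r1),
    cnt_kk t2 (inf_le_left.trans n4) a.i2 (s2.not_dvd_of_le g.SM) (g.deg a.r2)]
  refine kk_eq t1 t3 (le_antisymm (qt_mono t3) ((qt_le_qt (inf_le_left.trans h3)
    (t3.trans (inf_le_left.trans h3))).2 fun k hk => ?_)) (le_antisymm (le_inf m3 t2)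
      (m2.ge.trans' (inf_le_inf_left _ inf_le_left))) a.i1 a.i2 inf_le_right inf_le_right
    (a.w hC m3 s2 (inf_le_left.trans n2) (inf_le_left.trans (n1.trans h2))
      (t3.trans inf_le_right) inf_le_right) t2
  obtain ⟨m, hm, n, hn, rfl⟩ := fr k hk.1
  have c := ((aI φ).mul_mem_cancel_left (t1 hm).2).1 hk.2
  rw [sup_comm]
  exact Subgroup.mul_mem_sup hm ⟨hn, _, (a.uniq (c.2 ▸ ca a n hn)).symm⟩

end CfsgMk
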