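import Cfsg.Agent.H3.Mk4

/-! The relative McKay count for `p`-solvable groups. -/

set_option autoImplicit false
open Cfsg CfsgH3 CfsgH4 CfsgH1 CfsgRg CfsgRo CfsgCd Function
open CfsgH2 hiding cj cj_apply isPGroup_pCore le_pCore isNilpotent_map card_mul_relIndex
open scoped ComplexConjugate CfsgH2

namespace CfsgMk
universe u

theorem transfer {A X B Y : Type*} [Group A] [Group X] [Group B] [Group Y] [Finite X] [Finite Y]
    [Fintype A] [Fintype B] (p : ℕ) (j : A →* X) (j' : B →* Y) (f : X →* Y) (hf : Surjective f)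
    (g : A →* B) (hg : Surjective g) (c : ∀ a, f (j a) = j' (g a)) {ν : B → ℂ}
    (hν : IsIrrCharacter B ν) (hk : ∀ χ, IsIrrCharacter X χ →
      classInner (fun a => χ (j a)) (fun a => ν (g a)) ≠ 0 → ∀ x ∈ f.ker, χ x = χ 1) :
    Nat.card {χ : IrrCharacter X // ¬ p ∣ charDegree χ.1 ∧
      classInner (fun a => χ.1 (j a)) (fun a => ν (g a)) ≠ 0} =
    Nat.card {β : IrrCharacter Y // ¬ p ∣ charDegree β.1 ∧
      classInner (fun b => β.1 (j' b)) ν ≠ 0} := by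
  have a1 : ∀ β : IrrCharacter Y, classInner (fun a => (irrComp f hf β).1 (j a)) (fun a => ν (g a)) =
      classInner (fun b => β.1 (j' b)) ν := fun β =>
    (congrArg (classInner · _) (funext fun a => congrArg β.1 (c a))).trans
      (inner_surj g hg (β.2.isCharacter.comp j') hν)
  refine card_eq_of_rel (fun χ β => irrComp f hf β.1 = χ.1) (fun χ => ?_)
    (fun β => ⟨⟨irrComp f hf β.1, by rw [charDegree_irrComp, a1]; exact β.2⟩, rfl⟩)
    (fun χ χ' β a b => Subtype.ext (a.symm.trans b)) fun χ β β' a b => Subtype.ext (Subtype.ext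
      (funext fun y => ?_))
  · obtain ⟨χ, h1, h2⟩ := χ
    obtain ⟨β, rfl⟩ := exists_irrComp_eq_of_ker hf (hk _ χ.2 h2)
    exact ⟨⟨β, by rwa [← charDegree_irrComp hf], by rwa [← a1]⟩, rfl⟩
  · obtain ⟨x, rfl⟩ := hf y
    exact congrFun (congrArg Subtype.val (a.trans b.symm)) x

theorem transfer' {X Y : Type*} [Group X] [Group Y] [Finite X] [Finite Y] {L T : Subgroup X}
    {L' T' : Subgroup Y} (p : ℕ) (h : L ≤ T) (h' : L' ≤ T') (f : T →* T') (hf : Surjective f)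
    (g : L →* L') (hg : Surjective g) (c : ∀ a : L, f ⟨a, h a.2⟩ = ⟨g a, h' (g a).2⟩) {ν : L → ℂ}
    {ν' : L' → ℂ} (e : ∀ a, ν a = ν' (g a)) (hν : IsIrrCharacter L' ν')
    (hk : ∀ χ, IsIrrCharacter T χ → Ov h χ ν → ∀ x ∈ f.ker, χ x = χ 1) :
    Nat.card (Ip p h ν) = Nat.card (Ip p h' ν') := by
  obtain rfl := funext e
  exact transfer p (Subgroup.inclusion h) (Subgroup.inclusion h') f hf g hg c hν hk

variable {p : ℕ} [hp : Fact p.Prime]

theorem ct_cnt {X H : Type*} [Group X] [Finite X] [Group H] [Finite H] {L U : Subgroup X} [L.Normal]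
    {ν : L → ℂ} {k : ℕ} {π : H →* X} {i : L →* H} {τ : H → ℂ} {lam : π.ker →* ℂˣ}
    (c : CT ν k π i τ lam) (μ : L.comap π →* ℂˣ)
    (h1 : ∀ n, μ ⟨i n, c.range_le le_rfl ⟨n, rfl⟩⟩ = 1)
    (h2 : ∀ z : π.ker, lam z * μ ⟨z, CT.ker_le z.2⟩ = 1) (h3 : ⊤ ≤ aI fun x => (μ x : ℂ))
    (hU : L ≤ U) (hd : ¬ p ∣ charDegree ν) : Nat.card (Ip p hU ν) =
      Nat.card (Ip p (Subgroup.comap_mono (f := π) hU) fun x => (μ x : ℂ)) := by
  have c' := c.restrict hU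
  have a0 : ∀ {χ : U → ℂ} {ξ : U.comap π → ℂ}, IsCharacter _ χ → IsCharacter _ ξ →
      (∀ x, χ (π.subgroupComap U x) = ξ x * τ x) → charDegree χ = charDegree ξ * charDegree ν :=
    fun a b e => Nat.cast_injective (R := ℂ) (by
      rw [Nat.cast_mul, coe_charDegree a, coe_charDegree b, coe_charDegree c.irr'.isCharacter,
        ← c.one, ← map_one (π.subgroupComap U), e]; rfl)
  have a1 : ∀ ξ : Ip p (Subgroup.comap_mono (f := π) hU) fun x => (μ x : ℂ),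
      ∀ x : L.comap π, ξ.1.1 ⟨x, hU x.2⟩ = ξ.1.1 1 * μ x := fun ξ x => by
    obtain ⟨e, b⟩ := ov_scal _ (le_top.trans h3) ξ.1.2 (isIrr_of_unitsHom μ) ξ.2.2
    rw [b, show ξ.1.1 1 = e from (b 1).trans (by simp)]
  have a2 : ∀ ξ : Ip p (Subgroup.comap_mono (f := π) hU) fun x => (μ x : ℂ),
      ∀ n, ξ.1.1 ⟨i n, c.range_le hU ⟨n, rfl⟩⟩ = ξ.1.1 1 := fun ξ n =>
    (a1 ξ ⟨i n, c.range_le le_rfl ⟨n, rfl⟩⟩).trans (by rw [h1]; simp)
  refine card_eq_of_rel (fun χ ξ => ∀ x, χ.1.1 (π.subgroupComap U x) = ξ.1.1 x * τ x)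
    (fun χ => ?_) (fun ξ => ?_) (fun χ χ' ξ a b => Subtype.ext (Subtype.ext (funext fun y => ?_)))
    fun χ ξ ξ' a b => Subtype.ext (Subtype.ext ?_)
  · obtain ⟨ξ, b1, b2, b3, b4⟩ := c'.exists_xi χ.1.2 ((CfsgRq.ov_iff hU).2 χ.2.2)
    refine ⟨⟨⟨ξ, b1⟩, fun e => χ.2.1 (a0 χ.1.2.isCharacter b1.isCharacter b4 ▸ e.mul_right _), ?_⟩,
      b4⟩
    have : resLE (Subgroup.comap_mono (f := π) hU) ξ = ξ 1 • fun x => (μ x : ℂ) := by
      funext ⟨x, hx⟩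
      obtain ⟨n, z, rfl⟩ := c.exists_eq hx
      have d1 := c'.xi_mul b1.isCharacter b3 ⟨i n, c.range_le hU ⟨n, rfl⟩⟩
        ⟨⟨z, CT.ker_le z.2⟩, Subtype.ext z.2⟩
      have d2 := congrArg Units.val (h2 z)
      rw [show ξ ⟨i n, _⟩ = ξ 1 from b2 ⟨⟨n, hU n.2⟩, n.2⟩] at d1
      rw [Pi.smul_apply, show μ ⟨_, hx⟩ = μ (⟨i n, c.range_le le_rfl ⟨n, rfl⟩⟩ *
        ⟨z, CT.ker_le z.2⟩) from rfl, map_mul, h1, one_mul, ← d1, smul_eq_mul, mul_right_comm]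
      exact ((congrArg (· * _) d2).trans (one_mul _)).symm
    rw [Ov, this, classInner_smul_left, (isIrr_of_unitsHom μ).classInner_self, mul_one]
    exact b1.apply_one_ne_zero
  · obtain ⟨χ, -, b1, b2, b3⟩ := c'.exists_chi ξ.1.2.isCharacter (fun n => a2 ξ _) fun z => by
      have d1 := congrArg Units.val (h2 ⟨z, congrArg Subtype.val (MonoidHom.mem_ker.1 z.2)⟩)
      refine (congrArg (_ * ·) (a1 ξ ⟨z, CT.ker_le
        (congrArg Subtype.val (MonoidHom.mem_ker.1 z.2))⟩)).trans ?_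
      rw [mul_left_comm]
      exact (congrArg (_ * ·) d1).trans (mul_one _)
    refine ⟨⟨⟨χ, b1 ξ.1.2⟩, fun e => (hp.out.dvd_mul.1 (a0 (b1 ξ.1.2).isCharacter ξ.1.2.isCharacter
      b2 ▸ e)).elim ξ.2.1 hd, ?_⟩, b2⟩
    rw [Ov, show resLE hU χ = ξ.1.1 1 • ν from funext fun n => b3 ⟨⟨n, hU n.2⟩, n.2⟩,
      classInner_smul_left, c.irr'.classInner_self, mul_one]
    exact ξ.1.2.apply_one_ne_zero
  · obtain ⟨x, rfl⟩ := c'.surj y
    exact (a x).trans (b x).symm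
  · haveI := c'.normal
    exact eq_of_mul_eq_of_restrict_irr c'.chr c'.irr_range ξ.1.2 (by rintro _ ⟨n, rfl⟩; exact a2 ξ _)
      ξ'.1.2 (by rintro _ ⟨n, rfl⟩; exact a2 ξ' _) (funext fun x => (a x).symm.trans (b x))

variable {Γ : Type u} [Group Γ] [Finite Γ] {G K L T S N : Subgroup Γ} {ν : L → ℂ}

theorem step3 (s : Syl p S G) (h1 : L ≤ K) (h2 : K ≤ G) (hn : G ≤ N[K]) (hν : IsIrrCharacter L ν)
    (hi : G ≤ aI ν) (hN : N = G ⊓ N[K ⊔ S]) (h3 : K ≤ N)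
    (H : ∀ θ, IsIrrCharacter K θ → S ≤ aI θ → Nat.card (Ip p h2 θ) = Nat.card (Ip p h3 θ)) :
    Nat.card (Ip p (h1.trans h2) ν) = Nat.card (Ip p (h1.trans h3) ν) := by
  have n1 : N ≤ G := hN.le.trans inf_le_left
  have a1 : ∀ {T : Subgroup Γ} (h : K ≤ T), S ≤ T → T ≤ G → ∀ χ : Ip p (h1.trans h) ν,
      ∃ o : {θ : K → ℂ // IsIrrCharacter K θ ∧ S ≤ aI θ ∧ Ov h1 θ ν}, Ov h χ.1.1 o.1 :=
    fun h b1 b2 χ => by
      obtain ⟨θ, c1, c2, c3⟩ := exists_mid h1 h χ.1.2.isClassFunction χ.2.2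
      obtain ⟨k, hk, c4⟩ := CfsgRq.exists_inv (s.mono b1 b2) (b2.trans hn) (θ := θ) fun e =>
        χ.2.1 ((e.mul_right _).trans (deg_dvd h (b2.trans hn) c1 χ.1.2 c2).1)
      exact ⟨⟨_, irr_cA c1 _, c4, (hi (b2 hk)).2 ▸ c3.cA _ (hi (b2 hk)).1⟩, by
        rwa [Ov, classInner_resLE_cA h (le_aI_self χ.1.2.isClassFunction hk)]⟩
  refine card_eq_of_fib (O := {θ : K → ℂ // IsIrrCharacter K θ ∧ S ≤ aI θ ∧ Ov h1 θ ν})
    (fun χ o => Ov h2 χ.1.1 o.1) (fun χ o => Ov h3 χ.1.1 o.1)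
    (fun o o' => ∃ k, ∃ hk : k ∈ G, o'.1 = cA (hn hk) o.1) (a1 h2 s.le le_rfl)
    (a1 h3 (hN ▸ le_inf s.le (le_norm_of_le le_sup_right)) n1)
    (fun χ o a o' => ⟨fun b => exists_cA_eq h2 hn χ.1.2 o.2.1 o'.2.1 a b, ?_⟩)
    (fun χ o a o' => ⟨fun b => ?_, ?_⟩) fun o => (cnt_fib h1 h2 o.2.1 hν o.2.2.2).trans
      ((H _ o.2.1 o.2.2.1).trans (cnt_fib h1 h3 o.2.1 hν o.2.2.2).symm)
  · rintro ⟨n, hn, e⟩
    rwa [e, Ov, classInner_resLE_cA h2 (le_aI_self χ.1.2.isClassFunction hn)]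
  · obtain ⟨n, h4, e⟩ := exists_cA_eq h3 (n1.trans hn) χ.1.2 o.2.1 o'.2.1 a b
    exact ⟨n, n1 h4, e⟩
  · rintro ⟨k, hk, e⟩
    obtain ⟨n, b1, b2, b3⟩ := align s hn o.2.2.1 hk (e ▸ o'.2.2.1)
    rwa [e, ← b3, Ov, classInner_resLE_cA h3 (le_aI_self χ.1.2.isClassFunction
      (hN.ge ⟨b1, CfsgH2.mem_norm_sup (hn b1) b2⟩))]

/-- the relative McKay equality -/
def MK (p : ℕ) (G L S : Subgroup Γ) (ν : L → ℂ) : Prop :=
  ∀ (N : Subgroup Γ) (h4 : L ≤ G) (h5 : L ≤ N), N = G ⊓ N[L ⊔ S] →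
    Nat.card (Ip p h4 ν) = Nat.card (Ip p h5 ν)

/-- the inductive hypothesis -/
def IH (p n : ℕ) : Prop := ∀ (Γ : Type u) [Group Γ] [Finite Γ] (G L S : Subgroup Γ) (ν : L → ℂ),
  L.relIndex G < n → IsPSolvable p G → Syl p S G → G ≤ N[L] → IsIrrCharacter L ν → S ≤ aI ν →
    MK p G L S ν

theorem psolv_surj {X Y : Type*} [Group X] [Group Y] [Finite X] [Finite Y] (h : IsPSolvable p X)
    (f : X →* Y) (hf : Surjective f) : IsPSolvable p Y :=
  (isPSolvable_iff hp.out).2 (((isPSolvable_iff hp.out).1 h).of_surjective hf)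

theorem psolv_le (h : IsPSolvable p G) (h1 : T ≤ G) : IsPSolvable p T :=
  (isPSolvable_iff hp.out).2 (((isPSolvable_iff hp.out).1 h).of_le h1)

omit hp in
theorem idx_lt (h1 : L ≤ T) (h2 : T < G) : L.relIndex T < L.relIndex G := by
  refine Nat.lt_of_mul_lt_mul_left (a := Nat.card L) ?_
  rw [CfsgH2.card_mul_relIndex h1, CfsgH2.card_mul_relIndex (h1.trans h2.le)]
  exact CfsgH2.card_lt_of_lt h2

omit hp in
theorem idx_lt' (h1 : L < T) (h2 : T ≤ G) : T.relIndex G < L.relIndex G := by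
  rw [← Subgroup.relIndex_mul_relIndex _ _ _ h1.le h2]
  exact lt_mul_of_one_lt_left (relIndex_pos _ _) (by simpa using idx_lt le_rfl h1)

theorem stC (ih : IH.{u} p (L.relIndex G)) (hG : IsPSolvable p G) (s : Syl p S G) (hc : G ≤ C[L])
    (hν : IsIrrCharacter L ν) : MK p G L S ν := fun N h4 h5 hN => by
  have a0 : G ≤ N[L] := hc.trans (CfsgH2.cent_le_norm _)
  rcases h4.eq_or_lt with rfl | e
  · obtain rfl : N = L := hN.trans (inf_eq_left.2 (le_norm_of_le le_sup_left |>.trans' le_rfl))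
    rfl
  haveI := (Subgroup.normal_subgroupOf_iff_le_normalizer h4).2 a0
  obtain ⟨K', a1, a2, -, a3⟩ := Sep.exists_normal_between (N := L.subgroupOf G) (K := ⊤)
    (((isPSolvable_iff hp.out).1 hG).subgroup ⊤)
    (lt_top_iff_ne_top.2 (mt Subgroup.subgroupOf_eq_top.1 e.not_ge))
  obtain ⟨K, b1, rfl⟩ : ∃ K, K ≤ G ∧ K.subgroupOf G = K' :=
    ⟨K'.map G.subtype, Subgroup.map_subtype_le _, 
      Subgroup.comap_map_eq_self_of_injective G.subtype_injective _⟩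
  have b2 : G ≤ N[K] := (Subgroup.normal_subgroupOf_iff_le_normalizer b1).1 a1
  have b3 : L < K := lt_of_le_of_ne (fun x hx => a2.le (x := ⟨x, h4 hx⟩) hx) fun e => a2.ne (e ▸ rfl)
  rw [Subgroup.relIndex_subgroupOf b1] at a3
  have b4 : K ≤ G ⊓ N[K ⊔ S] := le_inf b1 (le_norm_of_le le_sup_left)
  have b5 := step3 s b3.le b1 b2 hν (hc.trans cent_le_aI) rfl b4 fun θ c1 c2 =>
    ih Γ G K S θ (idx_lt' b3 b1) hG s b2 c1 c2 _ b1 b4 rfl
  obtain ⟨σ, rfl | rfl, a4⟩ := a3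
  · have c1 : K ≤ S ⊔ L := (qt_le_qt (b1.trans a0) (s.le.trans a0)).1 ((s.qt a0).le_of_norm
      (isPGroup_iff_piN.2 (card_qt (b1.trans a0) ▸ a4)) (qt_mono b1) (qt_le_norm (s.le.trans b2)))
    obtain rfl : N = G ⊓ N[K ⊔ S] := by
      rw [hN, le_antisymm (sup_le_sup_right b3.le S) (sup_le (c1.trans_eq (sup_comm ..)) le_sup_right)]
    exact b5
  have a5 := (piN_compl_singleton hp.out).1 a4
  rcases (inf_le_left : G ⊓ N[K ⊔ S] ≤ G).eq_or_lt with c | c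
  · have c1 := (s.inf_norm h4 (s.le.trans a0)).trans b3.le a5
    have c2 : G ≤ C[S ⊓ L] := hc.trans (CfsgH2.cent_anti inf_le_right)
    obtain ⟨H, d1, d2, -, d3⟩ := exists_compl c1.le (b1.trans (c2.trans (CfsgH2.cent_le_norm _)))
      c1.coprime
    have d4 : ¬ p ∣ Nat.card H := d3 ▸ c1.nd
    have f : Fr p H (S ⊓ L) K := ⟨c1.pg, d4, (Subgroup.le_centralizer_iff.1
      ((d1.trans b1).trans c2)).trans (CfsgH2.cent_le_norm _), by rw [sup_comm, d2]⟩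
    have d5 : H ⊔ S = K ⊔ S := by rw [f.eq, sup_assoc, sup_eq_right.2 (inf_le_left : S ⊓ L ≤ S)]
    have d6 : L ⊔ S ≤ N[S] := sup_le ((Subgroup.le_centralizer_iff.1 (s.le.trans hc)).trans
      (CfsgH2.cent_le_norm _)) Subgroup.le_normalizer
    refine core s d4 (d1.trans b1) (fun g hg => mem_norm_of_conj fun x hx => f.mem_K
      (conj_mem_of_norm (b2 hg) (d1 hx)) fun e => d4 (Dvd.dvd.trans ?_ (orderOf_dvd_of_mem hx)))
      (d5 ▸ c.ge.trans inf_le_right) (d5 ▸ b3.le.trans le_sup_left) hc hν (hN.trans (le_antisymm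
        (inf_le_inf_left _ ((s.mono le_sup_right (sup_le h4 s.le)).norm_le_of_norm d6))
        (le_inf inf_le_left (le_norm_sup (inf_le_left.trans a0) inf_le_right)))) h4 h5
    exact e.trans (orderOf_map_dvd (MulAut.conj g).toMonoidHom x)
  · refine b5.trans (ih Γ _ L S ν (idx_lt (b3.le.trans b4) c) (psolv_le hG c.le)
      (s.mono (le_inf s.le (le_norm_of_le le_sup_right)) c.le) (c.le.trans a0) hν
      (s.le.trans (hc.trans cent_le_aI)) N _ h5 (hN.trans (le_antisymm (le_inf (le_inf inf_le_left ?_)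
        inf_le_right) (inf_le_inf_right _ inf_le_left))))
    rw [← sup_eq_left.2 b3.le, sup_assoc]
    exact le_norm_sup (inf_le_left.trans b2) inf_le_right

theorem stB (ih : IH.{u} p (L.relIndex G)) (hG : IsPSolvable p G) (s : Syl p S G) (l : L →* ℂˣ)
    (hi : G ≤ aI fun x => (l x : ℂ)) : MK p G L S fun x => (l x : ℂ) := fun N h4 h5 hN => by
  obtain ⟨Z, hZ⟩ : ∃ Z : Subgroup Γ, ∀ x, x ∈ Z ↔ ∃ h : x ∈ L, l ⟨x, h⟩ = 1 :=
    ⟨l.ker.map L.subtype, fun x => ⟨by rintro ⟨y, h, rfl⟩; exact ⟨y.2, h⟩,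
      fun ⟨a, b⟩ => ⟨⟨x, a⟩, b, rfl⟩⟩⟩
  have a0 : ∀ g (hg : g ∈ G) (x : L), l ⟨_, conj_mem_of_norm (hi hg).1 x.2⟩ = l x :=
    fun g hg x => Units.val_injective (congrFun (hi hg).2 x)
  have a1 : Z ≤ L := fun x hx => ((hZ x).1 hx).1
  have a2 : G ≤ N[Z] := fun g hg => mem_norm_of_conj fun x hx =>
    (hZ _).2 ⟨_, (a0 g hg ⟨x, a1 hx⟩).trans ((hZ x).1 hx).2⟩
  obtain ⟨m, a3⟩ := exists_lin_lift (pr (h4.trans a2)) (pr_surj _) l fun x hx =>
    ((hZ x).1 ((ker_pr _).le hx)).2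
  have a4 : ∀ {T : Subgroup Γ} (h : L ≤ T), T ≤ G → Nat.card (Ip p h fun x => (l x : ℂ)) =
      Nat.card (Ip p (qt_mono (K := Z) h) fun x => (m x : ℂ)) := fun h hT => by
    refine transfer' p h (qt_mono h) (pr (hT.trans a2))
      (pr_surj _) (pr (h4.trans a2)) (pr_surj _) (fun _ => rfl) (fun a => by rw [a3])
      (isIrr_of_unitsHom m) fun χ c1 c2 x hx => ?_
    obtain ⟨e, c3⟩ := ov_scal h (hT.trans hi) c1 (isIrr_of_unitsHom l) c2
    obtain ⟨c4, c5⟩ := (hZ x).1 ((ker_pr _).le hx)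
    exact (c3 ⟨x, c4⟩).trans (by rw [c5]; exact ((c3 1).trans (by simp)).symm)
  rw [a4 h4 le_rfl, a4 h5 (hN.le.trans inf_le_left)]
  refine stC (by rwa [relIndex_qt a2 a1]) (psolv_surj hG _ (pr_surj a2)) (s.qt a2)
    ((qt_le_cent_iff a2 (h4.trans a2)).2 (Subgroup.commutator_le.2 fun g hg x hx => (hZ _).2
      ⟨L.mul_mem (conj_mem_of_norm (hi hg).1 hx) (L.inv_mem hx), ?_⟩)) (isIrr_of_unitsHom m) _ _ _ ?_
  · exact (map_mul l ⟨_, conj_mem_of_norm (hi hg).1 hx⟩ ⟨x, hx⟩⁻¹).trans (by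
      rw [a0 g hg ⟨x, hx⟩, map_inv, mul_inv_cancel])
  · rw [hN, qt_inf_norm (sup_le h4 s.le |>.trans a2) (a1.trans le_sup_left),
      qt_sup (h4.trans a2) (s.le.trans a2)]

theorem stA' (ih : IH.{u} p (L.relIndex G)) (hG : IsPSolvable p G) (s : Syl p S G) (e : G = ⊤)
    (hν : IsIrrCharacter L ν) (hi : G ≤ aI ν) : MK p G L S ν := fun N h4 h5 hN => by
  subst e
  by_cases hd : p ∣ charDegree ν
  · have : ∀ {T : Subgroup Γ} (h : L ≤ T), IsEmpty (Ip p h ν) := fun h => ⟨fun χ => χ.2.1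
      ((hd.mul_left _).trans (deg_dvd h (le_top.trans (hi.trans aI_le)) hν χ.1.2 χ.2.2).1)⟩
    rw [Nat.card_of_isEmpty, Nat.card_of_isEmpty]
  haveI := normal_of_top_le_norm (hi.trans aI_le)
  obtain ⟨k, H, _, _, π, i, τ, lam, c⟩ := exists_ct' hν fun g => mem_aI_iff_cj.1 (hi trivial)
  obtain ⟨μ, a1, a2, a3⟩ := c.exists_mu
  have a4 : ⊤ ≤ aI fun x => (μ x : ℂ) := fun g _ =>
    ⟨by rw [Subgroup.normalizer_eq_top]; trivial, funext fun x => congrArg Units.val (a3 g x)⟩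
  rw [ct_cnt c μ a1 a2 a4 h4 hd, ct_cnt c μ a1 a2 a4 h5 hd]
  obtain ⟨R, a5⟩ := exists_syl p (S.comap π)
  have a6 : R.map π = S := by
    have := a5.map π
    rw [Subgroup.map_comap_eq_self_of_surjective c.surj] at this
    exact this.eq_of_pgroup s.pg
  have a7 : IsPSolvable p H := by
    haveI : Group.IsSolvable π.ker := isSolvable_of_comm fun x y => Subtype.ext (c.comm y x)
    exact CfsgH1.IsPSolvable.extension' (N := π.ker) (isPSolvable_of_isSolvable hp.out) (psolv_surj hG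
      (Subgroup.topEquiv.trans (QuotientGroup.quotientKerEquivOfSurjective π c.surj).symm).toMonoidHom
      (MulEquiv.surjective _))
  refine stB (G := (⊤ : Subgroup Γ).comap π) (S := R) (by
      rwa [Subgroup.relIndex_comap, Subgroup.map_comap_eq_self_of_surjective c.surj])
    (CfsgH1.IsPSolvable.subgroup' a7 _) (a5.trans (Subgroup.comap_mono le_top) (by
      rw [Subgroup.relIndex_comap, Subgroup.map_comap_eq_self_of_surjective c.surj]; exact s.nd))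
    μ (le_top.trans a4) _ _ _ ?_
  rw [hN, Subgroup.comap_inf, Subgroup.comap_normalizer_eq_of_surjective _ c.surj,
    ← Subgroup.comap_sup_eq _ _ _ c.surj, ← a6, Subgroup.comap_map_eq, sup_comm R, ← sup_assoc,
    sup_eq_left.2 CT.ker_le]

theorem stA (ih : IH.{u} p (L.relIndex G)) (hG : IsPSolvable p G) (s : Syl p S G)
    (hν : IsIrrCharacter L ν) (hi : G ≤ aI ν) : MK p G L S ν := fun N h4 h5 hN => by
  have a0 := (isIrr_subOf_iff h4).2 hν
  have a4 : ∀ {T : Subgroup Γ} (h : L ≤ T), T ≤ G → Nat.card (Ip p h ν) =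
      Nat.card (Ip p (Subgroup.comap_mono (f := G.subtype) h) (subOf G ν)) := fun h hT =>
    transfer' p h (Subgroup.comap_mono (f := G.subtype) h)
      (Subgroup.subgroupOfEquivOfLe hT).symm.toMonoidHom (MulEquiv.surjective _)
      (Subgroup.subgroupOfEquivOfLe h4).symm.toMonoidHom (MulEquiv.surjective _) (fun _ => rfl)
      (fun _ => rfl) a0 fun χ _ _ x hx => by rw [(MulEquiv.map_eq_one_iff _).1 hx]
  rw [a4 h4 le_rfl, a4 h5 (hN.le.trans inf_le_left)]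
  haveI := (Subgroup.normal_subgroupOf_iff_le_normalizer h4).2 (hi.trans aI_le)
  refine stA' (G := G.subgroupOf G) (L := L.subgroupOf G) (S := S.subgroupOf G)
    (by rwa [Subgroup.relIndex_subgroupOf le_rfl]) (CfsgH1.IsPSolvable.subgroup' hG _)
    (G.subgroupOf_self ▸ s.subgroupOf) G.subgroupOf_self a0
    (fun g _ => mem_aI_iff_cj.2 (cj_subOf_eq hi g)) _ _ _ ?_
  rw [hN, Subgroup.comap_inf, ← Subgroup.subgroupOf_sup h4 s.le,
    ← Subgroup.subgroupOf_normalizer_eq (sup_le h4 s.le)]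
  rfl

theorem ih_all (n : ℕ) : IH.{u} p n := by
  induction n using Nat.strong_induction_on with | _ n ih => ?_
  intro Γ _ _ G L S ν hn hG s h1 hν h2 N h4 h5 hN
  rcases (inf_le_left : G ⊓ aI ν ≤ G).eq_or_lt with c | c
  · exact stA (ih _ hn) hG s hν (c.ge.trans inf_le_right) N h4 h5 hN
  have a1 : L ≤ G ⊓ aI ν := St.QT h4 hν
  have a2 : L ≤ N ⊓ aI ν := St.QT h5 hν
  have a3 : N ≤ G := hN.le.trans inf_le_left
  have a4 : S ≤ N := hN ▸ le_inf s.le (le_norm_of_le le_sup_right)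
  exact (cnt_clif a1 inf_le_left h1 hν rfl (s.not_dvd_of_le (le_inf s.le h2))).trans
    ((ih _ hn Γ _ L S ν (idx_lt a1 c) (psolv_le hG c.le) (s.mono (le_inf s.le h2) c.le)
      (c.le.trans h1) hν h2 _ a1 a2 (by rw [hN, inf_right_comm])).trans
      (cnt_clif a2 inf_le_left (a3.trans h1) hν rfl
        ((s.mono a4 a3).not_dvd_of_le (le_inf a4 h2))).symm)

theorem mckay (hG : IsPSolvable p G) (s : Syl p S G) (h1 : G ≤ N[L]) (hν : IsIrrCharacter L ν)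
    (h2 : S ≤ aI ν) : MK p G L S ν := ih_all _ Γ G L S ν (Nat.lt_succ_self _) hG s h1 hν h2

end CfsgMk
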