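import Cfsg.Agent.H2.FT
import Cfsg.Agent.H2.BG0
import Cfsg.Agent.H1.Frob

/-! Normal subgroups whose non-central elements have maximal centralizers. -/

set_option autoImplicit false

namespace CfsgMxC

open Subgroup Cfsg CfsgH2

variable {G : Type*} [Group G]

theorem gen {N C K : Subgroup G} (h : ¬ N ≤ C) (hK : ∀ y ∈ N, y ∉ C → y ∈ K) : N ≤ K := fun n hn => by
  obtain ⟨y, y1, y2⟩ := SetLike.not_le_iff_exists.1 h
  by_cases e : n ∈ C
  · simpa using mul_mem (hK (n * y) (mul_mem hn y1) fun a => y2 ((mul_mem_cancel_left e).1 a)) (inv_mem (hK y y1 y2))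
  · exact hK n hn e

structure St (N V H : Subgroup G) (p : ℕ) : Prop where
  pr : p.Prime
  nm : V.Normal
  lt : N ⊓ C[N] < V
  ab : Ab[V]
  ex : ∀ v ∈ V, v ^ p ∈ C[N]
  inf : H ⊓ V = N ⊓ C[N]
  sup : V ⊔ H = N
  idx : (V.relIndex N).Prime
  fpf : ∀ y ∈ N, y ∉ V → ∀ v ∈ V, v * y * v⁻¹ * y⁻¹ ∈ C[N] → v ∈ C[N]
  mn : ∀ W : Subgroup G, W.Normal → N ⊓ C[N] ≤ W → W ≤ V → W = N ⊓ C[N] ∨ W = V

variable [Finite G] {N : Subgroup G} [N.Normal]

theorem exists_V (h : ∀ x ∈ N, x ∉ C[N] → IsCoatom C1[x]) (h0 : ¬ N ≤ C[N]) : ∃ (p : ℕ) (V : Subgroup G), p.Prime ∧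
    V.Normal ∧ N ⊓ C[N] < V ∧ V ≤ N ∧ Ab[V] ∧ (∀ v ∈ V, v ^ p ∈ C[N]) ∧
    ∀ W : Subgroup G, W.Normal → N ⊓ C[N] ≤ W → W ≤ V → W = N ⊓ C[N] ∨ W = V := by
  set Z := N ⊓ C[N] with hZ
  set π := QuotientGroup.mk' Z
  have sj := QuotientGroup.mk'_surjective Z
  have kr : π.ker = Z := QuotientGroup.ker_mk' Z
  have dich : ∀ x ∈ N, x ∉ C[N] → (zpowers (π x)).Normal ∨ ∀ g, π g ∈ N[zpowers (π x)] → g ∈ C1[x] := by
    intro x hx hx'
    have l : C1[x] ≤ N[zpowers (π x)].comap π := fun g hg => cent_le_norm _ (by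
      rw [cent_zpowers, mem_centralizer_singleton_iff, ← map_mul, ← map_mul, mem_centralizer_singleton_iff.1 hg])
    refine ((h x hx hx').le_iff.1 l).imp (fun e => normal_of_top_le_norm fun g _ => ?_) fun e g hg => e.le hg
    obtain ⟨g, rfl⟩ := sj g
    exact e.ge (mem_top g)
  obtain ⟨W, w1, w2, w3, w4⟩ : ∃ W : Subgroup (G ⧸ Z), W ≤ N.map π ∧ W ≠ ⊥ ∧ W.Normal ∧ Sol[W] := by
    by_cases a : ∃ x ∈ N, x ∉ C[N] ∧ (zpowers (π x)).Normal
    · obtain ⟨x, a, b, c⟩ := a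
      exact ⟨_, zpowers_le.2 (mem_map_of_mem _ a), fun e => b ((QuotientGroup.eq_one_iff x).1 (zpowers_eq_bot.1 e)).2, c,
        inferInstance⟩
    by_cases b : 2 ∣ o[N.map π]
    swap
    · exact ⟨_, le_rfl, fun e => h0 (((Subgroup.map_eq_bot_iff N).1 e).trans (kr.le.trans inf_le_right)),
        Normal.map ‹_› _ sj, ft_of_not_dvd b⟩
    have cm : ∀ s ∈ N.map π, ∀ t ∈ N.map π, s * s = 1 → t * t = 1 → s * t = t * s := by
      rintro _ ⟨s, hs, rfl⟩ _ ⟨t, ht, rfl⟩ e1 e2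
      by_cases c : s * t ∈ C[N]
      · rw [← map_mul, ← map_mul, ← mul_left_cancel_iff (a := π s), ← map_mul, ← map_mul, c s hs, mul_assoc]
      have := (dich _ (mul_mem hs ht) c).resolve_left (fun e => a ⟨_, mul_mem hs ht, c, e⟩) s
        (mem_norm_of_map_le (by
          rw [MonoidHom.map_zpowers, zpowers_le, ← inv_mem_iff]
          convert mem_zpowers _ using 1
          show (π s * π (s * t) * (π s)⁻¹)⁻¹ = _
          rw [map_mul, ← mul_assoc, e1, one_mul, mul_inv_rev, inv_inv, inv_eq_of_mul_eq_one_right e2]))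
      rw [mem_centralizer_singleton_iff, mul_assoc, mul_left_cancel_iff] at this
      rw [← map_mul, ← map_mul, this]
    let W : Subgroup (G ⧸ Z) :=
      { carrier := {s | s ∈ N.map π ∧ s * s = 1}
        one_mem' := ⟨one_mem _, one_mul _⟩
        mul_mem' := fun {s t} hs ht => ⟨mul_mem hs.1 ht.1, by
          rw [mul_assoc, ← mul_assoc t, ← cm s hs.1 t ht.1 hs.2 ht.2, mul_assoc, ht.2, mul_one, hs.2]⟩
        inv_mem' := fun {s} hs => ⟨inv_mem hs.1, by rw [← mul_inv_rev, hs.2, inv_one]⟩ }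
    obtain ⟨t, t1, t2⟩ := exists_prime_order_mem Nat.prime_two b
    haveI : Ab[W] := isMulComm_iff.2 fun s hs t ht => cm s hs.1 t ht.1 hs.2 ht.2
    refine ⟨W, fun _ h => h.1, fun e => ?_, ⟨fun s hs g => ⟨(Normal.map ‹_› _ sj).conj_mem s hs.1 g, by
      rw [conj_mul, hs.2]; simp⟩⟩, isSolvable_of_comm fun a b => mul_comm' a b⟩
    have : t ∈ W := ⟨t1, by rw [← sq, ← t2, pow_orderOf_eq_one]⟩
    rw [e, mem_bot] at this
    rw [this, orderOf_one] at t2; omega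
  obtain ⟨p, hp, U, u1, u2, u3, u4, u5⟩ := exists_min_norm (M := ⊤) w4 w2 (top_le_norm_iff.2 w3)
  have mn : ∀ W : Subgroup G, W.Normal → Z ≤ W → W ≤ U.comap π → W = Z ∨ W = U.comap π := fun W a b c => by
    have e : (W.map π).comap π = W := by rw [comap_map_eq, kr, sup_eq_left.2 b]
    refine (u5 (W.map π) (map_le_iff_le_comap.2 c) (top_le_norm_iff.2 (a.map _ sj))).imp (fun x => ?_) fun x => ?_
    · rw [← e, x, MonoidHom.comap_bot, kr]
    · rw [← e, x]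
  have ZV : Z ≤ U.comap π := kr.ge.trans (ker_le_comap _ _)
  have VN : U.comap π ≤ N := (comap_mono (u1.trans w1)).trans (by rw [comap_map_eq, kr]; exact sup_le le_rfl inf_le_left)
  refine ⟨p, U.comap π, hp.out, (top_le_norm_iff.1 u3).comap _, lt_of_le_of_ne ZV fun e => u2 ?_, VN,
    isMulComm_iff.2 fun x hx y hy => ?_, fun v hv => ((QuotientGroup.eq_one_iff _).1 (u4.2 _ hv)).2, mn⟩
  · rw [← map_comap_eq_self_of_surjective sj U, ← e, Subgroup.map_eq_bot_iff, kr]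
  by_cases c : x ∈ C[N]
  · exact (c y (VN hy)).symm
  refine (mem_centralizer_singleton_iff.1 ?_).symm
  rcases dich x (VN hx) c with a | a
  · rcases mn _ (a.comap π) (kr.ge.trans (ker_le_comap _ _)) (comap_mono (zpowers_le.2 hx)) with e | e
    · exact absurd (e.le (mem_zpowers _)).2 c
    obtain ⟨k, hk⟩ := e.ge hy
    obtain ⟨z, hz, e⟩ := (QuotientGroup.mk'_eq_mk' Z).1 ((map_zpow π x k).trans hk)
    exact e ▸ mul_mem (zpow_mem (self_mem_cent1 x) k) (cent_le_cent1 (VN hx) hz.2)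
  · exact a y (le_norm_of_le_cent (le_cent_of_comm u4.1 (zpowers_le.2 hx)) hy)

theorem struct (h : ∀ x ∈ N, x ∉ C[N] → IsCoatom C1[x]) :
    (∃ p : ℕ, p.Prime ∧ (∀ x ∈ N, x ^ p ∈ C[N]) ∧ ∀ x ∈ N, ∀ y ∈ N, x * y * x⁻¹ * y⁻¹ ∈ C[N]) ∨
      ∃ V H p, St N V H p := by
  have nN := ‹N.Normal›
  have cN : ∀ x, ∀ y ∈ N, x * y * x⁻¹ * y⁻¹ ∈ N := fun x y hy => mul_mem (nN.conj_mem y hy x) (inv_mem hy)
  by_cases h0 : N ≤ C[N]
  · exact .inl ⟨2, Nat.prime_two, fun x hx => h0 (pow_mem hx 2), fun x _ y hy => h0 (cN x y hy)⟩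
  obtain ⟨p, V, hp, nV, ZV, VN, ab, ex, mn⟩ := exists_V h h0
  set Z := N ⊓ C[N] with hZ
  set π := QuotientGroup.mk' Z
  have p1 : ∀ x, π x = 1 ↔ x ∈ Z := QuotientGroup.eq_one_iff
  have cm : ∀ x, ∀ y ∈ N, π x * π y = π y * π x ↔ x * y * x⁻¹ * y⁻¹ ∈ C[N] := fun x y hy => by
    refine Iff.trans ?_ ((p1 _).trans (and_iff_right (cN x y hy)))
    simp [mul_inv_eq_one, mul_inv_eq_iff_eq_mul]
  have NV : ¬ N ≤ C[V] := fun e => ZV.not_ge (le_inf VN (le_centralizer_iff.1 e))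
  have tp : ∀ y ∈ N, y ∉ C[V] → V ⊔ C1[y] = ⊤ := fun y a b =>
    ((h y a fun e => b (cent_anti VN e)).le_iff.1 le_sup_right).resolve_right fun e =>
      b (le_cent1_iff.1 (le_sup_left.trans e.le))
  have dec : ∀ y ∈ N, y ∉ C[V] → ∀ g, ∃ v ∈ V, ∃ c ∈ C1[y], v * c = g ∧ g * y * g⁻¹ * y⁻¹ = v * y * v⁻¹ * y⁻¹ := by
    intro y a b g
    obtain ⟨v, hv, c, hc, rfl⟩ := (mem_sup_of_norm' le_normalizer_of_normal).1 (tp y a b ▸ mem_top g)
    exact ⟨v, hv, c, hc, rfl, by rw [mul_assoc v, mem_centralizer_singleton_iff.1 hc]; group⟩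
  have cV : ∀ y, ∀ v ∈ V, v * y * v⁻¹ * y⁻¹ ∈ V := fun y v hv => by
    simpa [mul_assoc] using mul_mem hv (nV.conj_mem _ (inv_mem hv) y)
  have F2 : ∀ n ∈ N, ∀ g, g * n * g⁻¹ * n⁻¹ ∈ V := fun n hn g => by
    have := gen (K := (center _).comap (QuotientGroup.mk' V)) NV (fun y a b => mem_center_iff.2 fun g => by
      obtain ⟨g, rfl⟩ := QuotientGroup.mk'_surjective V g
      obtain ⟨v, hv, c, -, -, e⟩ := dec y a b g
      have := (QuotientGroup.eq_one_iff _).2 (e ▸ cV y v hv)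
      simpa [mul_inv_eq_one, mul_inv_eq_iff_eq_mul] using this) hn
    have := mem_center_iff.1 this (QuotientGroup.mk' V g)
    rw [← QuotientGroup.eq_one_iff]
    simpa [mul_inv_eq_one, mul_inv_eq_iff_eq_mul] using this
  obtain ⟨v0, v1, v2⟩ := SetLike.exists_of_lt ZV
  have v3 : v0 ∉ C[N] := fun e => v2 ⟨VN v1, e⟩
  set D := C[V.map π].comap π
  have mD : ∀ y ∈ N, y ∈ D ↔ ∀ v ∈ V, v * y * v⁻¹ * y⁻¹ ∈ C[N] := fun y hy =>
    ⟨fun e v hv => (cm v y hy).1 (e _ (mem_map_of_mem _ hv)), by rintro e _ ⟨v, hv, rfl⟩; exact (cm v y hy).2 (e v hv)⟩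
  by_cases hD : N ≤ D
  · have c2 : ∀ x ∈ N, ∀ y ∈ N, x * y * x⁻¹ * y⁻¹ ∈ C[N] := fun x hx y hy => (cm x y hy).1
      (gen (K := C[N.map π].comap π) NV (fun y a b => by
        rintro _ ⟨g, -, rfl⟩
        obtain ⟨v, hv, c, -, -, e⟩ := dec y a b g
        exact (cm g y a).2 (e ▸ (mD y a).1 (hD a) v hv)) hy _ (mem_map_of_mem _ hx))
    have pw : ∀ x ∈ N, ∀ y ∈ N, y ∉ C1[x] → y ^ p ∈ C[N] → x ^ p ∈ C[N] := by
      intro x hx y hy n e
      have hc := c2 x hx y hy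
      set c := x * y * x⁻¹ * y⁻¹
      have a : x * y * x⁻¹ = c * y := by simp [c]
      have c1 : c ^ p = 1 := by
        have := congrArg (· ^ p) a
        simp only [conj_pow, (show Commute c y from (hc y hy).symm).mul_pow, e x hx] at this
        simpa using this.symm
      have b : ∀ k : ℕ, x ^ k * y = c ^ k * y * x ^ k := fun k => by
        induction k with
        | zero => simp
        | succ k ih =>
          rw [pow_succ', mul_assoc, ih, ← mul_assoc, ← mul_assoc, pow_mem hc k x hx, mul_assoc (c ^ k),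
            mul_inv_eq_iff_eq_mul.1 a, pow_succ c]
          simp only [mul_assoc]
      by_contra hn
      have l : C1[x] ≤ C1[x ^ p] := le_cent1_iff.2 (pow_mem (le_cent1_iff.1 le_rfl) p)
      have m := h x hx fun e => hn (pow_mem e p)
      exact n ((m.le_iff.1 l).resolve_left (h _ (pow_mem hx p) hn).1 ▸
        mem_centralizer_singleton_iff.2 (by rw [b, c1, one_mul]))
    refine .inl ⟨p, hp, fun x hx => ?_, c2⟩
    by_cases a : v0 ∈ C1[x]
    swap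
    · exact pw x hx v0 (VN v1) a (ex _ v1)
    obtain ⟨y, y1, y2⟩ := SetLike.not_le_iff_exists.1 (mt le_cent1_iff.1 v3)
    have yp := pw y y1 v0 (VN v1) (fun e => y2 (mem_centralizer_singleton_iff.2
      (mem_centralizer_singleton_iff.1 e).symm)) (ex _ v1)
    by_cases b : y ∈ C1[x]
    swap
    · exact pw x hx y y1 b yp
    have := pw _ (mul_mem hx (VN v1)) y y1 (fun e => y2 (by
      rw [mem_centralizer_singleton_iff] at e b ⊢
      rwa [← mul_assoc, b, mul_assoc, mul_assoc, mul_left_cancel_iff] at e)) yp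
    rwa [(show Commute x v0 from (mem_centralizer_singleton_iff.1 a).symm).mul_pow, mul_mem_cancel_right (ex _ v1)] at this
  right
  have CD : C[V] ≤ D := fun y hy => by rintro _ ⟨v, hv, rfl⟩; rw [← map_mul, ← map_mul, hy v hv]
  have nrm : ∀ y ∈ N, y ∉ C[V] → ∀ T : Subgroup G, C1[y] ≤ N[T] → Z ≤ T → T ≤ V → T = Z ∨ T = V := fun y a b T c d e =>
    mn T (normal_of_top_le_norm (tp y a b ▸ sup_le (le_norm_of_le_cent (le_cent_of_comm ab e)) c)) d e
  have T : ∀ y ∈ N, y ∉ D → ∀ v ∈ V, v * y * v⁻¹ * y⁻¹ ∈ C[N] → v ∈ C[N] := by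
    intro y a b v hv e
    rcases nrm y a (mt (@CD y) b) (V ⊓ C1[π y].comap π) (le_norm_inf le_normalizer_of_normal fun g hg =>
      le_normalizer_comap _ (le_normalizer (mem_centralizer_singleton_iff.2 (by
        rw [← map_mul, ← map_mul, mem_centralizer_singleton_iff.1 hg])))) (le_inf ZV.le fun z hz =>
          mem_centralizer_singleton_iff.2 (by rw [(p1 z).2 hz]; simp)) inf_le_left with x | x
    · exact (x.le ⟨hv, mem_centralizer_singleton_iff.2 ((cm v y a).2 e)⟩).2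
    · exact absurd ((mD y a).2 fun v hv => (cm v y a).1 (mem_centralizer_singleton_iff.1 (x.ge hv).2)) b
  obtain ⟨y, y1, y2⟩ := SetLike.not_le_iff_exists.1 hD
  set H := N ⊓ C1[y]
  have i1 : H ⊓ V = Z := le_antisymm (fun v hv => ⟨hv.1.1, T y y1 y2 v hv.2 (by
    rw [mem_centralizer_singleton_iff.1 hv.1.2]; simp [one_mem])⟩) (le_inf (inf_le_inf_left _ (cent_le_cent1 y1)) ZV.le)
  have s1 : V ⊔ H = N := by
    show V ⊔ N ⊓ C1[y] = N
    rw [inf_comm, ← sup_inf_of_norm (.inr le_normalizer_of_normal) VN, tp y y1 (mt (@CD y) y2), top_inf_eq]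
  have Hab : H ≤ C[H] := gen (C := D) (fun e => y2 (e ⟨y1, self_mem_cent1 y⟩)) fun k k1 k2 g hg => by
    obtain ⟨v, hv, c, hc, rfl, e⟩ := dec k k1.1 (mt (@CD k) k2) g
    have := T k k1.1 k2 v hv (e ▸ (i1.le ⟨H.mul_mem (H.mul_mem (H.mul_mem hg k1) (H.inv_mem hg)) (H.inv_mem k1), F2 k k1.1 _⟩).2)
    rw [mul_assoc, mem_centralizer_singleton_iff.1 hc, ← mul_assoc, ← this k k1.1, mul_assoc]
  have DV : ∀ d ∈ N, d ∈ D → d ∈ V := by
    intro d d1 d2
    obtain ⟨v, hv, c, hc, rfl⟩ := (mem_sup_of_norm' le_normalizer_of_normal).1 (s1.ge d1)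
    have cD := (mul_mem_cancel_left (CD (le_cent_of_comm ab le_rfl hv))).1 d2
    refine mul_mem hv (ZV.le ⟨hc.1, ?_⟩)
    rw [← s1, cent_sup]
    refine ⟨by_contra fun n => ?_, Hab hc⟩
    rcases nrm c hc.1 n (V ⊓ C1[c]) (le_norm_inf le_normalizer_of_normal le_normalizer)
      (le_inf ZV.le (inf_le_right.trans (cent_le_cent1 hc.1))) inf_le_left with x | x
    · refine v3 (T y y1 y2 v0 v1 (x.le ⟨cV y v0 v1, mem_centralizer_singleton_iff.2 ?_⟩).2)
      have a := (mD c hc.1).1 cD v0⁻¹ (inv_mem v1)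
      have b := mem_centralizer_singleton_iff.1 hc.2
      set z := v0⁻¹ * c * v0⁻¹⁻¹ * c⁻¹
      have e1 : v0⁻¹ * c = z * c * v0⁻¹ := by simp [z]
      have e2 : v0 * z * c = c * v0 := by simp [z, ← mul_assoc]
      calc v0 * y * v0⁻¹ * y⁻¹ * c = v0 * y * (v0⁻¹ * c) * y⁻¹ := by
            rw [mul_assoc _ y⁻¹, show y⁻¹ * c = c * y⁻¹ by rw [inv_mul_eq_iff_eq_mul, ← mul_assoc, ← b]; simp]; group
        _ = v0 * z * c * y * v0⁻¹ * y⁻¹ := by
            rw [e1, mul_assoc _ c y, b, ← mul_assoc, ← mul_assoc, mul_assoc v0 y z, a y y1]; group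
        _ = _ := by rw [e2]; group
    · exact n (le_cent1_iff.1 (inf_eq_left.1 x))
  have fpf : ∀ y ∈ N, y ∉ V → ∀ v ∈ V, v * y * v⁻¹ * y⁻¹ ∈ C[N] → v ∈ C[N] := fun w a b => T w a (mt (DV w a) b)
  refine ⟨V, H, p, hp, nV, ZV, ab, ex, i1, s1, ?_, fpf, mn⟩
  have MN : C1[v0] ⊓ N ≤ V := fun m hm => by_contra fun n => v3 (fpf m hm.2 n v0 v1 (by
    rw [← mem_centralizer_singleton_iff.1 hm.1]; simp [one_mem]))
  have r1 : V.relIndex N ≠ 1 := fun e => y2 (CD (le_cent_of_comm ab le_rfl (relIndex_eq_one.1 e y1)))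
  obtain ⟨q, hq, qd⟩ := Nat.exists_prime_and_dvd r1
  have e := relIndex_ker N (QuotientGroup.mk' V)
  rw [QuotientGroup.ker_mk'] at e
  obtain ⟨_, ⟨x, x1, rfl⟩, x2⟩ := exists_prime_order_mem hq (e ▸ qd)
  have xV : x ∉ V := fun a => hq.one_lt.ne (by rw [← x2, eq_comm, orderOf_eq_one_iff]; exact (QuotientGroup.eq_one_iff x).2 a)
  have KN : V ⊔ zpowers x ≤ N := sup_le VN (zpowers_le.2 x1)
  haveI : (V ⊔ zpowers x).Normal := ⟨fun k hk g => by
    simpa using mul_mem (mem_sup_left (F2 k (KN hk) g)) hk⟩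
  have := ((h v0 (VN v1) v3).le_iff.1 (le_sup_left (b := V ⊔ zpowers x))).resolve_right fun a =>
    xV (MN ⟨a.le (mem_sup_right (mem_sup_right (mem_zpowers x))), x1⟩)
  have e2 := sup_inf_of_norm' (H := C1[v0]) (.inl le_normalizer_of_normal) KN
  rw [this, top_inf_eq, sup_eq_right.2 (MN.trans le_sup_left)] at e2
  rwa [e, e2, Subgroup.map_sup, QuotientGroup.map_mk'_self, bot_sup_eq, MonoidHom.map_zpowers, Nat.card_zpowers, x2]

omit [N.Normal] in
theorem transfer {X Y : Type*} [Group X] [Group Y] [Finite Y] {V H : Subgroup G} {p : ℕ} (s : St N V H p) (ι : X →* G)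
    (hr : ι.range = N) (f : X →* Y) (hf : Function.Surjective f) (hk : ∀ x, f x = 1 ↔ ι x ∈ C[N]) :
    CfsgH1.Frob ((V.comap ι).map f) ((H.comap ι).map f) ⊤ ∧ ((V.comap ι).map f).Normal ∧
      o[(H.comap ι).map f].Prime ∧ IsElementaryAbelian p ((V.comap ι).map f) := by
  haveI := s.nm
  have n1 : ((V.comap ι).map f).Normal := (s.nm.comap ι).map f hf
  have iN : ∀ x, ι x ∈ N := fun x => hr ▸ ⟨x, rfl⟩
  have VN : V ≤ N := le_sup_left.trans s.sup.le
  have kV : f.ker ≤ V.comap ι := fun x hx => s.lt.le ⟨iN x, (hk x).1 hx⟩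
  have ix : ((V.comap ι).map f).index = V.relIndex N := by
    rw [index_map_eq _ hf kV, index_comap, hr]
  have fr : CfsgH1.Frob ((V.comap ι).map f) ((H.comap ι).map f) ⊤ := by
    have sp : (V.comap ι).map f ⊔ (H.comap ι).map f = ⊤ := by
      rw [← Subgroup.map_sup, comap_sup_eq_of_le_range ι (hr ▸ VN) (hr ▸ le_sup_right.trans s.sup.le), s.sup, ← hr,
        show ι.range.comap ι = ⊤ from eq_top_iff.2 fun x _ => ⟨x, rfl⟩, map_top_of_surjective _ hf]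
    refine ⟨le_normalizer_of_normal, sp, fun e => s.lt.not_ge fun v hv => ?_, fun e => s.idx.one_lt.ne' ?_, ?_⟩
    · obtain ⟨x, rfl⟩ := hr.ge (VN hv)
      exact ⟨iN x, (hk x).1 ((Subgroup.map_eq_bot_iff _).1 e hv)⟩
    · rw [← ix, index_eq_one, ← sp, e, sup_bot_eq]
    · rintro _ ⟨y, hy, rfl⟩ y1
      refine eq_bot_iff.2 ?_
      rintro _ ⟨⟨v, hv, rfl⟩, e⟩
      refine (hk v).2 (s.fpf _ (iN y) (fun a => y1 ((hk y).2 (s.inf.le ⟨hy, a⟩).2)) _ hv ?_)
      have := (hk (v * y * v⁻¹ * y⁻¹)).1 (by simp [mem_centralizer_singleton_iff.1 e])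
      simpa using this
  refine ⟨fr, n1, ?_, isMulComm_iff.2 ?_, ?_⟩
  · have := fr.card
    rw [card_top, ← ((V.comap ι).map f).card_mul_index, ix] at this
    exact Nat.eq_of_mul_eq_mul_left (card_pos' _) this ▸ s.idx
  · rintro _ ⟨a, ha, rfl⟩ _ ⟨b, hb, rfl⟩
    have := (hk (a * b * a⁻¹ * b⁻¹)).2 (by simp [comm_of_isMulComm s.ab ha hb, one_mem])
    simpa [mul_inv_eq_one, mul_inv_eq_iff_eq_mul] using this
  · rintro _ ⟨a, ha, rfl⟩
    rw [← map_pow, hk, map_pow]; exact s.ex _ ha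

end CfsgMxC
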