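import Cfsg.Agent.H3.More
import Cfsg.Agent.H3.Galois
import Cfsg.Prelude.Def_Perm

/-!
Permutation characters: the centraliser ring, multiplicity-free representations, subdegrees.
-/

set_option autoImplicit false

open Cfsg CfsgH3 Module MulAction
open scoped ComplexConjugate

namespace CfsgPc

section gen
variable {G : Type*} [Group G] [Fintype G] {V : Type*} [AddCommGroup V] [Module ℂ V]
  [FiniteDimensional ℂ V]

noncomputable def E (ρ : Representation ℂ G V) (f : G → ℂ) : V →ₗ[ℂ] V := ∑ g, f g • ρ g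

theorem trace_E (ρ : Representation ℂ G V) (f : G → ℂ) (h : G) :
    LinearMap.trace ℂ V (ρ h ∘ₗ E ρ f) = ∑ g, f g * ρ.character (g * h) := by
  simp only [E, ← Module.End.mul_eq_comp, Finset.mul_sum, map_sum, mul_smul_comm, map_smul, ← map_mul,
    smul_eq_mul]
  exact Finset.sum_congr rfl fun g _ => by rw [ρ.char_mul_comm]; rfl

theorem sum_conj_mul {χ ψ : G → ℂ} (hχ : IsIrrCharacter G χ) (hψ : IsClassFunction G ψ) (h : G) :
    ∑ g, conj (χ g) * ψ (g * h) = Nat.card G * classInner ψ χ / χ 1 * χ h := by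
  classical
  have e : ∀ φ : IrrCharacter G, ∑ g, conj (χ g) * (classInner ψ φ * φ.1 (g * h)) =
      if φ = ⟨χ, hχ⟩ then Nat.card G * classInner ψ χ / χ 1 * χ h else 0 := fun φ => by
    have a := φ.2.sum_mul_apply_mul hχ.isClassFunction.conj h
    have b : ∑ g, conj (χ g) * φ.1 g = Nat.card G * classInner φ.1 χ := by
      rw [classInner, mul_inv_cancel_left₀ (natCard_ne_zero G)]
      exact Finset.sum_congr rfl fun g _ => mul_comm _ _
    simp only [mul_left_comm _ (classInner ψ φ), ← Finset.mul_sum]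
    rw [a, b]
    split_ifs with c
    · subst c; rw [hχ.classInner_self]; ring
    · rw [φ.2.classInner_of_ne hχ fun d => c (Subtype.ext d)]; simp
  simp only [hψ.apply_eq_sum_irr (_ * h), Finset.mul_sum]
  rw [Finset.sum_comm, Finset.sum_congr rfl fun φ _ => e φ]
  simp

omit [FiniteDimensional ℂ V] in
theorem E_comm (ρ : Representation ℂ G V) (f : G → ℂ) {S : V →ₗ[ℂ] V}
    (hS : S ∈ (ρ.linHom ρ).invariants) : S ∘ₗ E ρ f = E ρ f ∘ₗ S := by
  have := (Representation.mem_linHom_invariants_iff_isIntertwining S).1 hS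
  ext v
  simp [E, this.isIntertwining]

omit [FiniteDimensional ℂ V] in
theorem E_mem (ρ : Representation ℂ G V) {f : G → ℂ} (hf : IsClassFunction G f) :
    E ρ f ∈ (ρ.linHom ρ).invariants := fun h => by
  simp only [Representation.linHom_apply, E, ← Module.End.mul_eq_comp, Finset.mul_sum, Finset.sum_mul,
    mul_smul_comm, smul_mul_assoc, ← map_mul]
  exact Fintype.sum_equiv (MulAut.conj h).toEquiv _ _ fun g => by
    simp [hf g h, -map_mul, ← mul_assoc]

theorem mf_span (ρ : Representation ℂ G V)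
    (hm : ∀ χ, IsIrrCharacter G χ → classInner ρ.character χ = 0 ∨ classInner ρ.character χ = 1)
    {S : V →ₗ[ℂ] V} (hS : S ∈ (ρ.linHom ρ).invariants) :
    S ∈ Submodule.span ℂ {T | ∃ χ, IsIrrCharacter G χ ∧ classInner ρ.character χ = 1 ∧
      T = E ρ fun g => conj (χ g)} := by
  classical
  let I := {χ : IrrCharacter G // classInner ρ.character χ = 1}
  let v : I → (ρ.linHom ρ).invariants := fun χ => ⟨_, E_mem ρ χ.1.2.isClassFunction.conj⟩
  have hc := (isCharacter_of_rep ρ).isClassFunction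
  have li : LinearIndependent ℂ v := by
    rw [Fintype.linearIndependent_iff]
    intro c h0 i
    have l2 := (linearIndependent_irr (G := G)).comp (Subtype.val : I → _) Subtype.val_injective
    have := Fintype.linearIndependent_iff.1 l2 (fun χ => c χ * (Nat.card G / χ.1.1 1)) (by
      ext h
      have := congrArg (fun T : (ρ.linHom ρ).invariants => LinearMap.trace ℂ V (ρ h ∘ₗ T.1)) h0
      simp only [Submodule.coe_sum, Submodule.coe_smul, ← Module.End.mul_eq_comp, Finset.mul_sum,
        mul_smul_comm, map_sum, map_smul, Submodule.coe_zero, mul_zero, map_zero] at this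
      rw [Finset.sum_apply, Pi.zero_apply, ← this]
      refine Finset.sum_congr rfl fun χ _ => ?_
      rw [Module.End.mul_eq_comp, trace_E, sum_conj_mul χ.1.2 hc, χ.2]
      simp [mul_assoc]) i
    simpa [i.1.2.apply_one_ne_zero, Nat.card_pos.ne'] using this
  have cd : Fintype.card I = finrank ℂ (ρ.linHom ρ).invariants := by
    rw [(Representation.invariantsEquivIntertwiningMap ρ ρ).finrank_eq]
    apply Nat.cast_injective (R := ℂ)
    rw [← classInner_character, hc.classInner_eq_sum_irr, Fintype.card_subtype, Finset.card_filter]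
    push_cast
    refine Finset.sum_congr rfl fun χ _ => ?_
    rw [χ.2.isCharacter.classInner_comm (isCharacter_of_rep ρ)]
    rcases hm χ χ.2 with a | a <;> simp [a]
  have := li.span_eq_top_of_card_eq_finrank' cd
  obtain ⟨c, hc⟩ := (Submodule.mem_span_range_iff_exists_fun ℂ).1
    (this ▸ Submodule.mem_top : (⟨S, hS⟩ : (ρ.linHom ρ).invariants) ∈ _)
  have := congrArg Subtype.val hc
  simp only [Submodule.coe_sum, Submodule.coe_smul] at this
  rw [← this]
  exact Submodule.sum_mem _ fun χ _ => Submodule.smul_mem _ _ (Submodule.subset_span ⟨χ.1.1, χ.1.2, χ.2, rfl⟩)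

theorem mf_iff (ρ : Representation ℂ G V) :
    (∀ χ, IsIrrCharacter G χ → classInner ρ.character χ = 0 ∨ classInner ρ.character χ = 1) ↔
    ∀ S T : V →ₗ[ℂ] V, S ∈ (ρ.linHom ρ).invariants → T ∈ (ρ.linHom ρ).invariants → S ∘ₗ T = T ∘ₗ S := by
  refine ⟨fun hm S T hS hT => ?_, fun h χ hχ => ?_⟩
  · refine Submodule.span_induction (p := fun T _ => S ∘ₗ T = T ∘ₗ S) ?_ (by simp) ?_ ?_ (mf_span ρ hm hT)
    · rintro _ ⟨χ, -, -, rfl⟩; exact E_comm ρ _ hS
    · intro a b _ _ h1 h2; rw [LinearMap.comp_add, LinearMap.add_comp, h1, h2]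
    · intro a b _ h1; rw [LinearMap.comp_smul, LinearMap.smul_comp, h1]
  obtain ⟨n, σ, hσ, rfl⟩ := hχ
  rw [classInner_character]
  haveI : Module.Finite ℂ (σ.IntertwiningMap ρ) :=
    Module.Finite.equiv (Representation.invariantsEquivIntertwiningMap σ ρ)
  suffices finrank ℂ (σ.IntertwiningMap ρ) ≤ 1 by
    rcases Nat.le_one_iff_eq_zero_or_eq_one.1 this with a | a <;> simp [a]
  by_cases h0 : ∀ i : σ.IntertwiningMap ρ, i = 0
  · exact finrank_le_one 0 fun w => ⟨0, by rw [h0 w, smul_zero]⟩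
  push Not at h0
  obtain ⟨i, hi⟩ := h0
  refine finrank_le_one i fun j => ?_
  have inj : LinearMap.ker i.toLinearMap = ⊥ := by
    refine (((isIrreducible_iff σ).1 hσ).2 _ fun g v hv => ?_).resolve_right fun e => hi ?_
    · rw [LinearMap.mem_ker] at hv ⊢
      rw [i.toLinearMap_apply] at hv ⊢
      rw [i.isIntertwining, hv, map_zero]
    · exact Representation.IntertwiningMap.ext (LinearMap.ker_eq_top.1 e)
  obtain ⟨φ, hφ⟩ := LinearMap.exists_leftInverse_of_injective _ inj
  have hφ' : ∀ v, φ (i v) = v := fun v => LinearMap.congr_fun hφ v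
  let p : V →ₗ[ℂ] (Fin n → ℂ) := (Nat.card G : ℂ)⁻¹ • ∑ g, σ g ∘ₗ φ ∘ₗ ρ g⁻¹
  have p1 : ∀ v, p (i v) = v := fun v => by
    simp only [p, LinearMap.smul_apply, LinearMap.sum_apply, LinearMap.comp_apply, ← i.isIntertwining, hφ',
      Representation.self_inv_apply, Finset.sum_const, Finset.card_univ, ← Nat.card_eq_fintype_card]
    rw [← Nat.cast_smul_eq_nsmul ℂ, inv_smul_smul₀ (natCard_ne_zero G)]
  have p2 : ∀ g v, p (ρ g v) = σ g (p v) := fun g v => by
    simp only [p, LinearMap.smul_apply, LinearMap.sum_apply, LinearMap.comp_apply, map_smul, map_sum]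
    congr 1
    exact (Fintype.sum_equiv (Equiv.mulLeft g) _ _ fun x => by
      simp [← Module.End.mul_apply, ← map_mul]).symm
  have mem : ∀ k : σ.IntertwiningMap ρ, k.toLinearMap ∘ₗ p ∈ (ρ.linHom ρ).invariants := fun k =>
    (Representation.mem_linHom_invariants_iff_isIntertwining _).2 ⟨fun g v => by
      simp only [LinearMap.comp_apply, p2, k.toLinearMap_apply, k.isIntertwining]⟩
  obtain ⟨c, hc⟩ := exists_scalar_of_commute σ (p ∘ₗ j.toLinearMap) fun g v => by
    simp only [LinearMap.comp_apply, j.toLinearMap_apply, j.isIntertwining, p2]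
  refine ⟨c, Representation.IntertwiningMap.ext (LinearMap.ext fun v => ?_)⟩
  have a := LinearMap.congr_fun (h _ _ (mem i) (mem j)) (i v)
  have b := LinearMap.congr_fun hc v
  simp only [LinearMap.comp_apply, Representation.IntertwiningMap.toLinearMap_apply, p1,
    LinearMap.smul_apply, LinearMap.id_apply] at a b
  rw [b, map_smul] at a
  exact a

theorem dc_integral {χ : G → ℂ} (hχ : IsCharacter G χ) (H : Subgroup G) [Fintype H] (D : Finset G)
    (h1 : ∀ g, ∀ h ∈ H, g * h ∈ D ↔ g ∈ D) (h2 : ∀ g, ∀ h ∈ H, h * g ∈ D ↔ g ∈ D) :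
    IsIntegral ℤ ((Nat.card H : ℂ)⁻¹ * ∑ g ∈ D, χ g) ∧
      (classInner (fun _ : H => (1 : ℂ)) (fun h : H => χ h) = 0 → ∑ g ∈ D, χ g = 0) := by
  classical
  obtain ⟨n, σ, rfl⟩ := hχ
  let u : Module.End ℂ (Fin n → ℂ) := (Nat.card H : ℂ)⁻¹ • ∑ g ∈ D, σ g
  have tr : (Nat.card H : ℂ)⁻¹ * ∑ g ∈ D, σ.character g = u.charpoly.roots.sum := by
    rw [← Module.End.trace_eq_sum_roots_charpoly_of_splits (IsAlgClosed.splits _)]
    simp [u, Representation.character]
  have key : ∀ μ ∈ u.charpoly.roots, μ ≠ 0 → ∃ w, w ≠ 0 ∧ u w = μ • w ∧ ∀ h ∈ H, σ h w = w := by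
    intro μ hμ h0
    obtain ⟨w, hw⟩ := ((Module.End.hasEigenvalue_iff_isRoot_charpoly u μ).2
      (Polynomial.isRoot_of_mem_roots hμ)).exists_hasEigenvector
    refine ⟨w, hw.2, hw.apply_eq_smul, fun h hh => smul_right_injective _ h0 ?_⟩
    show μ • σ h w = μ • w
    rw [← map_smul, ← hw.apply_eq_smul]
    simp only [u, LinearMap.smul_apply, LinearMap.sum_apply, map_smul, map_sum]
    congr 1
    exact Finset.sum_equiv (Equiv.mulLeft h) (fun g => (h2 g h hh).symm) fun g _ => by simp
  refine ⟨tr ▸ IsIntegral.multiset_sum fun μ hμ => ?_, fun h0 => ?_⟩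
  · by_cases h0 : μ = 0
    · rw [h0]; exact isIntegral_zero
    obtain ⟨w, w0, w1, w2⟩ := key μ hμ h0
    have := Fintype.ofFinite (G ⧸ H)
    have w3 : μ • w = ∑ q : G ⧸ H, if q.out ∈ D then σ q.out w else 0 := by
      have := sum_eq_card_smul_sum_quotient H (fun g => if g ∈ D then σ g w else 0) fun g h hh => by
        simp only [h1 g h hh, map_mul, Module.End.mul_apply, w2 h hh]
      rw [← Finset.sum_filter, Finset.filter_mem_eq_inter, Finset.univ_inter] at this
      rw [← w1]
      simp only [u, LinearMap.smul_apply, LinearMap.sum_apply]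
      rw [this, ← Nat.cast_smul_eq_nsmul ℂ, inv_smul_smul₀ (natCard_ne_zero H)]
    refine isIntegral_of_smul_mem_submodule (Submodule.span ℤ (Set.range fun g => σ g w)) (fun e => w0 ?_)
      (Submodule.fg_span (Set.finite_range _)) μ fun x hx => ?_
    · simpa using Submodule.span_eq_bot.1 e _ ⟨1, rfl⟩
    refine Submodule.span_induction (p := fun x _ => μ • x ∈ _) ?_ (by simp) ?_ ?_ hx
    · rintro _ ⟨g, rfl⟩
      rw [← map_smul, w3, map_sum]
      refine Submodule.sum_mem _ fun q _ => ?_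
      split_ifs
      · exact Submodule.subset_span ⟨g * q.out, by simp⟩
      · simp
    · intro a b _ _ ha hb; rw [smul_add]; exact add_mem ha hb
    · intro a b _ hb; rw [smul_comm]; exact Submodule.smul_mem _ _ hb
  · have : u.charpoly.roots.sum = 0 := Multiset.sum_eq_zero fun μ hμ => by
      by_contra h3
      obtain ⟨w, w0, -, w2⟩ := key μ hμ h3
      haveI := invertibleOfNonzero (natCard_ne_zero H)
      have a := Representation.card_inv_mul_sum_char_eq_finrank (σ.comp H.subtype : Representation ℂ H _)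
      rw [classInner_eq_zero_comm, classInner_one_right] at h0
      have b := Submodule.finrank_eq_zero.1 (Nat.cast_eq_zero.1 (a.symm.trans h0))
      exact w0 ((Submodule.eq_bot_iff _).1 b w fun h => w2 h h.2)
    simpa [Nat.card_pos.ne'] using tr.trans this

end gen

section perm
variable {G : Type*} [Group G] {Ω : Type*} [Fintype Ω] [MulAction G Ω]

theorem perm_char : (permRep ℂ G Ω).character = fun g => (Nat.card (fixedBy Ω g) : ℂ) := by
  classical
  ext g
  rw [Representation.character, LinearMap.trace_eq_matrix_trace ℂ (Pi.basisFun ℂ Ω), Matrix.trace,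
    Nat.card_eq_fintype_card, Fintype.card_subtype, Finset.card_filter]
  push_cast
  refine Finset.sum_congr rfl fun x _ => ?_
  simp [LinearMap.toMatrix_apply, permRep, Pi.single_apply, inv_smul_eq_iff, eq_comm (a := g • x)]

theorem mem_inv_iff {K : Type*} [Field K] {Ω' : Type*} [Fintype Ω'] [MulAction G Ω'] [DecidableEq Ω]
    (S : (Ω → K) →ₗ[K] (Ω' → K)) : S ∈ ((permRep K G Ω).linHom (permRep K G Ω')).invariants ↔
      ∀ (g : G) x y, LinearMap.toMatrix' S (g • x) (g • y) = LinearMap.toMatrix' S x y := by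
  have e : ∀ (g : G) (y : Ω), permRep K G Ω g (Pi.single y 1) = Pi.single (g • y) 1 := fun g y => by
    ext z; simp [permRep, Pi.single_apply, inv_smul_eq_iff]
  rw [Representation.mem_invariants]
  refine ⟨fun h g x y => ?_, fun h g => LinearMap.toMatrix'.injective (Matrix.ext fun x y => ?_)⟩
  · conv_rhs => rw [← h g⁻¹]
    simp only [LinearMap.toMatrix'_apply, Representation.linHom_apply, LinearMap.comp_apply, e, inv_inv]
    simp [permRep]
  · rw [← h g⁻¹ x y]
    simp only [LinearMap.toMatrix'_apply, Representation.linHom_apply, LinearMap.comp_apply, e]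
    simp [permRep]

theorem E_transpose [Fintype G] [DecidableEq Ω] (f : G → ℂ) (x y : Ω) :
    LinearMap.toMatrix' (E (permRep ℂ G Ω) fun g => f g⁻¹) x y = LinearMap.toMatrix' (E (permRep ℂ G Ω) f) y x := by
  simp only [E, LinearMap.toMatrix'_apply, LinearMap.sum_apply, Finset.sum_apply, LinearMap.smul_apply,
    Pi.smul_apply]
  refine Fintype.sum_equiv (Equiv.inv G) _ _ fun g => ?_
  simp [permRep, Pi.single_apply, inv_smul_eq_iff, eq_comm (a := x)]

variable [Fintype G] [IsPretransitive G Ω]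

theorem dvd_subdeg (f : ℕ) (hf : ∀ χ : G → ℂ, IsIrrCharacter G χ → χ ≠ (fun _ => 1) →
    classInner (fun g : G => (Nat.card (fixedBy Ω g) : ℂ)) χ ≠ 0 → ∃ m : ℕ, χ 1 = (f : ℂ) * m)
    {a b : Ω} (hab : b ≠ a) : f ∣ Nat.card (orbit (stabilizer G a) b) := by
  classical
  set H := stabilizer G a
  let D : Finset G := Finset.univ.filter fun g => g • a ∈ orbit H b
  have h1 : ∀ g, ∀ h ∈ H, g * h ∈ D ↔ g ∈ D := fun g h hh => by
    simp only [D, Finset.mem_filter, Finset.mem_univ, true_and, mul_smul, mem_stabilizer_iff.1 hh]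
  have h2 : ∀ g, ∀ h ∈ H, h * g ∈ D ↔ g ∈ D := fun g h hh => by
    simp only [D, Finset.mem_filter, Finset.mem_univ, true_and, mul_smul]
    exact ⟨fun c => by simpa [Subgroup.smul_def] using mem_orbit_of_mem_orbit (⟨h, hh⟩⁻¹ : H) c,
      fun c => mem_orbit_of_mem_orbit (⟨h, hh⟩ : H) c⟩
  have cD : D.card = Nat.card H * Nat.card (orbit H b) := by
    rw [Finset.card_eq_sum_card_fiberwise (s := D) (t := (orbit H b).toFinset) (f := fun g => g • a)
      fun g hg => by simpa [D] using hg, Finset.sum_congr rfl (g := fun _ => Nat.card H) fun x hx => ?_]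
    · simp [mul_comm]
    obtain ⟨g, rfl⟩ := exists_smul_eq G a x
    rw [Nat.card_eq_fintype_card, Fintype.card_subtype]
    refine (Finset.card_equiv (Equiv.mulLeft g) fun k => ?_).symm
    simp only [D, Finset.mem_filter, Finset.mem_univ, true_and, Equiv.coe_mulLeft, mul_smul,
      smul_left_cancel_iff, H, mem_stabilizer_iff]
    exact ⟨fun c => ⟨by rw [c]; exact Set.mem_toFinset.1 hx, c⟩, fun c => c.2⟩
  have s0 : ∑ χ : IrrCharacter G, χ.1 1 * ((Nat.card H : ℂ)⁻¹ * ∑ g ∈ D, χ.1 g) = 0 := by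
    simp only [Finset.mul_sum]
    rw [Finset.sum_comm, Finset.sum_eq_zero]
    intro g hg
    simp only [mul_left_comm _ (Nat.card H : ℂ)⁻¹, ← Finset.mul_sum]
    rw [sum_irr_deg_mul, regChar_of_ne, mul_zero]
    rintro rfl
    simp only [D, Finset.mem_filter, Finset.mem_univ, true_and, one_smul] at hg
    obtain ⟨h, hh⟩ := mem_orbit_symm.1 hg
    exact hab (hh.symm.trans h.2)
  have ex : ∀ χ ∈ Finset.univ.erase (⟨_, isIrr_one⟩ : IrrCharacter G), ∃ z, IsIntegral ℤ z ∧
      χ.1 1 * ((Nat.card H : ℂ)⁻¹ * ∑ g ∈ D, χ.1 g) = f * z := fun χ hχ => by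
    obtain ⟨c1, c2⟩ := dc_integral χ.2.isCharacter H D h1 h2
    by_cases c : classInner (fun g : G => (Nat.card (fixedBy Ω g) : ℂ)) χ = 0
    · rw [card_fixedBy_eq_indFun Ω a, classInner_indFun_left _ χ.2.isClassFunction] at c
      exact ⟨0, isIntegral_zero, by rw [c2 c]; simp⟩
    · obtain ⟨m, hm⟩ := hf χ χ.2 (fun e => Finset.ne_of_mem_erase hχ (Subtype.ext e)) c
      exact ⟨m * _, (isIntegral_natCast m).mul c1, by rw [hm, mul_assoc]⟩
  choose! z z1 z2 using ex
  rw [← Finset.add_sum_erase _ _ (Finset.mem_univ ⟨_, isIrr_one⟩), Finset.sum_congr rfl z2,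
    ← Finset.mul_sum] at s0
  simp only [one_mul, Finset.sum_const, cD, nsmul_eq_mul, mul_one, Nat.cast_mul,
    inv_mul_cancel_left₀ (natCard_ne_zero H)] at s0
  rcases eq_or_ne f 0 with rfl | f0
  · simp only [Nat.cast_zero, zero_mul, add_zero, Nat.cast_eq_zero] at s0
    rw [s0]
  refine nat_dvd_of_isIntegral_div f0 ?_
  rw [eq_neg_of_add_eq_zero_left s0, neg_div, mul_div_cancel_left₀ _ (Nat.cast_ne_zero.2 f0)]
  exact (IsIntegral.sum _ z1).neg

end perm

end CfsgPc
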