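import Cfsg.Agent.H4.Real

/-! Real forms of representations of Frobenius–Schur indicator `+1`. -/

set_option autoImplicit false
open Cfsg CfsgH3 CfsgH4 Matrix
open scoped ComplexConjugate ComplexOrder

namespace CfsgRl

variable {n : ℕ}

theorem exists_unit (T : Matrix (Fin n) (Fin n) ℂ) : ∃ a : ℂ, IsUnit (a • (1 : Matrix (Fin n) (Fin n) ℂ) + conj a • T) := by
  have h0 : ∀ t : ℝ, (1 - t * Complex.I : ℂ) ≠ 0 := fun t e => by simpa using congrArg Complex.re e
  obtain ⟨_, ⟨t, rfl⟩, ht⟩ := (Set.infinite_range_of_injective (f := fun t : ℝ => -(1 + t * Complex.I) / (1 - t * Complex.I))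
    fun s t e => by
      rw [div_eq_div_iff (h0 s) (h0 t)] at e
      have := congrArg Complex.im e
      simp at this
      linarith).exists_notMem_finite T.finite_spectrum
  refine ⟨1 + t * Complex.I, ?_⟩
  have := (spectrum.notMem_iff.1 ht).smul (Units.mk0 (-(1 - t * Complex.I)) (neg_ne_zero.2 (h0 t)))
  convert this using 1
  rw [Units.smul_def, Units.val_mk0, smul_sub, Algebra.algebraMap_eq_smul_one, smul_smul, neg_mul, mul_div_cancel₀ _ (h0 t)]
  simp [sub_eq_add_neg, ← neg_smul, add_comm]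

variable {G : Type*} [Group G] [Fintype G]

theorem real_aux [Nonempty (Fin n)] (X : G →* Matrix (Fin n) (Fin n) ℂ)
    (hc : ∀ B, (∀ g, B * X g = X g * B) → ∃ c : ℂ, B = c • 1) {A : Matrix (Fin n) (Fin n) ℂ} (hAu : IsUnit A)
    (hAs : Aᵀ = A) (hA : ∀ g, (X g)ᵀ * A * X g = A) :
    ∃ R : G →* Matrix (Fin n) (Fin n) ℝ, ∀ g, ((R g).trace : ℂ) = (X g).trace := by
  classical
  let σ : Matrix (Fin n) (Fin n) ℂ →+* Matrix (Fin n) (Fin n) ℂ := (starRingEnd ℂ).mapMatrix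
  have s1 : ∀ B, σ (σ B) = B := fun B => by ext; simp [σ]
  have s2 : ∀ B, σ Bᵀ = Bᴴ := fun B => rfl
  have s3 : ∀ (c : ℂ) B, σ (c • B) = conj c • σ B := fun c B => by ext; simp [σ]
  have inv : ∀ g, X g * X g⁻¹ = 1 := fun g => by rw [← map_mul, mul_inv_cancel, map_one]
  obtain ⟨H, hH, h1⟩ : ∃ H : Matrix (Fin n) (Fin n) ℂ, H.PosDef ∧ ∀ g, (X g)ᴴ * H * X g = H := by
    refine ⟨∑ g, (X g)ᴴ * X g, ?_, fun h => ?_⟩
    · rw [← Finset.add_sum_erase _ _ (Finset.mem_univ 1), map_one, conjTranspose_one, one_mul]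
      exact PosDef.one.add_posSemidef (posSemidef_sum _ fun g _ => posSemidef_conjTranspose_mul_self _)
    · rw [Finset.mul_sum, Finset.sum_mul, eq_comm, ← Equiv.sum_comp (Equiv.mulRight h)]
      simp only [Equiv.coe_mulRight, map_mul, conjTranspose_mul, mul_assoc]
  have hd := (isUnit_iff_isUnit_det H).1 hH.isUnit
  have h2 : ∀ g, H⁻¹ * σ A * σ (X g) = X g * (H⁻¹ * σ A) := fun g => by
    have a := congrArg σ (hA g)
    rw [map_mul, map_mul, s2] at a
    refine hH.isUnit.mul_left_cancel ((IsUnit.of_mul_eq_one (a := (X g)ᴴ) (X g⁻¹)ᴴ (by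
      rw [← conjTranspose_mul, ← map_mul, inv_mul_cancel, map_one, conjTranspose_one])).mul_left_cancel ?_)
    rw [mul_assoc, mul_nonsing_inv_cancel_left _ _ hd, ← mul_assoc, a, ← mul_assoc, ← mul_assoc, h1,
      mul_nonsing_inv_cancel_left _ _ hd]
  obtain ⟨c, h3⟩ := hc (H⁻¹ * σ A * σ (H⁻¹ * σ A)) fun g => by
    have a := congrArg σ (h2 g)
    rw [map_mul, s1, map_mul σ (X g)] at a
    rw [mul_assoc, a, ← mul_assoc, h2, mul_assoc]
  have h4 : 0 < c := by
    have a := (hH.inv.transpose.conjTranspose_mul_mul_same (mulVec_injective_iff_isUnit.2 hAu)).trace_pos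
    have b : Aᴴ * H⁻¹ᵀ * A = c • H := by
      rw [← mul_one H, ← mul_smul_comm, ← h3, mul_one, mul_assoc H⁻¹, mul_nonsing_inv_cancel_left _ _ hd, map_mul, s1,
        ← s2, hAs, mul_assoc, ← hH.inv.1.eq, ← s2, s1, s2, hH.inv.1.eq]
    rw [b, trace_smul, smul_eq_mul] at a
    simpa [hH.trace_pos.ne'] using div_pos a hH.trace_pos
  obtain ⟨r, hr, rfl⟩ : ∃ r : ℝ, r ≠ 0 ∧ c = r * r := ⟨√c.re, (Real.sqrt_pos.2 (Complex.pos_iff.1 h4).1).ne', by
    rw [← Complex.ofReal_mul, Real.mul_self_sqrt (Complex.pos_iff.1 h4).1.le]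
    exact Complex.ext rfl (Complex.pos_iff.1 h4).2.symm⟩
  obtain ⟨T, t1, t2⟩ : ∃ T, T * σ T = 1 ∧ ∀ g, T * σ (X g) = X g * T := ⟨(r : ℂ)⁻¹ • (H⁻¹ * σ A), by
    rw [s3, smul_mul_smul_comm, h3, smul_smul, map_inv₀, Complex.conj_ofReal, ← mul_inv,
      inv_mul_cancel₀ (mul_ne_zero (Complex.ofReal_ne_zero.2 hr) (Complex.ofReal_ne_zero.2 hr)), one_smul],
    fun g => by rw [smul_mul_assoc, h2, mul_smul_comm]⟩
  obtain ⟨a, Q, hQ⟩ := exists_unit T
  have q1 : T * σ Q = Q := by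
    rw [hQ, map_add, s3, s3, map_one, mul_add, mul_smul_comm, mul_smul_comm, t1, mul_one, Complex.conj_conj, add_comm]
  have q2 : ∀ g, σ ((Q⁻¹).1 * X g * Q.1) = (Q⁻¹).1 * X g * Q.1 := fun g => by
    refine Q.isUnit.mul_left_cancel ?_
    nth_rw 1 [← q1]
    rw [mul_assoc T, ← map_mul, mul_assoc, Units.mul_inv_cancel_left, map_mul, ← mul_assoc, t2, mul_assoc, q1]
  have q3 : ∀ g, Complex.ofRealHom.mapMatrix (((Q⁻¹).1 * X g * Q.1 : Matrix _ _ ℂ).map Complex.re) = (Q⁻¹).1 * X g * Q.1 := fun g => by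
    ext i j
    exact Complex.conj_eq_iff_re.1 (congrFun (congrFun (q2 g) i) j)
  have ij : Function.Injective (Complex.ofRealHom.mapMatrix : Matrix (Fin n) (Fin n) ℝ → _) :=
    Matrix.map_injective Complex.ofReal_injective
  refine ⟨⟨⟨fun g => ((Q⁻¹).1 * X g * Q.1 : Matrix _ _ ℂ).map Complex.re, ij ?_⟩, fun g h => ij ?_⟩, fun g => ?_⟩
  · rw [q3, map_one, map_one, mul_one, Units.inv_mul]
  · rw [map_mul Complex.ofRealHom.mapMatrix, q3, q3, q3, map_mul]
    simp only [mul_assoc, Units.mul_inv_cancel_left]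
  · exact (AddMonoidHom.map_trace Complex.ofRealHom.toAddMonoidHom _).trans
      ((congrArg trace (q3 g)).trans (trace_units_conj' Q (X g)))

theorem exists_real (ρ : Representation ℂ G (Fin n → ℂ)) [ρ.IsIrreducible] (h : fs ρ.character = 1) :
    ∃ R : G →* Matrix (Fin n) (Fin n) ℝ, ∀ g, ((R g).trace : ℂ) = ρ.character g := by
  obtain ⟨⟨A, hA0, hA⟩, hs⟩ := exists_invF ρ ((fs_cases (isIrr_of_rep ρ)).resolve_right
    fun e => one_ne_zero (h.symm.trans e.2)).1
  haveI : Nonempty (Fin n) := not_isEmpty_iff.1 fun _ => hA0 (Subsingleton.elim _ _)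
  simp only [character_eq_trace]
  exact real_aux ⟨⟨fun g => LinearMap.toMatrix' (ρ g), toM_one ρ⟩, toM_mul ρ⟩ (fun B => exists_scalar_of_commute' ρ)
    ((isUnit_iff_isUnit_det A).2 (hA.det_ne_zero hA0).isUnit) (by rw [hs A hA, h, one_smul]) hA

/-- The representation on column vectors. -/
noncomputable def ofM {K : Type*} [Field K] (R : G →* Matrix (Fin n) (Fin n) K) : Representation K G (Fin n → K) :=
  (Matrix.toLinAlgEquiv' : Matrix (Fin n) (Fin n) K ≃ₐ[K] _).toMonoidHom.comp R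

omit [Fintype G] in
theorem toM_ofM {K : Type*} [Field K] (R : G →* Matrix (Fin n) (Fin n) K) (g : G) :
    LinearMap.toMatrix' (ofM R g) = R g := LinearMap.toMatrix'_toLin' _

theorem fs_of_real {χ : G → ℂ} (hχ : IsIrrCharacter G χ) (R : G →* Matrix (Fin n) (Fin n) ℝ)
    (h : ∀ g, ((R g).trace : ℂ) = χ g) : fs χ = 1 := by
  let ρ := ofM (Complex.ofRealHom.mapMatrix.toMonoidHom.comp R)
  have a : ∀ g, LinearMap.toMatrix' (ρ g) = (R g).map Complex.ofReal := toM_ofM _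
  have e : ρ.character = χ := funext fun g => by
    rw [character_eq_trace, a, ← h]
    exact (AddMonoidHom.map_trace Complex.ofRealHom.toAddMonoidHom _).symm
  haveI := isIrreducible_of_isIrr ρ (e ▸ hχ)
  have b := (exists_invF ρ fun g => by rw [e, ← h, Complex.ofReal_im]).2 _ (invF_avg ρ 1)
  haveI : Nonempty (Fin n) := not_isEmpty_iff.1 fun _ => hχ.apply_one_ne_zero (by rw [← h]; simp [trace])
  obtain ⟨k⟩ := this
  have c := congrFun (congrFun b k) k
  rw [transpose_apply, Matrix.smul_apply, smul_eq_mul, e, eq_comm, mul_eq_right₀] at c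
  · exact c
  have d : avgF ρ 1 k k = (∑ g, ((R g)ᵀ * R g) k k : ℝ) := by
    simp [avgF, a, Matrix.sum_apply, Matrix.mul_apply]
  rw [d, Complex.ofReal_ne_zero]
  refine (Finset.sum_pos' (fun g _ => ?_) ⟨(1 : G), Finset.mem_univ _, by simp⟩).ne'
  rw [Matrix.mul_apply]
  exact Finset.sum_nonneg fun i _ => mul_self_nonneg (R g i k)

end CfsgRl
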