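import Cfsg.Agent.H3.Rl
import Cfsg.Agent.H3.More

/-! Induction of real matrix representations. -/

set_option autoImplicit false
open Cfsg CfsgH3 CfsgH4 Matrix

namespace CfsgRl

variable {G : Type*} [Group G] [Fintype G] {n : ℕ}

theorem ind_real (H : Subgroup G) (R : H →* Matrix (Fin n) (Fin n) ℝ) {θ : H → ℂ} (h : ∀ x, ((R x).trace : ℂ) = θ x) :
    ∃ (m : ℕ) (Y : G →* Matrix (Fin m) (Fin m) ℝ), ∀ g, ((Y g).trace : ℂ) = indFun H θ g := by
  classical
  let E : G → Matrix (Fin n) (Fin n) ℝ := fun g => if h : g ∈ H then R ⟨g, h⟩ else 0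
  have e1 : ∀ u ∈ H, ∀ x, E u * E x = E (u * x) := fun u hu x => by
    by_cases hx : x ∈ H
    · simp only [E, dif_pos hu, dif_pos hx, dif_pos (H.mul_mem hu hx), ← map_mul]
      rfl
    · simp only [E, dif_neg hx, dif_neg (fun e => hx ((H.mul_mem_cancel_left hu).1 e)), mul_zero]
  have e2 : ∀ x, ((E x).trace : ℂ) = extendByZero H θ x := fun x => by
    by_cases hx : x ∈ H
    · simp only [E, dif_pos hx, h]
      exact (extendByZero_coe θ ⟨x, hx⟩).symm
    · simp only [E, dif_neg hx, extendByZero_of_not_mem θ hx, trace_zero, Complex.ofReal_zero]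
  let Y : G →* Matrix (G ⧸ H) (G ⧸ H) (Matrix (Fin n) (Fin n) ℝ) :=
    ⟨⟨fun g => Matrix.of fun a b => E (a.out⁻¹ * g * b.out), by
      ext1 a b
      by_cases e : a = b
      · subst e
        simp only [of_apply, mul_one, inv_mul_cancel, one_apply_eq, E, dif_pos H.one_mem]
        exact R.map_one
      · rw [of_apply, mul_one, one_apply_ne e]
        exact dif_neg fun k => e (by rw [← a.out_eq, ← b.out_eq]; exact QuotientGroup.eq.2 k)⟩, fun g g' => by
      ext1 a b
      have k : ∀ c : G ⧸ H, a.out⁻¹ * g * c.out ∈ H ↔ c = (g⁻¹ * a.out : G) := fun c => by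
        rw [eq_comm, ← c.out_eq, QuotientGroup.eq, c.out_eq, _root_.mul_inv_rev, inv_inv]
      rw [mul_apply, Finset.sum_eq_single ((g⁻¹ * a.out : G) : G ⧸ H) (fun c _ hc => by
        simp only [of_apply, E, dif_neg (mt (k c).1 hc), zero_mul]) (by simp)]
      simp only [of_apply]
      rw [e1 _ ((k _).2 rfl)]
      simp only [mul_assoc, mul_inv_cancel_left]⟩
  let e := Fintype.equivFin ((G ⧸ H) × Fin n)
  refine ⟨_, ((reindexAlgEquiv ℝ ℝ e).toMonoidHom.comp (compRingEquiv (G ⧸ H) (Fin n) ℝ).toMonoidHom).comp Y, fun g => ?_⟩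
  have a : ((((reindexAlgEquiv ℝ ℝ e).toMonoidHom.comp (compRingEquiv (G ⧸ H) (Fin n) ℝ).toMonoidHom).comp Y) g).trace =
      ∑ q : G ⧸ H, (E (q.out⁻¹ * g * q.out)).trace := by
    rw [trace, ← e.sum_comp, Fintype.sum_prod_type]
    simp [Y, trace]
  rw [a, indFun_apply, sum_eq_card_smul_sum_quotient H, nsmul_eq_mul, inv_mul_cancel_left₀ (by simp)]
  · simp [e2]
  · intro x u hu
    rw [← e2, ← e2, _root_.mul_inv_rev, mul_assoc, mul_assoc, ← e1 _ (H.inv_mem hu), trace_mul_comm]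
    by_cases k : x⁻¹ * g * x ∈ H
    · rw [e1 _ (by simpa only [mul_assoc] using H.mul_mem k hu)]
      simp only [mul_assoc, mul_inv_cancel, mul_one]
    · simp only [E, dif_neg k, dif_neg (fun e : x⁻¹ * (g * (x * u)) ∈ H => k ((H.mul_mem_cancel_right hu).1 (by simpa only [mul_assoc] using e))), zero_mul]

theorem fs_ind {H : Subgroup G} [Fintype H] {θ : H → ℂ} (hθ : IsIrrCharacter H θ) (h : fs θ = 1)
    (hi : IsIrrCharacter G (indFun H θ)) : fs (indFun H θ) = 1 := by
  obtain ⟨n, ρ, hρ, rfl⟩ := hθ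
  obtain ⟨R, hR⟩ := exists_real ρ h
  obtain ⟨m, Y, hY⟩ := ind_real H R hR
  exact fs_of_real hi Y hY

end CfsgRl
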